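import Mathlib
import Cfsg.Prelude.Def_Solvable
import Cfsg.Agent.Lib.Perm2.Hall2

/-!
Quadruply transitive groups with Frobenius four-point stabiliser: definitions and basic facts.
See `plans/FROB4.md`.
-/

set_option autoImplicit false

namespace CfsgLib.Frob4

open MulAction Subgroup
open scoped Pointwise

/-- four distinct points -/
def D4 {Ω : Type*} (a b c d : Ω) : Prop := a ≠ b ∧ a ≠ c ∧ a ≠ d ∧ b ≠ c ∧ b ≠ d ∧ c ≠ d

variable {G Ω : Type*} [Group G] [MulAction G Ω]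

/-- `H` preserves `Γ` and is quadruply transitive on it -/
structure T4 (H : Subgroup G) (Γ : Set Ω) : Prop where
  inv : ∀ h ∈ H, ∀ x ∈ Γ, h • x ∈ Γ
  tr : ∀ {a b c d a' b' c' d' : Ω}, a ∈ Γ → b ∈ Γ → c ∈ Γ → d ∈ Γ → a' ∈ Γ → b' ∈ Γ → c' ∈ Γ →
    d' ∈ Γ → D4 a b c d → D4 a' b' c' d' →
      ∃ h ∈ H, h • a = a' ∧ h • b = b' ∧ h • c = c' ∧ h • d = d'

/-- pointwise stabiliser -/
abbrev St (G : Type*) [Group G] [MulAction G Ω] (Λ : Set Ω) : Subgroup G := fixingSubgroup G Λ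

/-- fixed points of a subgroup -/
def Fx (Ω : Type*) [MulAction G Ω] (W : Subgroup G) : Set Ω := {x | ∀ g ∈ W, g • x = x}

/-- 2-elements -/
def Two (g : G) : Prop := ∃ n : ℕ, g ^ 2 ^ n = 1

/-- the subgroup generated by the 2-elements fixing `Λ` pointwise -/
def Pd (G : Type*) [Group G] [MulAction G Ω] (Λ : Set Ω) : Subgroup G :=
  closure {g | g ∈ St G Λ ∧ Two g}

/-- the permutation group induced by `H` on `Γ` -/
def ind (H : Subgroup G) (Γ : Set Ω) : Subgroup (Equiv.Perm Γ) where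
  carrier := {σ | ∃ h ∈ H, ∀ x : Γ, (σ x : Ω) = h • (x : Ω)}
  one_mem' := ⟨1, one_mem H, fun x => by simp⟩
  mul_mem' := by
    rintro σ τ ⟨g, hg, e⟩ ⟨h, hh, f⟩
    exact ⟨g * h, mul_mem hg hh, fun x => by rw [Equiv.Perm.mul_apply, e, f, mul_smul]⟩
  inv_mem' := by
    rintro σ ⟨g, hg, e⟩
    refine ⟨g⁻¹, inv_mem hg, fun x => ?_⟩
    rw [eq_inv_smul_iff, ← e]
    simp

/-- `N` preserves `S` and is regular on it -/
structure Rg (N : Subgroup G) (S : Set Ω) : Prop where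
  inv : ∀ g ∈ N, ∀ x ∈ S, g • x ∈ S
  tr : ∀ x ∈ S, ∀ y ∈ S, ∃ g ∈ N, g • x = y
  free : ∀ x ∈ S, ∀ g ∈ N, g • x = x → g = 1

/-- what is used of the Sylow 2-subgroups of the simple Bender groups -/
structure BT (T : Subgroup G) : Prop where
  four : ∀ t ∈ T, t * t * (t * t) = 1
  big : ∀ x ∈ T, x * x ≠ 1 → 16 ≤ Nat.card T

/-- `g` acts on `Γ` as the 3-cycle `(a b c)` -/
def Cyc (Γ : Set Ω) (g : G) (a b c : Ω) : Prop :=
  g • a = b ∧ g • b = c ∧ g • c = a ∧ ∀ x ∈ Γ, x ≠ a → x ≠ b → x ≠ c → g • x = x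

/-- case A: the four-point stabiliser has even order and no four-group -/
structure HA (G Ω : Type*) [Group G] [MulAction G Ω] : Prop where
  t4 : T4 (⊤ : Subgroup G) (Set.univ : Set Ω)
  uniq : ∀ s t : G, orderOf s = 2 → orderOf t = 2 → s * t = t * s →
    4 ≤ (fixedBy Ω s ∩ fixedBy Ω t).ncard → s = t
  ex : ∃ t : G, orderOf t = 2 ∧ 4 ≤ (fixedBy Ω t).ncard

/-- four-point stabilisers have no non-trivial normal 2-subgroup -/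
def No2 (G Ω : Type*) [Group G] [MulAction G Ω] : Prop :=
  ∀ Δ : Set Ω, Δ.ncard = 4 → ∀ Q : Subgroup G, Q ≤ St G Δ → IsPGroup 2 Q →
    St G Δ ≤ normalizer (Q : Set G) → Q = ⊥

/-- case B: Frobenius four-point stabilisers with kernel of even order `κ`; the elements of the
kernel are those with `g ^ κ = 1` -/
structure HB (G Ω : Type*) [Group G] [MulAction G Ω] (κ : ℕ) : Prop where
  t4 : T4 (⊤ : Subgroup G) (Set.univ : Set Ω)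
  two : 2 ∣ κ
  two_mul : ∀ Δ : Set Ω, 4 ≤ Δ.ncard → ∀ g ∈ St G Δ, ∀ h ∈ St G Δ, Two g → Two h → Two (g * h)
  kmul : ∀ Δ : Set Ω, 4 ≤ Δ.ncard → ∀ g ∈ St G Δ, ∀ h ∈ St G Δ, g ^ κ = 1 → h ^ κ = 1 →
    (g * h) ^ κ = 1
  nilp : ∀ Δ : Set Ω, 4 ≤ Δ.ncard → ∀ g ∈ St G Δ, ∀ h ∈ St G Δ, g ^ κ = 1 → Odd (orderOf g) →
    Two h → g * h = h * g
  split : ∀ Δ : Set Ω, 4 ≤ Δ.ncard → ∀ g ∈ St G Δ, g ^ κ = 1 ∨ (orderOf g).Coprime κ
  fpf : ∀ Δ : Set Ω, 4 ≤ Δ.ncard → ∀ g ∈ St G Δ, ∀ k ∈ St G Δ, g ^ κ ≠ 1 → k ^ κ = 1 →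
    g * k = k * g → k = 1
  exE : ∀ Δ : Set Ω, Δ.ncard = 4 → ∃ g ∈ St G Δ, g ^ κ ≠ 1
  exP : ∀ Δ : Set Ω, Δ.ncard = 4 → ∃ t ∈ St G Δ, orderOf t = 2
  conj : ∀ Δ : Set Ω, Δ.ncard = 4 → ∀ e ∈ St G Δ, ∀ e' ∈ St G Δ, (orderOf e).Prime →
    orderOf e' = orderOf e → ¬ orderOf e ∣ κ →
      ∃ k ∈ St G Δ, k ^ κ = 1 ∧ k * e' * k⁻¹ ∈ zpowers e
  ex4 : ∃ a b c d : Ω, D4 a b c d

/-- `H` is quadruply transitive on `Γ` with the 2-elements of a four-point stabiliser semiregular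
on the remaining points and not all trivial -/
structure SRH (H : Subgroup G) (Γ : Set Ω) : Prop where
  t4 : T4 H Γ
  even : Even Γ.ncard
  five : 5 ≤ Γ.ncard
  ex : ∃ t ∈ H, Two t ∧ 4 ≤ (Γ ∩ fixedBy Ω t).ncard ∧ t ∉ St G Γ
  semi : ∀ t ∈ H, Two t → 5 ≤ (Γ ∩ fixedBy Ω t).ncard → t ∈ St G Γ

/-- type `A₈` -/
structure Be (H : Subgroup G) (Γ : Set Ω) : Prop where
  card : Γ.ncard = 8
  cyc : ∀ a ∈ Γ, ∀ b ∈ Γ, ∀ c ∈ Γ, a ≠ b → a ≠ c → b ≠ c → ∃ h ∈ H, Cyc Γ h a b c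
  inv : ∀ h ∈ H, h * h ∈ St G Γ → h ∉ St G Γ →
    (Γ ∩ fixedBy Ω h).ncard = 0 ∨ (Γ ∩ fixedBy Ω h).ncard = 4
  nine : 9 ∣ Nat.card H

/-- type `M₁₂` -/
structure Ga (H : Subgroup G) (Γ : Set Ω) : Prop where
  card : Γ.ncard = 12
  sharp : ∀ h ∈ H, 5 ≤ (Γ ∩ fixedBy Ω h).ncard → h ∈ St G Γ
  tr : ∀ Δ ⊆ Γ, Δ.ncard = 4 → ∀ x ∈ Γ, ∀ y ∈ Γ, x ∉ Δ → y ∉ Δ → ∃ h ∈ H ⊓ St G Δ, h • x = y
  uniq : ∀ Δ ⊆ Γ, Δ.ncard = 4 → ∀ s ∈ H ⊓ St G Δ, ∀ t ∈ H ⊓ St G Δ, s ∉ St G Γ → t ∉ St G Γ →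
    s * s ∈ St G Γ → t * t ∈ St G Γ → s⁻¹ * t ∈ St G Γ

/-- every normal subgroup of `H` acting non-trivially on `Γ` induces all elements of odd order -/
def Cover (H : Subgroup G) (Γ : Set Ω) : Prop :=
  ∀ N : Subgroup G, N ≤ H → H ≤ normalizer (N : Set G) → ¬ N ≤ St G Γ →
    ∀ y ∈ H, Odd (orderOf y) → ∃ c ∈ N, c⁻¹ * y ∈ St G Γ

/-- the normaliser of `D = Pd G Γ` -/
abbrev Mn (G : Type*) [Group G] [MulAction G Ω] (Γ : Set Ω) : Subgroup G :=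
  normalizer (Pd G Γ : Set G)

/-- case B with `Fix(P) = Δ`; `D = Pd G Γ` is a maximal 2-subgroup fixing at least five points and
`Γ` is its fixed point set -/
structure Cf (G : Type*) [Group G] [MulAction G Ω] (κ : ℕ) (Γ : Set Ω) : Prop where
  hb : HB G Ω κ
  k4 : ∀ Δ : Set Ω, Δ.ncard = 4 → Fx Ω (Pd G Δ) = Δ
  five : 5 ≤ Γ.ncard
  fx : Fx Ω (Pd G Γ) = Γ
  max : ∀ Λ ⊆ Γ, 5 ≤ Λ.ncard → Pd G Λ = Pd G Γ
  t4 : T4 (Mn G Γ) Γ
  cover : Cover (Mn G Γ) Γ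

/-- types `S₆` and `M₁₂` in group terms (`P = Pd G Δ`, `Q = P ⊓ M`, `D = Pd G Γ`) -/
structure AG (G : Type*) [Group G] [MulAction G Ω] (κ : ℕ) (Γ : Set Ω) : Prop extends Cf G κ Γ where
  uniq : ∀ Δ ⊆ Γ, Δ.ncard = 4 → ∀ s ∈ Pd G Δ ⊓ Mn G Γ, ∀ t ∈ Pd G Δ ⊓ Mn G Γ, s ∉ Pd G Γ →
    t ∉ Pd G Γ → s * s ∈ Pd G Γ → t * t ∈ Pd G Γ → s⁻¹ * t ∈ Pd G Γ
  oddt : ∀ Δ ⊆ Γ, Δ.ncard = 4 → ∀ g ∈ Mn G Γ ⊓ St G Δ, Odd (orderOf g) → g ∈ St G Γ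
  ker : ∀ Δ ⊆ Γ, Δ.ncard = 4 → ∀ g ∈ Mn G Γ ⊓ St G Δ, g ^ κ = 1
  three : ∀ y ∈ Mn G Γ, ∀ n : ℕ, y ^ 3 ^ n = 1 → y ∉ St G Γ → (Γ ∩ fixedBy Ω y).ncard ≤ 3
  card : Γ.ncard = 6 ∨ Γ.ncard = 12 ∧ ∀ Δ ⊆ Γ, Δ.ncard = 4 → ∀ x ∈ Γ, ∀ y ∈ Γ, x ∉ Δ → y ∉ Δ →
    ∃ q ∈ Pd G Δ ⊓ Mn G Γ, q • x = y

/-- the commuting elements `y`, `e` of order 3 -/
structure YE (G : Type*) [Group G] [MulAction G Ω] (κ : ℕ) (Γ : Set Ω) (a b c d p q : Ω)
    (y e : G) : Prop extends AG G κ Γ where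
  d4 : D4 a b c d
  sub : ({a, b, c, d} : Set Ω) ⊆ Γ
  yM : y ∈ Mn G Γ
  ya : y • a = b
  yb : y • b = c
  yc : y • c = a
  y3 : orderOf y = 3
  e3 : orderOf e = 3
  eΔ : e ∈ St G ({a, b, c, d} : Set Ω)
  comm : y * e = e * y
  k3 : ¬ 3 ∣ κ
  pΔ : p ∉ ({a, b, c, d} : Set Ω)
  qΔ : q ∉ ({a, b, c, d} : Set Ω)
  pq : p ≠ q
  fix : Γ ∩ fixedBy Ω y = {d, p, q}
  ep : e • p ∉ Γ ∧ e • q ∉ Γ ∧ e⁻¹ • p ∉ Γ ∧ e⁻¹ • q ∉ Γ
  odd : Odd (fixedBy Ω e).ncard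

/-! ### basic facts -/

theorem mem_St {Λ : Set Ω} {g : G} : g ∈ St G Λ ↔ ∀ x ∈ Λ, g • x = x :=
  mem_fixingSubgroup_iff G

theorem St_mono {Λ Λ' : Set Ω} (h : Λ ⊆ Λ') : St G Λ' ≤ St G Λ :=
  fun _ hg => mem_St.2 fun x hx => mem_St.1 hg x (h hx)

theorem mem_St4 {a b c d : Ω} {g : G} :
    g ∈ St G ({a, b, c, d} : Set Ω) ↔ g • a = a ∧ g • b = b ∧ g • c = c ∧ g • d = d := by
  simp [mem_St]

theorem mem_St_fixedBy (g : G) : g ∈ St G (fixedBy Ω g) := mem_St.2 fun _ h => h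

theorem St_univ [FaithfulSMul G Ω] : St G (Set.univ : Set Ω) = ⊥ :=
  eq_bot_iff.2 fun g hg => mem_bot.2 (FaithfulSMul.eq_of_smul_eq_smul (α := Ω) fun x => by
    rw [mem_St.1 hg x trivial, one_smul])

theorem conj_smul (g h : G) (x : Ω) : (g * h * g⁻¹) • g • x = g • h • x := by
  simp [mul_smul]

theorem conj_mem_St {Λ : Set Ω} {h : G} (hh : h ∈ St G Λ) (g : G) : g * h * g⁻¹ ∈ St G (g • Λ) := by
  refine mem_St.2 ?_
  rintro _ ⟨x, hx, rfl⟩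
  exact (conj_smul g h x).trans (by rw [mem_St.1 hh x hx])

theorem fixedBy_conj (g h : G) : fixedBy Ω (g * h * g⁻¹) = g • fixedBy Ω h := by
  ext x
  rw [Set.mem_smul_set_iff_inv_smul_mem, mem_fixedBy, mem_fixedBy, mul_smul, mul_smul,
    smul_eq_iff_eq_inv_smul]

theorem ncard_fixedBy_conj (g h : G) : (fixedBy Ω (g * h * g⁻¹)).ncard = (fixedBy Ω h).ncard := by
  rw [fixedBy_conj, Set.ncard_smul_set]

theorem smul_fix {g h : G} (e : g * h = h * g) {x : Ω} (hx : h • x = x) : h • g • x = g • x := by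
  rw [← mul_smul, ← e, mul_smul, hx]

theorem D4.ncard {a b c d : Ω} (h : D4 a b c d) : ({a, b, c, d} : Set Ω).ncard = 4 :=
  Perm2.ncard_four h.1 h.2.1 h.2.2.1 h.2.2.2.1 h.2.2.2.2.1 h.2.2.2.2.2

theorem exists_D4 {Δ : Set Ω} (h : Δ.ncard = 4) : ∃ a b c d, D4 a b c d ∧ Δ = {a, b, c, d} := by
  obtain ⟨a, b, c, d, h1, h2, h3, h4, h5, h6, e⟩ := Set.ncard_eq_four.1 h
  exact ⟨a, b, c, d, ⟨h1, h2, h3, h4, h5, h6⟩, e⟩

theorem exists_D4_of_le {Λ : Set Ω} (h : 4 ≤ Λ.ncard) :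
    ∃ a ∈ Λ, ∃ b ∈ Λ, ∃ c ∈ Λ, ∃ d ∈ Λ, D4 a b c d := by
  obtain ⟨Δ, h1, h2⟩ := Set.exists_subset_card_eq h
  obtain ⟨a, b, c, d, h3, rfl⟩ := exists_D4 h2
  exact ⟨a, h1 (by simp), b, h1 (by simp), c, h1 (by simp), d, h1 (by simp), h3⟩

theorem D4.smul {a b c d : Ω} (h : D4 a b c d) (g : G) : D4 (g • a) (g • b) (g • c) (g • d) := by
  simpa [D4] using h

theorem T4.set {H : Subgroup G} {Γ Δ Δ' : Set Ω} (h : T4 H Γ) (h1 : Δ ⊆ Γ) (h2 : Δ' ⊆ Γ)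
    (h3 : Δ.ncard = 4) (h4 : Δ'.ncard = 4) : ∃ g ∈ H, g • Δ = Δ' := by
  obtain ⟨a, b, c, d, hd, rfl⟩ := exists_D4 h3
  obtain ⟨a', b', c', d', hd', rfl⟩ := exists_D4 h4
  obtain ⟨g, hg, rfl, rfl, rfl, rfl⟩ := h.tr (h1 (by simp)) (h1 (by simp)) (h1 (by simp))
    (h1 (by simp)) (h2 (by simp)) (h2 (by simp)) (h2 (by simp)) (h2 (by simp)) hd hd'
  exact ⟨g, hg, by simp [Set.smul_set_insert]⟩

theorem T4.top (h : T4 (⊤ : Subgroup G) (Set.univ : Set Ω)) {a b c d a' b' c' d' : Ω}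
    (h1 : D4 a b c d) (h2 : D4 a' b' c' d') :
    ∃ g : G, g • a = a' ∧ g • b = b' ∧ g • c = c' ∧ g • d = d' := by
  obtain ⟨g, -, e⟩ := h.tr trivial trivial trivial trivial trivial trivial trivial trivial h1 h2
  exact ⟨g, e⟩

/-- the embedding attached to four distinct points -/
def D4.emb {a b c d : Ω} (h : D4 a b c d) : Fin 4 ↪ Ω :=
  ⟨![a, b, c, d], by
    obtain ⟨h1, h2, h3, h4, h5, h6⟩ := h
    intro i j e
    fin_cases i <;> fin_cases j <;> simp_all [eq_comm]⟩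

theorem d4_emb (x : Fin 4 ↪ Ω) : D4 (x 0) (x 1) (x 2) (x 3) := by
  simp [D4]

theorem t4_iff : T4 (⊤ : Subgroup G) (Set.univ : Set Ω) ↔ IsMultiplyPretransitive G Ω 4 := by
  rw [isMultiplyPretransitive_iff]
  constructor
  · intro h x y
    obtain ⟨g, h0, h1, h2, h3⟩ := h.top (d4_emb x) (d4_emb y)
    refine ⟨g, Function.Embedding.ext fun i => ?_⟩
    fin_cases i
    exacts [h0, h1, h2, h3]
  · intro h
    refine ⟨fun _ _ _ _ => trivial, fun _ _ _ _ _ _ _ _ h1 h2 => ?_⟩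
    obtain ⟨g, e⟩ := h h1.emb h2.emb
    have k := fun i => DFunLike.congr_fun e i
    exact ⟨g, trivial, k 0, k 1, k 2, k 3⟩

/-! ### induced groups -/

theorem mem_ind {H : Subgroup G} {Γ : Set Ω} {σ : Equiv.Perm Γ} :
    σ ∈ ind H Γ ↔ ∃ h ∈ H, ∀ x : Γ, (σ x : Ω) = h • (x : Ω) := Iff.rfl

/-- the restriction homomorphism -/
def res {H : Subgroup G} {Γ : Set Ω} (hi : ∀ h ∈ H, ∀ x ∈ Γ, h • x ∈ Γ) : H →* Equiv.Perm Γ where
  toFun h :=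
    { toFun := fun x => ⟨h.1 • x.1, hi _ h.2 _ x.2⟩
      invFun := fun x => ⟨h.1⁻¹ • x.1, hi _ (inv_mem h.2) _ x.2⟩
      left_inv := fun _ => Subtype.ext (inv_smul_smul _ _)
      right_inv := fun _ => Subtype.ext (smul_inv_smul _ _) }
  map_one' := Equiv.ext fun x => Subtype.ext (one_smul G x.1)
  map_mul' g h := Equiv.ext fun x => Subtype.ext (mul_smul g.1 h.1 x.1)

@[simp] theorem res_apply {H : Subgroup G} {Γ : Set Ω} (hi : ∀ h ∈ H, ∀ x ∈ Γ, h • x ∈ Γ) (h : H)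
    (x : Γ) : (res hi h x : Ω) = (h : G) • (x : Ω) := rfl

theorem res_range {H : Subgroup G} {Γ : Set Ω} (hi : ∀ h ∈ H, ∀ x ∈ Γ, h • x ∈ Γ) :
    (res hi).range = ind H Γ := by
  ext σ
  constructor
  · rintro ⟨h, rfl⟩
    exact ⟨h, h.2, fun _ => rfl⟩
  · rintro ⟨h, hh, e⟩
    exact ⟨⟨h, hh⟩, Equiv.ext fun x => Subtype.ext (e x).symm⟩

theorem res_mem {H : Subgroup G} {Γ : Set Ω} (hi : ∀ h ∈ H, ∀ x ∈ Γ, h • x ∈ Γ) (h : H) :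
    res hi h ∈ ind H Γ := ⟨h, h.2, fun _ => rfl⟩

theorem res_eq_one {H : Subgroup G} {Γ : Set Ω} (hi : ∀ h ∈ H, ∀ x ∈ Γ, h • x ∈ Γ) (h : H) :
    res hi h = 1 ↔ (h : G) ∈ St G Γ :=
  ⟨fun e => mem_St.2 fun x hx => congrArg Subtype.val (DFunLike.congr_fun e (⟨x, hx⟩ : Γ)),
    fun e => Equiv.ext fun x => Subtype.ext (mem_St.1 e x x.2)⟩

theorem ncard_fix_res {H : Subgroup G} {Γ : Set Ω} (hi : ∀ h ∈ H, ∀ x ∈ Γ, h • x ∈ Γ) (h : H) :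
    {x | res hi h x = x}.ncard = (Γ ∩ fixedBy Ω (h : G)).ncard := by
  rw [← Set.ncard_image_of_injective _ Subtype.val_injective]
  congr 1
  ext x
  exact ⟨by rintro ⟨y, hy, rfl⟩; exact ⟨y.2, congrArg Subtype.val hy⟩,
    fun hx => ⟨⟨x, hx.1⟩, Subtype.ext hx.2, rfl⟩⟩

theorem T4.ind {H : Subgroup G} {Γ : Set Ω} (h : T4 H Γ) :
    IsMultiplyPretransitive (ind H Γ) Γ 4 := by
  refine t4_iff.1 ⟨fun _ _ _ _ => trivial, fun {a b c d a' b' c' d'} _ _ _ _ _ _ _ _ h1 h2 => ?_⟩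
  obtain ⟨g, hg, e1, e2, e3, e4⟩ := h.tr a.2 b.2 c.2 d.2 a'.2 b'.2 c'.2 d'.2
    (by simpa [D4, Subtype.ext_iff] using h1) (by simpa [D4, Subtype.ext_iff] using h2)
  exact ⟨⟨_, res_mem h.inv ⟨g, hg⟩⟩, trivial, Subtype.ext e1, Subtype.ext e2, Subtype.ext e3,
    Subtype.ext e4⟩

/-! ### 2-elements -/

theorem Two.one : Two (1 : G) := ⟨0, by simp⟩

theorem Two.pow {g : G} (h : Two g) (n : ℕ) : Two (g ^ n) := by
  obtain ⟨k, e⟩ := h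
  exact ⟨k, by rw [← pow_mul, mul_comm, pow_mul, e, one_pow]⟩

theorem Two.inv {g : G} (h : Two g) : Two g⁻¹ := by
  obtain ⟨k, e⟩ := h
  exact ⟨k, by rw [inv_pow, e, inv_one]⟩

theorem Two.conj {g : G} (h : Two g) (k : G) : Two (k * g * k⁻¹) := by
  obtain ⟨n, e⟩ := h
  exact ⟨n, by rw [conj_pow, e]; simp⟩

theorem two_of_sq {g : G} (h : g * g = 1) : Two g := ⟨1, by rw [pow_one, sq, h]⟩

theorem two_of_orderOf {g : G} (h : orderOf g = 2) : Two g :=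
  ⟨1, by rw [pow_one, ← h, pow_orderOf_eq_one]⟩

theorem two_of_mem {Q : Subgroup G} (hQ : IsPGroup 2 Q) {g : G} (hg : g ∈ Q) : Two g := by
  obtain ⟨n, e⟩ := hQ ⟨g, hg⟩
  exact ⟨n, congrArg Subtype.val e⟩

theorem isPGroup_of_two {Q : Subgroup G} (h : ∀ g ∈ Q, Two g) : IsPGroup 2 Q := fun g => by
  obtain ⟨n, e⟩ := h g g.2
  exact ⟨n, Subtype.ext e⟩

theorem Two.eq_one_of_odd {g : G} (h : Two g) (ho : Odd (orderOf g)) : g = 1 := by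
  obtain ⟨n, e⟩ := h
  exact orderOf_eq_one_iff.1 (Nat.eq_one_of_dvd_coprimes ((Nat.coprime_two_right.2 ho).pow_right n)
    dvd_rfl (orderOf_dvd_of_pow_eq_one e))

/-- a 2-element outside a subgroup has a power outside it with square inside -/
theorem Two.exists_sq_mem {g : G} (h : Two g) {D : Subgroup G} (hg : g ∉ D) :
    ∃ n : ℕ, g ^ n ∉ D ∧ g ^ n * g ^ n ∈ D := by
  obtain ⟨k, e⟩ := h
  by_contra hc
  push Not at hc
  have : ∀ j, g ^ 2 ^ j ∉ D := fun j => by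
    induction j with
    | zero => simpa using hg
    | succ j ih => rw [pow_succ, pow_mul, sq]; exact hc _ ih
  exact this k (e ▸ one_mem D)

/-- the `p`-part of an element: a power by an exponent `≡ 1` modulo a given power of `p` -/
theorem exists_part [Finite G] {p : ℕ} (hp : p.Prime) (g : G) (k : ℕ) :
    ∃ m n : ℕ, (g ^ m) ^ p ^ n = 1 ∧ m ≡ 1 [MOD p ^ k] := by
  obtain ⟨n, r, hr, e⟩ := Nat.exists_eq_pow_mul_and_not_dvd (orderOf_pos g).ne' p hp.ne_one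
  have hc : r.Coprime (p ^ k) := ((hp.coprime_iff_not_dvd.2 hr).symm).pow_right k
  refine ⟨r * r ^ ((p ^ k).totient - 1), n, ?_, ?_⟩
  · rw [← pow_mul, mul_right_comm, mul_comm r, ← e, pow_mul, pow_orderOf_eq_one, one_pow]
  · rw [← pow_succ', Nat.sub_add_cancel (Nat.totient_pos.2 (pow_pos hp.pos k))]
    exact Nat.ModEq.pow_totient hc

/-- decomposition into the 2-part and the odd part -/
theorem exists_two_odd [Finite G] (g : G) :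
    ∃ u v : G, Two u ∧ Odd (orderOf v) ∧ u ∈ zpowers g ∧ v ∈ zpowers g ∧ g = u * v := by
  obtain ⟨n, r, hr, e⟩ := Nat.exists_eq_two_pow_mul_odd (orderOf_pos g).ne'
  have hc : IsCoprime (r : ℤ) (2 ^ n : ℕ) :=
    Nat.isCoprime_iff_coprime.2 ((Nat.coprime_two_right.2 hr).pow_right n)
  obtain ⟨i, j, h⟩ := hc
  refine ⟨g ^ (i * r), g ^ (j * (2 ^ n : ℕ)), ⟨n, ?_⟩, Odd.of_dvd_nat hr
    (orderOf_dvd_of_pow_eq_one ?_), zpow_mem_zpowers _ _, zpow_mem_zpowers _ _,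
    by rw [← zpow_add, h, zpow_one]⟩
  · rw [← zpow_natCast, ← zpow_mul, mul_assoc, ← Nat.cast_mul, mul_comm r, ← e, mul_comm, zpow_mul,
      zpow_natCast, pow_orderOf_eq_one, one_zpow]
  · rw [← zpow_natCast, ← zpow_mul, mul_assoc, ← Nat.cast_mul, ← e, mul_comm, zpow_mul,
      zpow_natCast, pow_orderOf_eq_one, one_zpow]

theorem Pd_le (Λ : Set Ω) : Pd G Λ ≤ St G Λ := (closure_le _).2 fun _ h => h.1

theorem mem_Pd_of {Λ : Set Ω} {g : G} (h1 : g ∈ St G Λ) (h2 : Two g) : g ∈ Pd G Λ :=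
  subset_closure ⟨h1, h2⟩

theorem Pd_mono {Λ Λ' : Set Ω} (h : Λ ⊆ Λ') : Pd G Λ' ≤ Pd G Λ :=
  closure_mono fun _ hg => ⟨St_mono h hg.1, hg.2⟩

theorem subset_Fx_Pd (Λ : Set Ω) : Λ ⊆ Fx Ω (Pd G Λ) := fun x hx _ hg => mem_St.1 (Pd_le Λ hg) x hx

theorem conj_mem_Pd {Λ : Set Ω} {h : G} (hh : h ∈ Pd G Λ) (g : G) : g * h * g⁻¹ ∈ Pd G (g • Λ) := by
  induction hh using closure_induction with
  | mem x hx => exact mem_Pd_of (conj_mem_St hx.1 g) (hx.2.conj g)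
  | one => simp
  | mul x y _ _ hx hy => simpa [mul_assoc] using mul_mem hx hy
  | inv x _ hx => simpa [mul_assoc] using inv_mem hx

theorem mem_Pd_smul {Λ : Set Ω} {g h : G} : h ∈ Pd G (g • Λ) ↔ g⁻¹ * h * g ∈ Pd G Λ :=
  ⟨fun e => by simpa using conj_mem_Pd e g⁻¹, fun e => by simpa [mul_assoc] using conj_mem_Pd e g⟩

theorem Pd_smul (Λ : Set Ω) (g : G) : Pd G (g • Λ) = (Pd G Λ).map (MulAut.conj g).toMonoidHom := by
  ext h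
  rw [mem_Pd_smul]
  exact ⟨fun e => ⟨_, e, by simp [mul_assoc]⟩, by rintro ⟨k, hk, rfl⟩; simpa [mul_assoc] using hk⟩

theorem card_Pd_smul (Λ : Set Ω) (g : G) : Nat.card (Pd G (g • Λ)) = Nat.card (Pd G Λ) := by
  rw [Pd_smul, card_map_of_injective (MulAut.conj g).injective]

theorem mem_Mn_of_smul {Λ : Set Ω} {g : G} (h : g • Λ = Λ) : g ∈ Mn G Λ := by
  refine mem_normalizer_iff''.2 fun k => ?_
  rw [← mem_Pd_smul, h]

theorem St_le_Mn (Λ : Set Ω) : St G Λ ≤ Mn G Λ := fun g hg => mem_Mn_of_smul (by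
  ext x
  exact ⟨by rintro ⟨y, hy, rfl⟩; simpa [mem_St.1 hg y hy] using hy,
    fun hx => ⟨x, hx, mem_St.1 hg x hx⟩⟩)

theorem smul_mem_Fx {W : Subgroup G} {g : G} (hg : g ∈ normalizer (W : Set G)) {x : Ω}
    (hx : x ∈ Fx Ω W) : g • x ∈ Fx Ω W := fun h hh => by
  have := hx _ ((mem_normalizer_iff''.1 hg h).1 hh)
  rwa [mul_smul, mul_smul, inv_smul_eq_iff] at this

theorem Fx_Pd_smul (Λ : Set Ω) (g : G) : Fx Ω (Pd G (g • Λ)) = g • Fx Ω (Pd G Λ) := by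
  ext x
  rw [Set.mem_smul_set_iff_inv_smul_mem]
  refine ⟨fun h k hk => ?_, fun h k hk => ?_⟩
  · have := h _ (conj_mem_Pd hk g)
    rwa [mul_smul, mul_smul, smul_eq_iff_eq_inv_smul] at this
  · have := h _ (mem_Pd_smul.1 hk)
    simpa [mul_smul] using this

theorem Fx_zpowers (g : G) : Fx Ω (zpowers g) = fixedBy Ω g := by
  ext x
  refine ⟨fun h => h g (mem_zpowers g), fun h k hk => ?_⟩
  obtain ⟨n, rfl⟩ := mem_zpowers_iff.1 hk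
  exact fixedBy_subset_fixedBy_zpow Ω g n h

/-- Witt's lemma -/
theorem witt {H : Subgroup G} {Γ : Set Ω} (h : T4 H Γ) {W : Subgroup G}
    (hW : ∀ Δ ⊆ Γ ∩ Fx Ω W, Δ.ncard = 4 → ∀ g ∈ H, g⁻¹ • Δ ⊆ Fx Ω W →
      ∃ k ∈ H ⊓ St G Δ, k * g ∈ normalizer (W : Set G)) :
    T4 (H ⊓ normalizer (W : Set G)) (Γ ∩ Fx Ω W) := by
  refine ⟨fun g hg x hx => ⟨h.inv g hg.1 x hx.1, smul_mem_Fx hg.2 hx.2⟩,
    fun {a b c d a' b' c' d'} ha hb hc hd ha' hb' hc' hd' h1 h2 => ?_⟩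
  obtain ⟨g, hg, rfl, rfl, rfl, rfl⟩ := h.tr ha.1 hb.1 hc.1 hd.1 ha'.1 hb'.1 hc'.1 hd'.1 h1 h2
  obtain ⟨k, hk, e⟩ := hW {g • a, g • b, g • c, g • d} (by
    simp [Set.insert_subset_iff, ha'.1, hb'.1, hc'.1, hd'.1, ha'.2, hb'.2, hc'.2, hd'.2])
    h2.ncard g hg (by
    simp [Set.smul_set_insert, Set.insert_subset_iff, ha.2, hb.2, hc.2, hd.2])
  obtain ⟨e1, e2, e3, e4⟩ := mem_St4.1 hk.2
  exact ⟨k * g, ⟨mul_mem hk.1 hg, e⟩, by rw [mul_smul, e1], by rw [mul_smul, e2],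
    by rw [mul_smul, e3], by rw [mul_smul, e4]⟩

/-- counting fixed points modulo `p` -/
theorem ncard_modEq [Finite Ω] {p n : ℕ} (hp : p.Prime) {g : G} {S : Set Ω}
    (hS : ∀ x ∈ S, g • x ∈ S) (hg : ∀ x ∈ S, g ^ p ^ n • x = x) :
    S.ncard ≡ (S ∩ fixedBy Ω g).ncard [MOD p] := by
  have := Fact.mk hp
  have hi : ∀ h ∈ zpowers g, ∀ x ∈ S, h • x ∈ S := by
    have h1 : g • S = S := Set.eq_of_subset_of_ncard_le (by rintro _ ⟨x, hx, rfl⟩; exact hS x hx)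
      (Set.ncard_smul_set g S).ge
    intro h hh x hx
    have : h ∈ stabilizer G S := (zpowers_le.2 h1 : zpowers g ≤ stabilizer G S) hh
    exact (mem_stabilizer_iff.1 this) ▸ Set.smul_mem_smul_set hx
  have e : res hi ⟨g, mem_zpowers g⟩ ^ p ^ n = 1 := by
    rw [← map_pow]
    exact (res_eq_one hi _).2 (mem_St.2 hg)
  have hP : IsPGroup p (zpowers (res hi ⟨g, mem_zpowers g⟩)) := fun x => by
    obtain ⟨j, hj⟩ := mem_zpowers_iff.1 x.2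
    refine ⟨n, Subtype.ext ?_⟩
    rw [SubgroupClass.coe_pow, ← hj, ← zpow_natCast, ← zpow_mul, mul_comm, zpow_mul, zpow_natCast,
      e, one_zpow, OneMemClass.coe_one]
  have := Perm2.card_modEq_of_isPGroup hP (Set.univ : Set S) fun _ _ _ _ => trivial
  rwa [Set.univ_inter, Perm2.fixedPoints_zpowers, Set.ncard_univ, Nat.card_coe_set_eq,
    show {x : S | res hi ⟨g, mem_zpowers g⟩ • x = x}.ncard = _ from ncard_fix_res hi _] at this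

theorem Rg.card {N : Subgroup G} {S : Set Ω} (h : Rg N S) {x : Ω} (hx : x ∈ S) :
    S.ncard = Nat.card N := by
  rw [← Nat.card_coe_set_eq]
  refine (Nat.card_eq_of_bijective (fun g : N => (⟨g.1 • x, h.inv _ g.2 x hx⟩ : S))
    ⟨fun g k e => Subtype.ext ?_, fun y => ?_⟩).symm
  · have e' : g.1 • x = k.1 • x := congrArg Subtype.val e
    have := h.free x hx (k.1⁻¹ * g) (mul_mem (inv_mem k.2) g.2) (by
      rw [mul_smul, e', inv_smul_smul])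
    exact (inv_mul_eq_one.1 this).symm
  · obtain ⟨g, hg, e⟩ := h.tr x hx y y.2
    exact ⟨⟨g, hg⟩, Subtype.ext e⟩

/-- fixed points of an element normalising a regular group -/
theorem Rg.ncard_fix {N : Subgroup G} {S : Set Ω} (h : Rg N S) {g : G}
    (hg : g ∈ normalizer (N : Set G)) {x : Ω} (hx : x ∈ S) (e : g • x = x) :
    (S ∩ fixedBy Ω g).ncard = Nat.card ↥(N ⊓ centralizer {g}) := by
  refine Rg.card (x := x) ⟨fun k hk y hy => ⟨h.inv k hk.1 y hy.1,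
    smul_fix (mem_centralizer_singleton_iff.1 hk.2) hy.2⟩, fun y hy z hz => ?_,
    fun y hy k hk => h.free y hy.1 k hk.1⟩ ⟨hx, e⟩
  obtain ⟨k, hk, rfl⟩ := h.tr y hy.1 z hz.1
  refine ⟨k, ⟨hk, mem_centralizer_singleton_iff.2 ?_⟩, rfl⟩
  have := h.free y hy.1 (k⁻¹ * (g * k * g⁻¹)) (mul_mem (inv_mem hk)
    ((mem_normalizer_iff.1 hg k).1 hk)) (by
      have h1 : g⁻¹ • y = y := inv_smul_eq_iff.2 hy.2.symm
      rw [mul_smul, mul_smul, mul_smul, h1, inv_smul_eq_iff]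
      exact hz.2)
  rw [inv_mul_eq_one, eq_mul_inv_iff_mul_eq] at this
  exact this

/-- fixed-point-free action passes to quotients -/
theorem mem_of_fpf [Finite G] {D P : Subgroup G} {x s : G} (hx : x ∈ normalizer (D : Set G))
    (hD : D ≤ P) (hs : s ∈ P) (hf : ∀ k ∈ P, x * k = k * x → k = 1)
    (e : s⁻¹ * (x * s * x⁻¹) ∈ D) : s ∈ D := by
  let f : D → D := fun d => ⟨d * (x * (d : G)⁻¹ * x⁻¹), mul_mem d.2
    ((mem_normalizer_iff.1 hx _).1 (inv_mem d.2))⟩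
  have hinj : Function.Injective f := fun d d' h => by
    have h1 : (d : G) * (x * (d : G)⁻¹ * x⁻¹) = d' * (x * (d' : G)⁻¹ * x⁻¹) := congrArg Subtype.val h
    have := hf ((d' : G)⁻¹ * d) (hD (mul_mem (inv_mem d'.2) d.2)) (by
      calc x * ((d' : G)⁻¹ * d) = (d' : G)⁻¹ * (d' * (x * (d' : G)⁻¹ * x⁻¹)) * x * d := by group
        _ = (d' : G)⁻¹ * (d * (x * (d : G)⁻¹ * x⁻¹)) * x * d := by rw [h1]
        _ = (d' : G)⁻¹ * d * x := by group)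
    exact Subtype.ext (inv_mul_eq_one.1 this).symm
  obtain ⟨⟨d, hd⟩, h1⟩ := Finite.surjective_of_injective hinj ⟨_, e⟩
  have h1 : d * (x * d⁻¹ * x⁻¹) = s⁻¹ * (x * s * x⁻¹) := congrArg Subtype.val h1
  have := hf (s * d) (mul_mem hs (hD hd)) (by
    calc x * (s * d) = s * (s⁻¹ * (x * s * x⁻¹)) * x * d := by group
      _ = s * (d * (x * d⁻¹ * x⁻¹)) * x * d := by rw [h1]
      _ = s * d * x := by group)
  rw [mul_eq_one_iff_eq_inv] at this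
  exact this ▸ inv_mem hd

namespace HB

variable {κ : ℕ} (h : HB G Ω κ)
include h

theorem mem_Pd {Λ : Set Ω} (h4 : 4 ≤ Λ.ncard) {g : G} : g ∈ Pd G Λ ↔ g ∈ St G Λ ∧ Two g := by
  refine ⟨fun hg => ?_, fun hg => mem_Pd_of hg.1 hg.2⟩
  induction hg using closure_induction with
  | mem x hx => exact hx
  | one => exact ⟨one_mem _, Two.one⟩
  | mul x y _ _ hx hy => exact ⟨mul_mem hx.1 hy.1, h.two_mul Λ h4 x hx.1 y hy.1 hx.2 hy.2⟩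
  | inv x _ hx => exact ⟨inv_mem hx.1, hx.2.inv⟩

theorem isPGroup {Λ : Set Ω} (h4 : 4 ≤ Λ.ncard) : IsPGroup 2 (Pd G Λ) :=
  isPGroup_of_two fun _ hg => ((h.mem_Pd h4).1 hg).2

theorem pow_of_two {Λ : Set Ω} (h4 : 4 ≤ Λ.ncard) {g : G} (hg : g ∈ St G Λ) (h2 : Two g) :
    g ^ κ = 1 := by
  rcases h.split Λ h4 g hg with e | e
  · exact e
  · rw [h2.eq_one_of_odd (Nat.coprime_two_right.1 (e.coprime_dvd_right h.two)), one_pow]

/-- a 2-element commuting with an element outside the kernel -/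
theorem fpf_two {Λ : Set Ω} (h4 : 4 ≤ Λ.ncard) {g k : G} (hg : g ∈ St G Λ) (hk : k ∈ St G Λ)
    (h1 : g ^ κ ≠ 1) (h2 : Two k) (e : g * k = k * g) : k = 1 :=
  h.fpf Λ h4 g hg k hk h1 (h.pow_of_two h4 hk h2) e

omit h in
theorem pow_ne_one {e : G} (h1 : ¬ orderOf e ∣ κ) : e ^ κ ≠ 1 :=
  fun h2 => h1 (orderOf_dvd_of_pow_eq_one h2)

end HB

end CfsgLib.Frob4
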