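import Mathlib
import Cfsg.Agent.Lib.Frob4.Defs
import Cfsg.Agent.Lib.FT3.Fpf

/-!
Basic facts on `HB` and `Cf`.  See `plans/FROB4.md`.
-/

set_option autoImplicit false

namespace CfsgLib.Frob4

open MulAction Subgroup
open scoped Pointwise

variable {G Ω : Type*} [Group G] [MulAction G Ω] [Finite G] [Finite Ω] {κ : ℕ}

omit [Finite G] [Finite Ω] in
/-- an element acting on `A` like a 2-element and of odd order centralises `A` -/
theorem comm_of_odd {A : Subgroup G} {y u : G} (hy : Odd (orderOf y)) (hu : Two u)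
    (hn : u ∈ normalizer (A : Set G)) (e : ∀ v ∈ A, y * v * y⁻¹ = u * v * u⁻¹) :
    ∀ v ∈ A, y * v = v * y := by
  have key : ∀ n : ℕ, ∀ v ∈ A, y ^ n * v * (y ^ n)⁻¹ = u ^ n * v * (u ^ n)⁻¹ := fun n => by
    induction n with
    | zero => simp
    | succ n ih =>
      intro v hv
      calc y ^ (n + 1) * v * (y ^ (n + 1))⁻¹ = y * (y ^ n * v * (y ^ n)⁻¹) * y⁻¹ := by
            rw [pow_succ']; group
        _ = u * (u ^ n * v * (u ^ n)⁻¹) * u⁻¹ := by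
            rw [ih v hv, e _ ((mem_normalizer_iff.1 (pow_mem hn n) v).1 hv)]
        _ = _ := by rw [pow_succ']; group
  obtain ⟨n, hn2⟩ := hu
  intro v hv
  have h1 : y ^ 2 ^ n ∈ centralizer {v} := mem_centralizer_singleton_iff.2 (by
    rw [← mul_inv_eq_iff_eq_mul, key _ v hv, hn2]; simp)
  obtain ⟨m, hm⟩ := exists_pow_eq_self_of_coprime (x := y) (n := 2 ^ n)
    ((Nat.coprime_two_left.2 hy).pow_left n)
  exact mem_centralizer_singleton_iff.1 (hm ▸ pow_mem h1 m)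

namespace HB

variable (h : HB G Ω κ)
include h

omit [Finite Ω] in
theorem Pd_eq {Δ Δ' : Set Ω} (h1 : Δ.ncard = 4) (h2 : Δ'.ncard = 4) (h3 : Δ' ⊆ Fx Ω (Pd G Δ)) :
    Pd G Δ' = Pd G Δ := by
  obtain ⟨g, -, rfl⟩ := h.t4.set (Set.subset_univ _) (Set.subset_univ _) h1 h2
  refine (eq_of_le_of_card_ge (fun v hv => mem_Pd_of (mem_St.2 fun x hx => h3 hx v hv)
    ((h.mem_Pd h1.ge).1 hv).2) (card_Pd_smul Δ g).le).symm

omit [Finite G] [Finite Ω] in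
theorem Pd_ne_bot {Δ : Set Ω} (h1 : Δ.ncard = 4) : Pd G Δ ≠ ⊥ := fun e => by
  obtain ⟨t, ht, h2⟩ := h.exP Δ h1
  have := mem_Pd_of ht (two_of_orderOf h2)
  rw [e, mem_bot] at this
  simp [this] at h2

omit [Finite G] [Finite Ω] in
theorem fpf3 {Λ : Set Ω} (h4 : 4 ≤ Λ.ncard) {e : G} (he : e ∈ St G Λ) (h3 : orderOf e = 3)
    (hk : ¬ 3 ∣ κ) : FT3.Fpf3 e (Pd G Λ) :=
  ⟨h3 ▸ pow_orderOf_eq_one e, St_le_Mn Λ he, eq_bot_iff.2 fun _ hk' => mem_bot.2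
    (h.fpf_two h4 he (Pd_le Λ hk'.1) (pow_ne_one (h3 ▸ hk)) ((h.mem_Pd h4).1 hk'.1).2
      (hk'.2 e rfl))⟩

omit [Finite G] [Finite Ω] in
/-- Witt's lemma for a subgroup of prime order outside the kernel -/
theorem witt_e {e : G} (hp : (orderOf e).Prime) (hk : ¬ orderOf e ∣ κ) :
    T4 (normalizer (zpowers e : Set G)) (fixedBy Ω e) := by
  have := witt h.t4 (W := zpowers e) fun Δ h1 h2 g _ h3 => by
    rw [Set.univ_inter, Fx_zpowers] at h1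
    rw [Fx_zpowers] at h3
    have h4 := conj_mem_St (St_mono h3 (mem_St_fixedBy e)) g
    rw [smul_inv_smul] at h4
    obtain ⟨k, hk1, -, hk2⟩ := h.conj Δ h2 e (St_mono h1 (mem_St_fixedBy e)) _ h4 hp
      ((MulAut.conj g).orderOf_eq e) hk
    have : Finite (zpowers e) := finite_zpowers.2 (orderOf_pos_iff.1 hp.pos)
    refine ⟨k, ⟨trivial, hk1⟩, mem_normalizer_fintype fun x hx => ?_⟩
    obtain ⟨n, rfl⟩ := mem_zpowers_iff.1 hx
    rw [← conj_zpow]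
    exact zpow_mem (by simpa [mul_assoc] using hk2) n
  simpa [Fx_zpowers] using this

omit [Finite G] [Finite Ω] in
/-- the hypothesis of `hall` for `N(⟨e⟩)` -/
theorem two_norm {e : G} (hp : (orderOf e).Prime) (hk : ¬ orderOf e ∣ κ) {t : G}
    (ht : t ∈ normalizer (zpowers e : Set G)) (h2 : Two t)
    (h4 : 4 ≤ (fixedBy Ω e ∩ fixedBy Ω t).ncard) : t = 1 := by
  have he : e ∈ St G (fixedBy Ω e ∩ fixedBy Ω t) := St_mono Set.inter_subset_left (mem_St_fixedBy e)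
  have ht' : t ∈ St G (fixedBy Ω e ∩ fixedBy Ω t) :=
    St_mono Set.inter_subset_right (mem_St_fixedBy t)
  have h1 : Two (t * (e * t⁻¹ * e⁻¹)) := h.two_mul _ h4 t ht' _
    (mul_mem (mul_mem he (inv_mem ht')) (inv_mem he)) h2 (h2.inv.conj e)
  have h3 : t * (e * t⁻¹ * e⁻¹) ∈ zpowers e := by
    rw [← mul_assoc, ← mul_assoc]
    exact mul_mem ((mem_normalizer_iff.1 ht e).1 (mem_zpowers e)) (inv_mem (mem_zpowers e))
  have h5 := h1.eq_one_of_odd (Odd.of_dvd_nat (hp.odd_of_ne_two fun e2 => hk (e2 ▸ h.two))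
    (orderOf_dvd_of_mem_zpowers h3))
  refine h.fpf_two h4 he ht' (pow_ne_one hk) h2 ?_
  rw [← mul_assoc, ← mul_assoc, mul_inv_eq_one, mul_inv_eq_iff_eq_mul] at h5
  exact h5.symm

end HB

namespace Cf

variable {Γ : Set Ω} (h : Cf G κ Γ)
include h

omit [Finite G] [Finite Ω] in
theorem four : 4 ≤ Γ.ncard := by have := h.five; omega

omit [Finite G] [Finite Ω] in
theorem mem_D {g : G} : g ∈ Pd G Γ ↔ g ∈ St G Γ ∧ Two g := h.hb.mem_Pd h.four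

omit [Finite G] in
theorem mem_Mn {g : G} : g ∈ Mn G Γ ↔ g • Γ = Γ :=
  ⟨fun hg => Set.eq_of_subset_of_ncard_le (by rintro _ ⟨x, hx, rfl⟩; exact h.t4.inv g hg x hx)
    (Set.ncard_smul_set g Γ).ge, mem_Mn_of_smul⟩

omit [Finite G] [Finite Ω] in
theorem two_mem {g : G} (h2 : Two g) (h5 : 5 ≤ (Γ ∩ fixedBy Ω g).ncard) : g ∈ Pd G Γ :=
  h.max _ Set.inter_subset_left h5 ▸
    mem_Pd_of (St_mono Set.inter_subset_right (mem_St_fixedBy g)) h2

omit [Finite G] [Finite Ω] in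
theorem mem_of_five {g : G} (h5 : 5 ≤ (Γ ∩ g • Γ).ncard) : g ∈ Mn G Γ := by
  have h1 := h.max _ Set.inter_subset_left h5
  have h2 := h.max (g⁻¹ • (Γ ∩ g • Γ)) (by
    rw [Set.smul_set_inter, inv_smul_smul]; exact Set.inter_subset_right)
    (by rwa [Set.ncard_smul_set])
  refine mem_normalizer_iff.2 fun k => ?_
  have := mem_Pd_smul (Λ := Γ ∩ g • Γ) (g := g⁻¹) (h := k)
  rwa [h1, h2, inv_inv] at this

omit [Finite Ω] in
theorem exists_s {Δ : Set Ω} (h1 : Δ ⊆ Γ) (h4 : Δ.ncard = 4) :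
    ∃ s ∈ Pd G Δ ⊓ Mn G Γ, s ∉ Pd G Γ ∧ s * s ∈ Pd G Γ := by
  have hlt : Pd G Γ < Pd G Δ := (Pd_mono h1).lt_of_ne fun e => by
    have h2 := h.five
    rw [← h.fx, e, h.k4 Δ h4] at h2
    omega
  obtain ⟨s, hs, hs'⟩ := SetLike.exists_of_lt
    (Core.lt_inf_normalizer_of_isPGroup (h.hb.isPGroup h4.ge) hlt)
  obtain ⟨n, e1, e2⟩ := ((h.hb.mem_Pd h4.ge).1 hs.1).2.exists_sq_mem hs'
  exact ⟨s ^ n, pow_mem hs n, e1, e2⟩

omit [Finite G] in
/-- elements of `Q ∖ D` fix no point of `Γ ∖ Δ` -/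
theorem not_fix {Δ : Set Ω} (h1 : Δ ⊆ Γ) (h4 : Δ.ncard = 4) {s : G} (hs : s ∈ Pd G Δ)
    (hD : s ∉ Pd G Γ) {x : Ω} (hx : x ∈ Γ) (hx' : x ∉ Δ) : s • x ≠ x := fun e => by
  refine hD (h.two_mem ((h.hb.mem_Pd h4.ge).1 hs).2 ?_)
  have := Set.ncard_le_ncard (s := insert x Δ) (t := Γ ∩ fixedBy Ω s)
    (Set.insert_subset ⟨hx, e⟩ fun z hz => ⟨h1 hz, mem_St.1 (Pd_le Δ hs) z hz⟩)
  rw [Set.ncard_insert_of_notMem hx', h4] at this
  exact this

omit [Finite Ω] in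
theorem ker {g : G} (hg : g ∈ St G Γ) : g ^ κ = 1 := by
  by_contra hc
  obtain ⟨Δ, h1, h4⟩ := Set.exists_subset_card_eq h.four
  obtain ⟨s, hs, e, -⟩ := h.exists_s h1 h4
  have hP := fun {k : G} (hk : k ∈ Pd G Δ) => (h.hb.mem_Pd h4.ge).1 hk
  refine e (mem_of_fpf (St_le_Mn Γ hg) (Pd_mono h1) hs.1 (fun k hk =>
    h.hb.fpf_two h4.ge (St_mono h1 hg) (hP hk).1 hc (hP hk).2) (h.mem_D.2 ⟨mem_St.2 fun x hx => ?_,
      (hP (mul_mem (inv_mem hs.1) ((mem_normalizer_iff.1 (St_le_Mn Δ (St_mono h1 hg)) s).1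
        hs.1))).2⟩))
  rw [mul_smul, mul_smul, mul_smul, mem_St.1 (inv_mem hg) x hx,
    mem_St.1 hg _ (h.t4.inv s hs.2 x hx), inv_smul_smul]

omit [Finite Ω] in
/-- elements of odd order centralise a normal subgroup `A ≤ D` of `M` whose centraliser acts
non-trivially on `Γ` -/
theorem cent {A : Subgroup G} (hA : A ≤ Pd G Γ) (hn : Mn G Γ ≤ normalizer (A : Set G)) {s : G}
    (hs : s ∈ Mn G Γ) (hs' : s ∉ St G Γ) (hc : ∀ v ∈ A, s * v = v * s) {y : G} (hy : y ∈ Mn G Γ)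
    (ho : Odd (orderOf y)) : ∀ v ∈ A, y * v = v * y := by
  obtain ⟨c, hc1, hc2⟩ := h.cover (Mn G Γ ⊓ centralizer (A : Set G)) inf_le_left
    (fun g hg => mem_normalizer_fintype fun k hk => ⟨(Mn G Γ).mul_mem ((Mn G Γ).mul_mem hg hk.1)
      ((Mn G Γ).inv_mem hg),
      fun v hv => by
        have := hk.2 _ ((mem_normalizer_iff''.1 (hn hg) v).1 hv)
        calc v * (g * k * g⁻¹) = g * (g⁻¹ * v * g * k) * g⁻¹ := by group
          _ = _ := by rw [this]; group⟩)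
    (fun e => hs' (e ⟨hs, fun v hv => (hc v hv).symm⟩)) y hy ho
  obtain ⟨u, o, hu, ho', h1, h2, e⟩ := exists_two_odd (c⁻¹ * y)
  have hu' := (zpowers_le.2 hc2) h1
  have ho'' := (zpowers_le.2 hc2) h2
  refine comm_of_odd ho hu (hn (St_le_Mn Γ hu')) fun v hv => ?_
  have h3 := h.hb.nilp Γ h.four o ho'' v (Pd_le Γ (hA hv)) (h.ker ho'') ho' (h.mem_D.1 (hA hv)).2
  have h4 := hc1.2 _ ((mem_normalizer_iff.1 (hn (St_le_Mn Γ hu')) v).1 hv)
  rw [inv_mul_eq_iff_eq_mul] at e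
  calc y * v * y⁻¹ = c * (u * (o * v) * o⁻¹ * u⁻¹) * c⁻¹ := by rw [e]; group
    _ = c * (u * v * u⁻¹) * c⁻¹ := by rw [h3]; group
    _ = _ := by rw [← h4]; group

end Cf

end CfsgLib.Frob4
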