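import Mathlib
import Cfsg.Agent.Lib.Frob4.Defs
import Cfsg.Agent.Lib.Sharp.Four

/-!
Package HALL: M. Hall's theorem for induced groups.  See `plans/FROB4.md`.
-/

set_option autoImplicit false
set_option maxHeartbeats 400000

namespace CfsgLib.Frob4

open MulAction Subgroup
open scoped Pointwise

variable {G Ω : Type*} [Group G] [MulAction G Ω] [Finite G] [Finite Ω]

theorem sign_invol {α : Type*} [Fintype α] [DecidableEq α] {σ : Equiv.Perm α} (hσ : σ * σ = 1) :
    Equiv.Perm.sign σ = (-1) ^ (σ.support.card / 2) := by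
  rw [Equiv.Perm.sign_of_pow_two_eq_one (by rw [sq, hσ]), σ.card_fixedPoints,
    Nat.sub_sub_self σ.sum_cycleType_le, σ.sum_cycleType]

omit [Finite Ω] in
theorem oddStab_ind {H : Subgroup G} {Γ : Set Ω} (h : T4 H Γ) [Finite Γ]
    (ho : ∀ t ∈ H, Two t → 4 ≤ (Γ ∩ fixedBy Ω t).ncard → t ∈ St G Γ) : Perm2.OddStab (ind H Γ) 4 := by
  intro σ hσ h4
  rw [← res_range h.inv] at hσ
  obtain ⟨g, rfl⟩ := hσ
  rw [ncard_fix_res] at h4
  obtain ⟨u, v, hu, hv, hu', hv', e⟩ := exists_two_odd g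
  have h1 : res h.inv u = 1 := by
    refine (res_eq_one _ _).2 (ho u u.2 ?_ (h4.trans (Set.ncard_le_ncard (Set.inter_subset_inter_right _ ?_)
      ((Set.toFinite Γ).subset Set.inter_subset_left))))
    · obtain ⟨n, e⟩ := hu
      exact ⟨n, congrArg Subtype.val e⟩
    · obtain ⟨n, rfl⟩ := mem_zpowers_iff.1 hu'
      exact fixedBy_subset_fixedBy_zpow Ω (g : G) n
  rw [e, map_mul, h1, one_mul]
  exact hv.of_dvd_nat (orderOf_map_dvd _ _)

theorem hall {H : Subgroup G} {Γ : Set Ω} (h : T4 H Γ) (h4 : 4 ≤ Γ.ncard)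
    (ho : ∀ t ∈ H, Two t → 4 ≤ (Γ ∩ fixedBy Ω t).ncard → t ∈ St G Γ) :
    (Γ.ncard = 4 ∨ Γ.ncard = 5 ∨ Γ.ncard = 6 ∨ Γ.ncard = 7 ∨ Γ.ncard = 11) ∧
    (Γ.ncard = 6 ∨ Γ.ncard = 7 → ∀ t ∈ H, t * t ∈ St G Γ → t ∉ St G Γ →
      (Γ ∩ fixedBy Ω t).ncard + 4 = Γ.ncard) ∧
    (6 ≤ Γ.ncard → ∀ C : Subgroup G, (∀ g ∈ H, ∀ k ∈ H, g * k * g⁻¹ * k⁻¹ ∈ C) → H ⊓ St G Γ ≤ C → H ≤ C) ∧
    (Γ.ncard = 11 → ∀ g ∈ H, 4 ≤ (Γ ∩ fixedBy Ω g).ncard → g ∈ St G Γ) := by
  classical
  have := Fintype.ofFinite Γ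
  have hc : Fintype.card Γ = Γ.ncard := by rw [← Nat.card_eq_fintype_card, Nat.card_coe_set_eq]
  have hO := oddStab_ind h ho
  have hH := hO.hall h.ind (hc ▸ h4)
  rw [hc] at hH
  have h11 : Γ.ncard = 11 → ∀ g ∈ H, 4 ≤ (Γ ∩ fixedBy Ω g).ncard → g ∈ St G Γ := fun e g hg hf =>
    (res_eq_one h.inv ⟨g, hg⟩).1 (hO.eq_one_of_eleven h.ind (hc.trans e) (res_mem h.inv ⟨g, hg⟩)
      (by rwa [ncard_fix_res]))
  refine ⟨by omega, fun e t ht h1 h2 => ?_, fun e C hC hK g hg => ?_, h11⟩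
  · have hA : ind H Γ = alternatingGroup Γ := by
      rcases hH with k | k | k
      · omega
      · exact k.2
      · omega
    have s1 : res h.inv ⟨t, ht⟩ * res h.inv ⟨t, ht⟩ = 1 := by
      rw [← map_mul]
      exact (res_eq_one _ _).2 h1
    have s2 : res h.inv ⟨t, ht⟩ ≠ 1 := fun k => h2 ((res_eq_one _ _).1 k)
    have s3 := Equiv.Perm.mem_alternatingGroup.1 (hA ▸ res_mem h.inv ⟨t, ht⟩)
    have s4 := Perm2.ncard_fix_add_card_support (res h.inv ⟨t, ht⟩)
    have s5 := Equiv.Perm.two_dvd_card_support (σ := res h.inv ⟨t, ht⟩) (by rw [sq, s1])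
    have s6 := Equiv.Perm.two_le_card_support_of_ne_one s2
    rw [sign_invol s1] at s3
    rw [ncard_fix_res, hc] at s4
    have s7 := (neg_one_pow_eq_one_iff_even (by decide)).1 s3
    obtain ⟨m, hm⟩ := s7
    change (Γ ∩ fixedBy Ω t).ncard + _ = _ at s4
    omega
  · have hP : ⁅ind H Γ, ind H Γ⁆ = ind H Γ := by
      rcases hH with k | k | k
      · omega
      · rw [k.2]
        exact commutator_alternatingGroup_eq_self (by rw [Nat.card_coe_set_eq]; omega)
      · have hS : Sharp.IsSharp (ind H Γ) Γ 4 := ⟨h.ind, fun x => eq_bot_iff.2 fun σ hσ => by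
          refine mem_bot.2 (Subtype.ext (hO.eq_one_of_eleven h.ind (hc.trans k.1) σ.2 ?_))
          have : Set.range x ⊆ {y | (σ : Equiv.Perm Γ) y = y} := by
            rintro _ ⟨i, rfl⟩
            exact DFunLike.congr_fun (mem_stabilizer_iff.1 hσ) i
          refine le_trans ?_ (Set.ncard_le_ncard this)
          rw [Set.ncard_range_of_injective x.injective, Nat.card_eq_fintype_card, Fintype.card_fin]⟩
        have := hS.simple_eleven (hc.trans k.1)
        rw [← map_subtype_commutator]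
        rcases (inferInstance : (commutator (ind H Γ)).Normal).eq_bot_or_eq_top with e | e
        · exfalso
          have hm : IsMulCommutative (ind H Γ) := ⟨⟨fun a b => by
            have := commutator_mem_commutator (mem_top a) (mem_top b)
            rwa [← commutator_def, e, mem_bot, commutatorElement_eq_one_iff_mul_comm] at this⟩⟩
          let _ : CommGroup (ind H Γ) := { (inferInstance : Group (ind H Γ)) with mul_comm := hm.1.1 }
          have := IsSimpleGroup.prime_card (α := ind H Γ)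
          rw [k.2] at this
          norm_num at this
        · rw [e, ← MonoidHom.range_eq_map, range_subtype]
    have k : res h.inv ⟨g, hg⟩ ∈ (C.subgroupOf H).map (res h.inv) := by
      have := res_mem h.inv ⟨g, hg⟩
      rw [← hP, ← res_range h.inv, MonoidHom.range_eq_map, ← map_commutator] at this
      have le : ⁅(⊤ : Subgroup H), (⊤ : Subgroup H)⁆ ≤ C.subgroupOf H :=
        commutator_le.2 fun a _ b _ => hC a a.2 b b.2
      exact map_mono le this
    obtain ⟨c, hc, e⟩ := k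
    have : (c⁻¹ * ⟨g, hg⟩ : H).1 ∈ C := hK ⟨(c⁻¹ * ⟨g, hg⟩ : H).2, (res_eq_one h.inv _).1 (by
      rw [map_mul, map_inv, e, inv_mul_cancel])⟩
    simpa using mul_mem (mem_subgroupOf.1 hc) this

end CfsgLib.Frob4
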