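import Mathlib
import Cfsg.Agent.Lib.Frob4.Defs
import Cfsg.Agent.Lib.Frob4.Cf
import Cfsg.Agent.Lib.Frob4.Hall

/-!
Package AG0: commuting elements `y`, `e` of odd order.  See `plans/FROB4.md`.
-/

set_option autoImplicit false

namespace CfsgLib.Frob4

open MulAction Subgroup
open scoped Pointwise

variable {G Ω : Type*} [Group G] [MulAction G Ω] [Finite G] [Finite Ω] [FaithfulSMul G Ω]

omit [Finite Ω] [FaithfulSMul G Ω] in
/-- the 3-part of an element acting as `(a b c)(d)` acts in the same way -/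
theorem ag0_part {g : G} {a b c d : Ω} (ha : g • a = b) (hb : g • b = c) (hc : g • c = a)
    (hd : g • d = d) :
    ∃ m n : ℕ, (g ^ m) ^ 3 ^ n = 1 ∧ ∀ x ∈ ({a, b, c, d} : Set Ω), g ^ m • x = g • x := by
  obtain ⟨m, n, h1, h2⟩ := exists_part Nat.prime_three g 1
  refine ⟨m, n, h1, fun x hx => ?_⟩
  have h3 : g ^ 3 ∈ St G ({a, b, c, d} : Set Ω) := by
    rw [mem_St4, pow_three']
    simp only [mul_smul, ha, hb, hc, hd, and_self]
  have h4 : m = 1 + 3 * (m / 3) := by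
    have : m % 3 = 1 := h2
    omega
  rw [h4, pow_add, pow_one, pow_mul, mul_smul, mem_St.1 (pow_mem h3 _) x hx]

omit [Finite G] in
theorem ag0_pg {y : G} {n : ℕ} (h : y ^ 3 ^ n = 1) : IsPGroup 3 (zpowers y) := fun x => by
  obtain ⟨j, hj⟩ := mem_zpowers_iff.1 x.2
  refine ⟨n, Subtype.ext ?_⟩
  rw [SubgroupClass.coe_pow, ← hj, ← zpow_natCast, ← zpow_mul, mul_comm, zpow_mul, zpow_natCast,
    h, one_zpow, OneMemClass.coe_one]

/-- Sylow's theorem for two 3-elements -/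
theorem ag0_syl {H : Subgroup G} {y g : G} {n m : ℕ} (hy : y ∈ H) (hg : g ∈ H) (h1 : y ^ 3 ^ n = 1)
    (h2 : g ^ 3 ^ m = 1) :
    ∃ f ∈ H, ∃ T : Subgroup G, T ≤ H ∧ IsPGroup 3 T ∧ y ∈ T ∧ f * g * f⁻¹ ∈ T := by
  have := Fact.mk Nat.prime_three
  obtain ⟨P, hP⟩ := (ag0_pg (y := (⟨y, hy⟩ : H)) (n := n) (Subtype.ext h1)).exists_le_sylow
  obtain ⟨Q, hQ⟩ := (ag0_pg (y := (⟨g, hg⟩ : H)) (n := m) (Subtype.ext h2)).exists_le_sylow
  obtain ⟨f, rfl⟩ := exists_smul_eq H Q P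
  refine ⟨f, f.2, ((f • Q : Sylow 3 H) : Subgroup H).map H.subtype, map_subtype_le _,
    (f • Q).isPGroup'.map _, ⟨_, hP (mem_zpowers _), rfl⟩, f * ⟨g, hg⟩ * f⁻¹, ?_, rfl⟩
  exact Subgroup.smul_mem_pointwise_smul _ (MulAut.conj f) _ (hQ (mem_zpowers _))

/-- a 3-element normalising a non-trivial 3-group centralises an element of order 3 -/
theorem ag0_cent {S : Subgroup G} (hS : IsPGroup 3 S) (h1 : S ≠ ⊥) {y : G} {n : ℕ}
    (hy : y ^ 3 ^ n = 1) (hn : ∀ s ∈ S, y * s * y⁻¹ ∈ S) :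
    ∃ e ∈ S, orderOf e = 3 ∧ y * e = e * y := by
  have := Fact.mk Nat.prime_three
  have k := ncard_modEq (G := ConjAct G) (Ω := G) (n := n) Nat.prime_three (g := ConjAct.toConjAct y)
    (S := (S : Set G)) (fun x hx => hn x hx) (fun x _ => by rw [← map_pow, hy, map_one, one_smul])
  have k1 : (S : Set G) ∩ fixedBy G (ConjAct.toConjAct y) = (S ⊓ centralizer {y} : Subgroup G) := by
    ext x
    rw [SetLike.mem_coe, mem_inf, mem_centralizer_singleton_iff, Set.mem_inter_iff, mem_fixedBy,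
      ConjAct.smul_def, ConjAct.ofConjAct_toConjAct, mul_inv_eq_iff_eq_mul, eq_comm]
    rfl
  rw [k1, ← Nat.card_coe_set_eq, ← Nat.card_coe_set_eq] at k
  have k2 : 3 ∣ Nat.card S := (hS.card_eq_or_dvd).resolve_left fun e0 => h1 (card_eq_one.1 e0)
  obtain ⟨e, he⟩ := exists_prime_orderOf_dvd_card' (G := ↥(S ⊓ centralizer {y})) 3
    ((k.dvd_iff dvd_rfl).1 k2)
  exact ⟨e, e.2.1, (orderOf_coe e).trans he, (mem_centralizer_singleton_iff.1 e.2.2).symm⟩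

omit [Finite G] in
/-- commutators of elements normalising a cyclic group centralise it -/
theorem ag0_comm {e g k : G} (hg : g ∈ normalizer (zpowers e : Set G))
    (hk : k ∈ normalizer (zpowers e : Set G)) :
    (g * k)⁻¹ * (k * g) * e = e * ((g * k)⁻¹ * (k * g)) := by
  obtain ⟨i, hi⟩ := mem_zpowers_iff.1 ((mem_normalizer_iff.1 hg e).1 (mem_zpowers e))
  obtain ⟨j, hj⟩ := mem_zpowers_iff.1 ((mem_normalizer_iff.1 hk e).1 (mem_zpowers e))
  have h1 : k * (g * e * g⁻¹) * k⁻¹ = g * (k * e * k⁻¹) * g⁻¹ := by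
    rw [← hi, ← hj, ← conj_zpow, ← conj_zpow, ← hi, ← hj, ← zpow_mul, ← zpow_mul, mul_comm i]
  calc (g * k)⁻¹ * (k * g) * e = (g * k)⁻¹ * (k * (g * e * g⁻¹) * k⁻¹) * (k * g) := by group
    _ = _ := by rw [h1]; group

theorem ag0 {κ : ℕ} {Γ : Set Ω} (h : AG G κ Γ) :
    ∃ (a b c d : Ω) (y e : G) (n : ℕ), D4 a b c d ∧ ({a, b, c, d} : Set Ω) ⊆ Γ ∧ y ∈ Mn G Γ ∧
      y • a = b ∧ y • b = c ∧ y • c = a ∧ y • d = d ∧ y ^ 3 ^ n = 1 ∧
      e ∈ St G ({a, b, c, d} : Set Ω) ∧ (orderOf e).Prime ∧ ¬ orderOf e ∣ κ ∧ y * e = e * y ∧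
      (orderOf e = 3 ∨ ∀ Δ : Set Ω, 4 ≤ Δ.ncard → ∀ g ∈ St G Δ, ∀ j : ℕ, g ^ 3 ^ j = 1 → g ^ κ = 1) := by
  obtain ⟨a, ha, b, hb, c, hc, d, hd, h4⟩ := exists_D4_of_le h.toCf.four
  have hsub : ({a, b, c, d} : Set Ω) ⊆ Γ := by simp [Set.insert_subset_iff, ha, hb, hc, hd]
  obtain ⟨ab, ac, ad, bc, bd, cd⟩ := id h4
  obtain ⟨y0, hy0, ya, yb, yc, yd⟩ := h.t4.tr ha hb hc hd hb hc ha hd h4
    ⟨bc, ab.symm, bd, ac.symm, cd, ad⟩
  obtain ⟨m, n, y3, hy⟩ := ag0_part ya yb yc yd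
  have yM := pow_mem hy0 m
  generalize y0 ^ m = y at y3 hy yM
  have y0Δ : ∀ x ∈ ({a, b, c, d} : Set Ω), y0 • x ∈ ({a, b, c, d} : Set Ω) := by
    simp [ya, yb, yc, yd]
  have hs : ∀ g : G, (∀ x ∈ ({a, b, c, d} : Set Ω), g • x ∈ ({a, b, c, d} : Set Ω)) →
      ∀ x ∈ ({a, b, c, d} : Set Ω), g⁻¹ • x ∈ ({a, b, c, d} : Set Ω) := fun g hg x hx => by
    have : g • ({a, b, c, d} : Set Ω) = {a, b, c, d} := Set.eq_of_subset_of_ncard_le
      (by rintro _ ⟨x, hx, rfl⟩; exact hg x hx) (Set.ncard_smul_set g _).ge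
    rw [← Set.mem_smul_set_iff_inv_smul_mem, this]
    exact hx
  let H : Subgroup G :=
    { carrier := {g | ∀ x ∈ ({a, b, c, d} : Set Ω), g • x ∈ ({a, b, c, d} : Set Ω) ∧
        g • y0 • x = y0 • g • x}
      one_mem' := fun x hx => by simpa using hx
      mul_mem' := fun {g k} hg hk x hx => ⟨by rw [mul_smul]; exact (hg _ (hk x hx).1).1, by
        rw [mul_smul, mul_smul, (hk x hx).2, (hg _ (hk x hx).1).2]⟩
      inv_mem' := fun {g} hg x hx => ⟨hs g (fun x hx => (hg x hx).1) x hx, by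
        rw [inv_smul_eq_iff, (hg _ (hs g (fun x hx => (hg x hx).1) x hx)).2, smul_inv_smul]⟩ }
  have hH : ∀ g : G, (∀ x ∈ ({a, b, c, d} : Set Ω), g • x = y0 • x) → g ∈ H := fun g hg x hx =>
    ⟨hg x hx ▸ y0Δ x hx, by rw [hg x hx, hg _ (y0Δ x hx)]⟩
  have hFH : St G ({a, b, c, d} : Set Ω) ≤ H := fun g hg x hx =>
    ⟨(mem_St.1 hg x hx).symm ▸ hx, by rw [mem_St.1 hg x hx, mem_St.1 hg _ (y0Δ x hx)]⟩
  have hFn : ∀ f ∈ H, ∀ g ∈ St G ({a, b, c, d} : Set Ω), f * g * f⁻¹ ∈ St G ({a, b, c, d} : Set Ω) :=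
    fun f hf g hg => mem_St.2 fun x hx => by
      rw [mul_smul, mul_smul, mem_St.1 hg _ (H.inv_mem hf x hx).1, smul_inv_smul]
  by_cases hK : ∀ Δ : Set Ω, 4 ≤ Δ.ncard → ∀ g ∈ St G Δ, ∀ j : ℕ, g ^ 3 ^ j = 1 → g ^ κ = 1
  · obtain ⟨g, hg, hκ⟩ := h.hb.exE _ h4.ncard
    have hco := (h.hb.split _ h4.ncard.ge g hg).resolve_left hκ
    have g1 : orderOf g ≠ 1 := fun e0 => hκ (by rw [orderOf_eq_one_iff.1 e0, one_pow])
    obtain ⟨r, hr, hrd⟩ := Nat.exists_prime_and_dvd g1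
    have he := pow_mem hg (orderOf g / r)
    have e1 : orderOf (g ^ (orderOf g / r)) = r := orderOf_pow_orderOf_div (orderOf_pos g).ne' hrd
    generalize g ^ (orderOf g / r) = e at he e1
    have e2 : ¬ r ∣ κ := fun hd => hr.ne_one (Nat.eq_one_of_dvd_coprimes hco hrd hd)
    subst e1
    obtain ⟨ea, eb, ec, ed⟩ := mem_St4.1 he
    have hw := h.hb.witt_e hr e2
    obtain ⟨g1, hg1, a1, b1, c1, d1⟩ := hw.tr ea eb ec ed eb ea ec ed h4
      ⟨ab.symm, bc, bd, ac, ad, cd⟩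
    obtain ⟨g2, hg2, a2, b2, c2, d2⟩ := hw.tr ea eb ec ed ea ec eb ed h4
      ⟨ac, ab, ad, bc.symm, cd, bd⟩
    have kc := ag0_comm hg1 hg2
    have ka : ((g1 * g2)⁻¹ * (g2 * g1)) • a = b := by
      rw [mul_smul, inv_smul_eq_iff]; simp only [mul_smul, a1, b2, c1]
    have kb : ((g1 * g2)⁻¹ * (g2 * g1)) • b = c := by
      rw [mul_smul, inv_smul_eq_iff]; simp only [mul_smul, b1, a2, c2]
    have kc' : ((g1 * g2)⁻¹ * (g2 * g1)) • c = a := by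
      rw [mul_smul, inv_smul_eq_iff]; simp only [mul_smul, c1, c2, a2, a1]
    have kd : ((g1 * g2)⁻¹ * (g2 * g1)) • d = d := by
      rw [mul_smul, inv_smul_eq_iff]; simp only [mul_smul, d1, d2]
    generalize (g1 * g2)⁻¹ * (g2 * g1) = k at kc ka kb kc' kd
    obtain ⟨m', n', z3, hz⟩ := ag0_part ka kb kc' kd
    have zc : k ^ m' * e = e * k ^ m' := (Commute.pow_left kc m').eq
    generalize k ^ m' = z at z3 hz zc
    have hz' : ∀ x ∈ ({a, b, c, d} : Set Ω), z • x = y0 • x := fun x hx => by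
      rw [hz x hx]
      rcases hx with rfl | rfl | rfl | rfl
      exacts [ka.trans ya.symm, kb.trans yb.symm, kc'.trans yc.symm, kd.trans yd.symm]
    obtain ⟨f, hf, T, -, hT, hyT, hzT⟩ := ag0_syl (hH y hy) (hH z hz') y3 z3
    have w1 : ∀ x ∈ ({a, b, c, d} : Set Ω), (f * z * f⁻¹) • x = y0 • x := fun x hx => by
      rw [mul_smul, mul_smul, hz' _ (H.inv_mem hf x hx).1, (hf _ (H.inv_mem hf x hx).1).2,
        smul_inv_smul]
    have w2 : y⁻¹ * (f * z * f⁻¹) ∈ St G ({a, b, c, d} : Set Ω) := mem_St.2 fun x hx => by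
      rw [mul_smul, w1 x hx, ← hy x hx, inv_smul_smul]
    obtain ⟨j, hj⟩ := hT ⟨_, mul_mem (inv_mem hyT) hzT⟩
    have hj' : (y⁻¹ * (f * z * f⁻¹)) ^ 3 ^ j = 1 := congrArg Subtype.val hj
    have w3 : y⁻¹ * (f * z * f⁻¹) ∈ Mn G Γ := mem_normalizer_fintype fun v hv => by
      rw [h.hb.nilp _ h4.ncard.ge _ w2 v (St_mono hsub (Pd_le Γ hv)) (hK _ h4.ncard.ge _ w2 j hj')
        (Odd.of_dvd_nat (Odd.pow (by decide)) (orderOf_dvd_of_pow_eq_one hj'))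
        (h.toCf.mem_D.1 hv).2, mul_inv_cancel_right]
      exact hv
    have oe : orderOf (f * e * f⁻¹) = orderOf e := (SemiconjBy.orderOf_eq f (by
      rw [SemiconjBy, inv_mul_cancel_right])).symm
    refine ⟨a, b, c, d, f * z * f⁻¹, f * e * f⁻¹, n', h4, hsub, ?_, (w1 a (by simp)).trans ya,
      (w1 b (by simp)).trans yb, (w1 c (by simp)).trans yc, (w1 d (by simp)).trans yd,
      by rw [conj_pow, z3]; simp, hFn f hf e he, oe ▸ hr, oe ▸ e2, ?_, Or.inr hK⟩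
    · simpa using mul_mem yM w3
    · calc f * z * f⁻¹ * (f * e * f⁻¹) = f * (z * e) * f⁻¹ := by group
        _ = _ := by rw [zc]; group
  · push Not at hK
    obtain ⟨Λ, hΛ, g, hg, j, g3, hκ⟩ := hK
    have hco := (h.hb.split _ hΛ g hg).resolve_left hκ
    have g1 : g ≠ 1 := fun e0 => hκ (by rw [e0, one_pow])
    have k3 : ¬ 3 ∣ κ := fun hd => by
      obtain ⟨i, -, hi⟩ := (Nat.dvd_prime_pow Nat.prime_three).1 (orderOf_dvd_of_pow_eq_one g3)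
      rcases i with _ | i
      · exact g1 (orderOf_eq_one_iff.1 hi)
      · exact absurd (Nat.eq_one_of_dvd_coprimes hco (hi ▸ dvd_pow_self 3 i.succ_ne_zero) hd)
          (by decide)
    obtain ⟨Δ, hΔ, c4⟩ := Set.exists_subset_card_eq hΛ
    obtain ⟨u, -, hu⟩ := h.hb.t4.set (Set.subset_univ Δ) (Set.subset_univ _) c4 h4.ncard
    have g2 := conj_mem_St (St_mono hΔ hg) u
    rw [hu] at g2
    obtain ⟨f, hf, T, hTH, hT, hyT, hzT⟩ := ag0_syl (m := j) (hH y hy) (hFH g2) y3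
      (by rw [conj_pow, g3]; simp)
    obtain ⟨e, he, e3, ec⟩ := ag0_cent (S := T ⊓ St G ({a, b, c, d} : Set Ω)) (hT.to_le inf_le_left)
      (fun e0 => g1 (by
        have : f * (u * g * u⁻¹) * f⁻¹ ∈ T ⊓ St G ({a, b, c, d} : Set Ω) := ⟨hzT, hFn f hf _ g2⟩
        rw [e0, mem_bot] at this
        simpa using this)) y3
      fun s hs => ⟨T.mul_mem (T.mul_mem hyT hs.1) (T.inv_mem hyT), hFn y (hH y hy) s hs.2⟩
    exact ⟨a, b, c, d, y, e, n, h4, hsub, yM, (hy a (by simp)).trans ya, (hy b (by simp)).trans yb,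
      (hy c (by simp)).trans yc, (hy d (by simp)).trans yd, y3, he.2, e3 ▸ Nat.prime_three, e3 ▸ k3,
      ec, Or.inl e3⟩

end CfsgLib.Frob4
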