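import Mathlib
import Cfsg.Agent.Lib.Frob4.Defs
import Cfsg.Agent.Lib.Frob4.Cf

/-!
Package AG2: `Z(P)` is contained in `D`.  See `plans/FROB4.md`.
-/

set_option autoImplicit false

namespace CfsgLib.Frob4

open MulAction Subgroup
open scoped Pointwise

variable {G Ω : Type*} [Group G] [MulAction G Ω] [Finite G] [Finite Ω] [FaithfulSMul G Ω]
  {κ : ℕ} {Γ : Set Ω} {a b c d p q : Ω} {y e : G}

/-- a 2-element commuting with `y` and fixing four of its fixed points is trivial -/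
theorem YE.eq_one (h : YE G κ Γ a b c d p q y e) {v : G} (hv : Two v) (hc : y * v = v * y)
    (h4 : 4 ≤ (fixedBy Ω y ∩ fixedBy Ω v).ncard) : v = 1 :=
  h.hb.fpf_two h4 (St_mono Set.inter_subset_left (mem_St_fixedBy y))
    (St_mono Set.inter_subset_right (mem_St_fixedBy v)) (HB.pow_ne_one (h.y3 ▸ h.k3)) hv hc

namespace YE

variable (h : YE G κ Γ a b c d p q y e)
include h

theorem ag_d : d ∈ Γ ∧ y • d = d := by
  have : d ∈ Γ ∩ fixedBy Ω y := by rw [h.fix]; simp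
  exact this

theorem ag_p : p ∈ Γ ∧ y • p = p := by
  have : p ∈ Γ ∩ fixedBy Ω y := by rw [h.fix]; simp
  exact this

theorem ag_q : q ∈ Γ ∧ y • q = q := by
  have : q ∈ Γ ∩ fixedBy Ω y := by rw [h.fix]; simp
  exact this

theorem ag_two {v : G} (hv : v ∈ Pd G ({a, b, c, d} : Set Ω)) : Two v :=
  ((h.hb.mem_Pd h.d4.ncard.ge).1 hv).2

theorem ag_yP {v : G} (hv : v ∈ Pd G ({a, b, c, d} : Set Ω)) :
    y * v * y⁻¹ ∈ Pd G ({a, b, c, d} : Set Ω) := by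
  have : y ∈ Mn G ({a, b, c, d} : Set Ω) := mem_Mn_of_smul (by
    simp only [Set.smul_set_insert, Set.smul_set_singleton, h.ya, h.yb, h.yc, h.ag_d.2]
    ext x
    simp only [Set.mem_insert_iff, Set.mem_singleton_iff]
    tauto)
  exact (mem_normalizer_iff.1 this v).1 hv

theorem ag_yD {v : G} : y * v * y⁻¹ ∈ Pd G Γ ↔ v ∈ Pd G Γ := (mem_normalizer_iff.1 h.yM v).symm

theorem ag_fpf : FT3.Fpf3 e (Pd G ({a, b, c, d} : Set Ω)) := h.hb.fpf3 h.d4.ncard.ge h.eΔ h.e3 h.k3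

theorem ag_eP {v : G} (hv : v ∈ Pd G ({a, b, c, d} : Set Ω)) :
    e * v * e⁻¹ ∈ Pd G ({a, b, c, d} : Set Ω) := (mem_normalizer_iff.1 (St_le_Mn _ h.eΔ) v).1 hv

theorem ag_eP' {v : G} (hv : v ∈ Pd G ({a, b, c, d} : Set Ω)) :
    e⁻¹ * v * e ∈ Pd G ({a, b, c, d} : Set Ω) := (mem_normalizer_iff''.1 (St_le_Mn _ h.eΔ) v).1 hv

theorem ag_mem {v : G} (hv : v ∈ Pd G ({a, b, c, d} : Set Ω)) (hp : v • p = p) : v ∈ Pd G Γ := by
  by_contra hn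
  exact h.toCf.not_fix h.sub h.d4.ncard hv hn h.ag_p.1 h.pΔ hp

theorem ag_fix {v : G} (hv : v ∈ Pd G Γ) {x : Ω} (hx : x ∈ Γ) : v • x = x :=
  mem_St.1 (Pd_le Γ hv) x hx

theorem ag_notin {v : G} (hv : v ∈ Pd G ({a, b, c, d} : Set Ω)) {x : Ω}
    (hx : x ∉ ({a, b, c, d} : Set Ω)) : v • x ∉ ({a, b, c, d} : Set Ω) := fun hm => hx (by
  have := mem_St.1 (Pd_le _ (inv_mem hv)) _ hm
  rw [inv_smul_smul] at this
  exact this ▸ hm)

theorem ag_fixy {x : Ω} (h1 : x ∈ Γ) (h2 : x ∉ ({a, b, c, d} : Set Ω)) (h3 : y • x = x) :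
    x = p ∨ x = q := by
  have : x ∈ Γ ∩ fixedBy Ω y := ⟨h1, h3⟩
  rw [h.fix] at this
  rcases this with rfl | h4
  · exact absurd (by simp) h2
  · exact h4

theorem ag_four {v : G} (hv : v ∈ Pd G ({a, b, c, d} : Set Ω)) (hc : y * v = v * y) (h1 : v • p = p)
    {x : Ω} (hx : x ∉ Γ) (h2 : y • x = x) (h3 : v • x = x) : v = 1 := by
  refine h.eq_one (h.ag_two hv) hc ?_
  have hD := h.ag_mem hv h1
  have d4 : D4 d p q x := ⟨fun e1 => h.pΔ (by simp [e1]), fun e1 => h.qΔ (by simp [e1]),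
    fun e1 => hx (e1 ▸ h.ag_d.1), h.pq, fun e1 => hx (e1 ▸ h.ag_p.1), fun e1 => hx (e1 ▸ h.ag_q.1)⟩
  rw [← d4.ncard]
  refine Set.ncard_le_ncard ?_
  rintro z (rfl | rfl | rfl | rfl)
  exacts [⟨h.ag_d.2, h.ag_fix hD h.ag_d.1⟩, ⟨h.ag_p.2, h1⟩, ⟨h.ag_q.2, h.ag_fix hD h.ag_q.1⟩, ⟨h2, h3⟩]

theorem ag_ep : y • e • p = e • p := smul_fix h.comm.symm h.ag_p.2

end YE

theorem YE.nab (h : YE G κ Γ a b c d p q y e) (h12 : Γ.ncard = 12) :
    ¬ ∀ u ∈ Pd G ({a, b, c, d} : Set Ω) ⊓ Mn G Γ, ∀ v ∈ Pd G ({a, b, c, d} : Set Ω) ⊓ Mn G Γ,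
      u * v * u⁻¹ * v⁻¹ ∈ Pd G Γ := by
  intro hab
  have inv := h.t4.inv
  have uq := h.uniq _ h.sub h.d4.ncard
  have hcomm : ∀ u ∈ Pd G ({a, b, c, d} : Set Ω) ⊓ Mn G Γ, ∀ v ∈ Pd G ({a, b, c, d} : Set Ω) ⊓ Mn G Γ,
      ∀ x ∈ Γ, u • v • x = v • u • x := fun u hu v hv x hx => by
    have := h.ag_fix (hab u hu v hv) (inv v hv.2 _ (inv u hu.2 x hx))
    simpa only [mul_smul, inv_smul_smul] using this
  have yQ : ∀ u ∈ Pd G ({a, b, c, d} : Set Ω) ⊓ Mn G Γ, y * u * y⁻¹ ∈ Pd G ({a, b, c, d} : Set Ω) ⊓ Mn G Γ :=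
    fun u hu => ⟨h.ag_yP hu.1, (Mn G Γ).mul_mem ((Mn G Γ).mul_mem h.yM hu.2) ((Mn G Γ).inv_mem h.yM)⟩
  have ysq : ∀ u : G, y * u * y⁻¹ * (y * u * y⁻¹) = y * (u * u) * y⁻¹ := fun u => by group
  obtain ⟨s, hs, hsD, hs2⟩ := h.toCf.exists_s h.sub h.d4.ncard
  -- elements with square in `D` act like `s`
  have like : ∀ u ∈ Pd G ({a, b, c, d} : Set Ω) ⊓ Mn G Γ, u ∉ Pd G Γ → u * u ∈ Pd G Γ →
      ∀ x ∈ Γ, u • x = s • x := fun u hu h1 h2 x hx => by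
    have := h.ag_fix (uq s hs u hu hsD h1 hs2 h2) hx
    rwa [mul_smul, inv_smul_eq_iff] at this
  have hys : ∀ x ∈ Γ, y • x = x → y • s • x = s • x := fun x hx hy => by
    have := like _ (yQ s hs) (fun hm => hsD (h.ag_yD.1 hm)) (by rw [ysq]; exact h.ag_yD.2 hs2) x hx
    rwa [← hy, conj_smul, hy] at this
  have hsp : s • p = q := by
    rcases h.ag_fixy (inv s hs.2 p h.ag_p.1) (h.ag_notin hs.1 h.pΔ) (hys p h.ag_p.1 h.ag_p.2) with e1 | e1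
    · exact absurd (h.ag_mem hs.1 e1) hsD
    · exact e1
  have hsq : s • q = p := by rw [← hsp, ← mul_smul]; exact h.ag_fix hs2 h.ag_p.1
  -- a point outside
  obtain ⟨x, hx, hx'⟩ : ∃ x ∈ Γ, x ∉ insert p (insert q ({a, b, c, d} : Set Ω)) := by
    refine Set.exists_mem_notMem_of_ncard_lt_ncard ?_
    have := Set.ncard_insert_le p (insert q ({a, b, c, d} : Set Ω))
    have := Set.ncard_insert_le q ({a, b, c, d} : Set Ω)
    have := h.d4.ncard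
    omega
  rw [Set.mem_insert_iff, Set.mem_insert_iff, not_or, not_or] at hx'
  obtain ⟨v₀, hv₀, hv₀p⟩ := (h.card.resolve_left (by omega)).2 _ h.sub h.d4.ncard p h.ag_p.1 x hx h.pΔ
    hx'.2.2
  have hv₀D : v₀ ∉ Pd G Γ := fun hm => hx'.1 (hv₀p.symm.trans (h.ag_fix hm h.ag_p.1))
  have hv₀2 : v₀ * v₀ ∉ Pd G Γ := fun hm =>
    hx'.2.1 (hv₀p.symm.trans ((like v₀ hv₀ hv₀D hm p h.ag_p.1).trans hsp))
  obtain ⟨n, n1, n2⟩ := (h.ag_two (mul_mem hv₀.1 hv₀.1)).exists_sq_mem hv₀2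
  have hv := pow_mem hv₀ n
  have e0 : (v₀ * v₀) ^ n = v₀ ^ n * v₀ ^ n := by rw [← pow_two, ← pow_mul, two_mul, pow_add]
  rw [e0] at n1 n2
  generalize v₀ ^ n = v at hv n1 n2
  have hv' := yQ v hv
  have s1 := like _ (mul_mem hv hv) n1 n2 p h.ag_p.1
  have s2 := like _ (mul_mem hv' hv') (by rw [ysq]; exact fun hm => n1 (h.ag_yD.1 hm))
    (by rw [ysq, ysq]; exact h.ag_yD.2 n2) p h.ag_p.1
  have hw := mul_mem (inv_mem hv) hv'
  have w2 : v⁻¹ * (y * v * y⁻¹) * (v⁻¹ * (y * v * y⁻¹)) ∈ Pd G Γ := by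
    refine h.ag_mem (mul_mem hw.1 hw.1) ?_
    generalize y * v * y⁻¹ = v' at hv' s2
    rw [mul_smul] at s1 s2
    rw [mul_smul, mul_smul, mul_smul, hcomm v' hv' v⁻¹ (inv_mem hv) _ (inv v' hv'.2 p h.ag_p.1), s2, ← s1,
      inv_smul_smul, inv_smul_smul]
  have hyv : ∀ z : Ω, y • z = z → y • v • z = v • (v⁻¹ * (y * v * y⁻¹)) • z := fun z hz => by
    rw [mul_smul, smul_inv_smul, ← conj_smul, hz]
  have key : y • v • p = v • p := by
    by_cases hm : v⁻¹ * (y * v * y⁻¹) ∈ Pd G Γ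
    · rw [hyv p h.ag_p.2, h.ag_fix hm h.ag_p.1]
    · have k1 : y • v • p = v • q := by rw [hyv p h.ag_p.2, like _ hw hm w2 p h.ag_p.1, hsp]
      have k2 : y • v • q = v • p := by rw [hyv q h.ag_q.2, like _ hw hm w2 q h.ag_q.1, hsq]
      have k3 : y • y • y • v • p = v • p := by
        rw [← mul_smul, ← mul_smul, ← pow_three', ← h.y3, pow_orderOf_eq_one, one_smul]
      rw [k1, k2] at k3
      exact k3
  rcases h.ag_fixy (inv v hv.2 p h.ag_p.1) (h.ag_notin hv.1 h.pΔ) key with e1 | e1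
  · exact n1 (mul_mem (h.ag_mem hv.1 e1) (h.ag_mem hv.1 e1))
  · refine n1 (h.ag_mem (mul_mem hv.1 hv.1) ?_)
    have k1 : s⁻¹ * v ∈ Pd G Γ := h.ag_mem (mul_mem (inv_mem hs.1) hv.1) (by
      rw [mul_smul, e1, ← hsp, inv_smul_smul])
    have k2 := h.ag_fix k1 h.ag_q.1
    rw [mul_smul, inv_smul_eq_iff] at k2
    rw [mul_smul, e1, k2, hsq]

theorem YE.ag_six (h : YE G κ Γ a b c d p q y e) (h6 : Γ.ncard = 6) {v : G}
    (hv : v ∈ Pd G ({a, b, c, d} : Set Ω)) (hM : v ∈ Mn G Γ) (hD : v ∉ Pd G Γ) : v • p = q := by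
  have e1 : insert p (insert q ({a, b, c, d} : Set Ω)) = Γ := by
    refine Set.eq_of_subset_of_ncard_le (Set.insert_subset h.ag_p.1 (Set.insert_subset h.ag_q.1 h.sub)) ?_
    rw [Set.ncard_insert_of_notMem (by
      rw [Set.mem_insert_iff, not_or]; exact ⟨h.pq, h.pΔ⟩), Set.ncard_insert_of_notMem h.qΔ, h.d4.ncard, h6]
  have h1 := h.t4.inv v hM p h.ag_p.1
  rw [← e1] at h1
  rcases h1 with e2 | e2 | e2
  · exact absurd (h.ag_mem hv e2) hD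
  · exact e2
  · exact absurd e2 (h.ag_notin hv h.pΔ)

theorem YE.ag2 (h : YE G κ Γ a b c d p q y e) :
    ¬ ∀ z ∈ Pd G ({a, b, c, d} : Set Ω), (∀ v ∈ Pd G ({a, b, c, d} : Set Ω), z * v = v * z) →
      z ∈ Pd G Γ := by
  intro hZ
  have hDP : Pd G Γ ≤ Pd G ({a, b, c, d} : Set Ω) := Pd_mono h.sub
  have hcc : ∀ u ∈ Pd G ({a, b, c, d} : Set Ω), ∀ v ∈ Pd G ({a, b, c, d} : Set Ω),
      ∀ g ∈ Pd G ({a, b, c, d} : Set Ω), u * v * u⁻¹ * v⁻¹ * g = g * (u * v * u⁻¹ * v⁻¹) :=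
    fun u hu v hv g hg => (h.ag_fpf.class_two hv hg hu).eq.symm
  have hc : ∀ u ∈ Pd G ({a, b, c, d} : Set Ω), ∀ v ∈ Pd G ({a, b, c, d} : Set Ω),
      u * v * u⁻¹ * v⁻¹ ∈ Pd G Γ := fun u hu v hv =>
    hZ _ (mul_mem (mul_mem (mul_mem hu hv) (inv_mem hu)) (inv_mem hv)) (hcc u hu v hv)
  have hPM : Pd G ({a, b, c, d} : Set Ω) ≤ Mn G Γ := fun k hk => mem_normalizer_fintype fun v hv => by
    have := mul_mem (hc k hk v (hDP hv)) hv
    rwa [inv_mul_cancel_right] at this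
  rcases h.card with h6 | ⟨h12, -⟩
  swap
  · exact h.nab h12 fun u hu v hv => hc u hu.1 v hv.1
  -- the centre is `e`-invariant
  have hZe : ∀ z ∈ Pd G ({a, b, c, d} : Set Ω), (∀ v ∈ Pd G ({a, b, c, d} : Set Ω), z * v = v * z) →
      e⁻¹ * z * e ∈ Pd G Γ := fun z hz hz' => hZ _ (h.ag_eP' hz) fun v hv => by
    have := hz' _ (h.ag_eP hv)
    calc e⁻¹ * z * e * v = e⁻¹ * (z * (e * v * e⁻¹)) * e := by group
      _ = _ := by rw [this]; group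
  obtain ⟨s, hs, hsD, -⟩ := h.toCf.exists_s h.sub h.d4.ncard
  have hA : ⁅Pd G Γ, Pd G Γ⁆ ≤ Pd G Γ ⊓ centralizer (Pd G ({a, b, c, d} : Set Ω) : Set G) :=
    commutator_le.2 fun u hu v hv => ⟨hc u (hDP hu) v (hDP hv), fun g hg => (hcc u (hDP hu) v (hDP hv) g hg).symm⟩
  have hn : Mn G Γ ≤ normalizer (⁅Pd G Γ, Pd G Γ⁆ : Subgroup G) := fun g hg =>
    mem_normalizer_fintype fun v hv => by
      have : (⁅Pd G Γ, Pd G Γ⁆ : Subgroup G).map (MulAut.conj g).toMonoidHom ≤ ⁅Pd G Γ, Pd G Γ⁆ := by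
        have k : (Pd G Γ).map (MulAut.conj g).toMonoidHom ≤ Pd G Γ := by
          rintro _ ⟨x, hx, rfl⟩
          exact (mem_normalizer_iff.1 hg x).1 hx
        rw [map_commutator]
        exact commutator_mono k k
      exact this ⟨v, hv, rfl⟩
  have hy := h.toCf.cent (hA.trans inf_le_left) hn hs.2
    (fun hm => hsD (mem_Pd_of hm (h.ag_two hs.1))) (fun v hv => (hA hv).2 s hs.1) h.yM
    (by rw [h.y3]; decide)
  have hab : ∀ u ∈ Pd G Γ, ∀ v ∈ Pd G Γ, u * v = v * u := fun u hu v hv => by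
    have k := commutator_mem_commutator hu hv
    have k1 := hA k
    rw [← commutatorElement_eq_one_iff_mul_comm]
    refine h.ag_four (hDP k1.1) (hy _ k) (h.ag_fix k1.1 h.ag_p.1) h.ep.1 h.ag_ep ?_
    have := h.ag_fix (hZe _ (hDP k1.1) fun g hg => (k1.2 g hg).symm) h.ag_p.1
    rwa [mul_smul, mul_smul, inv_smul_eq_iff] at this
  obtain ⟨x, hx, hx'⟩ : ∃ x ∈ Pd G Γ, e⁻¹ * x * e ∉ Pd G Γ := by
    by_contra hn'
    push Not at hn'
    refine h.ep.1 ?_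
    rw [← h.fx]
    intro g hg
    have := h.ag_fix (hn' g hg) h.ag_p.1
    rwa [mul_smul, mul_smul, inv_smul_eq_iff] at this
  have hx1 := h.ag_eP' (hDP hx)
  have hx2 : e⁻¹ * x * e * x = x * (e⁻¹ * x * e) := by
    have := (h.ag_fpf.comm hx1).eq
    simpa only [mul_assoc, mul_inv_cancel_left, mul_inv_cancel, mul_one] using this
  refine hx' (hZe x (hDP hx) fun v hv => ?_)
  by_cases hvD : v ∈ Pd G Γ
  · exact hab x hx v hvD
  · have k : (e⁻¹ * x * e)⁻¹ * v ∈ Pd G Γ := h.ag_mem (mul_mem (inv_mem hx1) hv) (by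
      rw [mul_smul, h.ag_six h6 hv (hPM hv) hvD, inv_smul_eq_iff, h.ag_six h6 hx1 (hPM hx1) hx'])
    have k2 := hab x hx _ k
    generalize e⁻¹ * x * e = x' at hx2 k2
    calc x * v = x * x' * (x'⁻¹ * v) := by group
      _ = x' * (x * (x'⁻¹ * v)) := by rw [← hx2, mul_assoc]
      _ = _ := by rw [k2]; group

end CfsgLib.Frob4
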