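import Mathlib
import Cfsg.Agent.Lib.Frob4.Defs
import Cfsg.Agent.Lib.Frob4.Ag2

/-!
Package AG1: `Z(P)` is not contained in `D`.  See `plans/FROB4.md`.
-/

set_option autoImplicit false

namespace CfsgLib.Frob4

open MulAction Subgroup
open scoped Pointwise

variable {G Ω : Type*} [Group G] [MulAction G Ω] [Finite G] [Finite Ω] [FaithfulSMul G Ω]
  {κ : ℕ} {Γ : Set Ω} {a b c d p q : Ω} {y e : G}

omit [Finite Ω] [FaithfulSMul G Ω] in
theorem ag1_eq_of_card {A B : Subgroup G} (h : A ≤ B) (h2 : Nat.card B < 2 * Nat.card A) : A = B := by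
  refine eq_of_le_of_card_ge h ?_
  obtain ⟨k, hk⟩ := card_dvd_of_le h
  have h3 : 0 < Nat.card B := Nat.card_pos
  rcases k with _ | _ | k
  · omega
  · omega
  · nlinarith

/-- an element of `P` commuting with `y` and `δ` permutes `p`, `q` -/
theorem YE.ag1_perm (h : YE G κ Γ a b c d p q y e) {δ u : G} (hδ : δ ∈ Pd G Γ) (h1 : δ ≠ 1)
    (hyδ : y * δ = δ * y) (hu : u ∈ Pd G ({a, b, c, d} : Set Ω)) (h2 : u * y = y * u)
    (h3 : u * δ = δ * u) : u • p = p ∨ u • p = q := by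
  have k1 : y • u • p = u • p := smul_fix h2 h.ag_p.2
  have k2 : δ • u • p = u • p := smul_fix h3 (h.ag_fix hδ h.ag_p.1)
  by_cases hm : u • p ∈ Γ
  · exact h.ag_fixy hm (h.ag_notin hu h.pΔ) k1
  · exact absurd (h.ag_four (Pd_mono h.sub hδ) hyδ (h.ag_fix hδ h.ag_p.1) hm k1 k2) h1

theorem YE.ag1 (h : YE G κ Γ a b c d p q y e) {z : G} (hz : z ∈ Pd G ({a, b, c, d} : Set Ω))
    (hc : ∀ v ∈ Pd G ({a, b, c, d} : Set Ω), z * v = v * z) (hD : z ∉ Pd G Γ) :
    Nat.card (Pd G ({a, b, c, d} : Set Ω)) = 4 ∧ Nat.card (Pd G Γ) = 2 ∧ Γ.ncard = 6 := by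
  classical
  have hDP : Pd G Γ ≤ Pd G ({a, b, c, d} : Set Ω) := Pd_mono h.sub
  have hcM : ∀ w : G, (∀ v ∈ Pd G Γ, w * v = v * w) → w ∈ Mn G Γ := fun w hw =>
    mem_normalizer_fintype fun v hv => by rw [hw v hv, mul_inv_cancel_right]; exact hv
  have hy : ∀ v ∈ Pd G Γ, y * v = v * y := h.toCf.cent le_rfl le_rfl (hcM z fun v hv => hc v (hDP hv))
    (fun hm => hD (mem_Pd_of hm (h.ag_two hz))) (fun v hv => hc v (hDP hv)) h.yM (by rw [h.y3]; decide)
  have y3 : y * y * y = 1 := by rw [← pow_three', ← h.y3, pow_orderOf_eq_one]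
  -- a central element outside `D` commuting with `y`
  obtain ⟨n, n1, n2⟩ := (h.ag_two hz).exists_sq_mem hD
  have hz1 := pow_mem hz n
  have hc1 : ∀ v ∈ Pd G ({a, b, c, d} : Set Ω), z ^ n * v = v * z ^ n := fun v hv =>
    (Commute.pow_left (hc v hv) n).eq
  generalize z ^ n = w at n1 n2 hz1 hc1
  have hwM := hcM w fun v hv => hc1 v (hDP hv)
  have hyw : y * w = w * y := by
    have k := h.uniq _ h.sub h.d4.ncard w ⟨hz1, hwM⟩ (y * w * y⁻¹)
      ⟨h.ag_yP hz1, (Mn G Γ).mul_mem ((Mn G Γ).mul_mem h.yM hwM) ((Mn G Γ).inv_mem h.yM)⟩ n1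
      (fun hm => n1 (h.ag_yD.1 hm)) n2 (by
        rw [show y * w * y⁻¹ * (y * w * y⁻¹) = y * (w * w) * y⁻¹ by group]
        exact h.ag_yD.2 n2)
    obtain ⟨δ, hδ⟩ : ∃ δ, δ = w⁻¹ * (y * w * y⁻¹) := ⟨_, rfl⟩
    rw [← hδ] at k
    have k1 : y * w = w * δ * y := by rw [hδ]; group
    have k2 := hy δ k
    have k3 : δ * δ * δ = 1 := by
      have k1' : ∀ x, y * (w * x) = w * (δ * (y * x)) := fun x => by rw [← mul_assoc, k1]; group
      have k2' : ∀ x, y * (δ * x) = δ * (y * x) := fun x => by rw [← mul_assoc, k2]; group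
      have : y * y * y * w = w * (δ * δ * δ) * (y * y * y) := by
        simp only [mul_assoc]
        rw [k1, mul_assoc, k1', k2', k1', k2', k2']
      rw [y3, one_mul, mul_one] at this
      exact mul_left_cancel (a := w) (by rw [← this, mul_one])
    have k4 : δ = 1 := h.ag_fpf.eq_one_of_cube (hDP k) (by rw [pow_three', k3])
    rw [k1, k4, mul_one]
  -- the subgroup `W`
  obtain ⟨W, hW⟩ : ∃ W : Subgroup G, ∀ g, g ∈ W ↔ g ∈ Pd G ({a, b, c, d} : Set Ω) ∧
      (∀ v ∈ Pd G ({a, b, c, d} : Set Ω), v * g = g * v) ∧ g * y = y * g :=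
    ⟨Pd G ({a, b, c, d} : Set Ω) ⊓ (centralizer (Pd G ({a, b, c, d} : Set Ω) : Set G) ⊓ centralizer {y}),
      fun g => by rw [mem_inf, mem_inf, mem_centralizer_singleton_iff]; rfl⟩
  have hWP : W ≤ Pd G ({a, b, c, d} : Set Ω) := fun g hg => ((hW g).1 hg).1
  have hwW : w ∈ W := (hW w).2 ⟨hz1, fun v hv => (hc1 v hv).symm, hyw.symm⟩
  have heW : e ∈ normalizer (W : Set G) := mem_normalizer_fintype fun g hg => by
    obtain ⟨g1, g2, g3⟩ := (hW g).1 hg
    refine (hW _).2 ⟨h.ag_eP g1, fun v hv => ?_, ?_⟩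
    · calc v * (e * g * e⁻¹) = e * (e⁻¹ * v * e * g) * e⁻¹ := by group
        _ = _ := by rw [g2 _ (h.ag_eP' hv)]; group
    · have k : e⁻¹ * y = y * e⁻¹ := (Commute.inv_right h.comm).eq.symm
      calc e * g * e⁻¹ * y = e * (g * y) * e⁻¹ := by rw [mul_assoc, k]; group
        _ = _ := by rw [g3, ← mul_assoc, ← h.comm]; group
  have e1 : e ≠ 1 := fun e0 => by
    have := h.e3
    rw [e0, orderOf_one] at this
    omega
  have hW4 : 4 ≤ Nat.card W := by
    have k1 := (h.ag_fpf.mono hWP heW).card_mod e1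
    have k2 : Nat.card W ≠ 1 := fun e0 => n1 (by
      rw [card_eq_one] at e0
      rw [e0, mem_bot] at hwW
      exact hwW ▸ one_mem _)
    omega
  have hD1 : Pd G Γ ≠ ⊥ := fun e0 => h.ep.1 (by
    rw [← h.fx, e0]
    intro g hg
    rw [mem_bot.1 hg, one_smul])
  -- the centraliser of `y`, `δ`, `e δ e⁻¹` in `P` has at most four elements
  have hC : ∀ δ ∈ Pd G Γ, δ ≠ 1 → δ ∈ W ∧ Nat.card W ≤ 4 := fun δ hδ h1 => by
    obtain ⟨C, hC⟩ : ∃ C : Subgroup G, ∀ g, g ∈ C ↔ g ∈ Pd G ({a, b, c, d} : Set Ω) ∧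
        g * y = y * g ∧ g * δ = δ * g ∧ g * (e * δ * e⁻¹) = e * δ * e⁻¹ * g :=
      ⟨Pd G ({a, b, c, d} : Set Ω) ⊓ (centralizer {y} ⊓ (centralizer {δ} ⊓ centralizer {e * δ * e⁻¹})),
        fun g => by simp only [mem_inf, mem_centralizer_singleton_iff]⟩
    have p1 : ∀ g ∈ C, g • p = p ∨ g • p = q := fun g hg => by
      obtain ⟨g1, g2, g3, -⟩ := (hC g).1 hg
      exact h.ag1_perm hδ h1 (hy δ hδ) g1 g2 g3
    have p2 : ∀ g ∈ C, g • e • p = e • p ∨ g • e • p = e • q := fun g hg => by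
      obtain ⟨g1, g2, -, g4⟩ := (hC g).1 hg
      have := h.ag1_perm hδ h1 (hy δ hδ) (h.ag_eP' g1) (by
        have k : y * e⁻¹ = e⁻¹ * y := (Commute.inv_right h.comm).eq
        calc e⁻¹ * g * e * y = e⁻¹ * (g * y) * e := by rw [mul_assoc, ← h.comm]; group
          _ = _ := by rw [g2, ← mul_assoc, ← k]; group) (by
        calc e⁻¹ * g * e * δ = e⁻¹ * (g * (e * δ * e⁻¹)) * e := by group
          _ = _ := by rw [g4]; group)
      simpa only [mul_smul, inv_smul_eq_iff] using this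
    have hinj : Function.Injective fun g : C => (decide ((g : G) • p = p), decide ((g : G) • e • p = e • p)) := by
      intro g g' hg
      simp only [Prod.mk.injEq, decide_eq_decide] at hg
      have k1 : (g : G) • p = (g' : G) • p := by
        by_cases k : (g : G) • p = p
        · rw [k, hg.1.1 k]
        · rw [(p1 g g.2).resolve_left k, (p1 g' g'.2).resolve_left fun k' => k (hg.1.2 k')]
      have k2 : (g : G) • e • p = (g' : G) • e • p := by
        by_cases k : (g : G) • e • p = e • p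
        · rw [k, hg.2.1 k]
        · rw [(p2 g g.2).resolve_left k, (p2 g' g'.2).resolve_left fun k' => k (hg.2.2 k')]
      have hm := (hC _).1 (mul_mem (inv_mem g'.2) g.2)
      have := h.ag_four hm.1 hm.2.1.symm (by rw [mul_smul, k1, inv_smul_smul]) h.ep.1 h.ag_ep
        (by rw [mul_smul, k2, inv_smul_smul])
      exact Subtype.ext (inv_mul_eq_one.1 this).symm
    have c4 : Nat.card C ≤ 4 := by
      have := Nat.card_le_card_of_injective _ hinj
      simpa using this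
    have hWC : W ≤ C := fun g hg => by
      obtain ⟨g1, g2, g3⟩ := (hW g).1 hg
      exact (hC g).2 ⟨g1, g3, (g2 δ (hDP hδ)).symm, (g2 _ (h.ag_eP (hDP hδ))).symm⟩
    refine ⟨?_, (card_le_of_le hWC).trans c4⟩
    rw [eq_of_le_of_card_ge hWC (c4.trans hW4)]
    exact (hC δ).2 ⟨hDP hδ, (hy δ hδ).symm, rfl, (h.ag_fpf.comm (hDP hδ)).eq⟩
  have hDW : Pd G Γ ≤ W := fun δ hδ => by
    by_cases h1 : δ = 1
    · exact h1 ▸ one_mem _
    · exact (hC δ hδ h1).1
  have cW : Nat.card W = 4 := by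
    obtain ⟨δ, hδ, h1⟩ := (Pd G Γ).bot_or_exists_ne_one.resolve_left hD1
    exact le_antisymm (hC δ hδ h1).2 hW4
  have cD : Nat.card (Pd G Γ) = 2 := by
    have k1 := card_dvd_of_le hDW
    have k2 : Nat.card (Pd G Γ) ≠ 1 := fun e0 => hD1 (card_eq_one.1 e0)
    have k3 : Nat.card (Pd G Γ) ≠ 4 := fun e0 =>
      n1 (eq_of_le_of_card_ge hDW (by omega) ▸ hwW)
    rw [cW] at k1
    have := Nat.le_of_dvd (by norm_num) k1
    interval_cases Nat.card (Pd G Γ) <;> simp_all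
  have hPM : Pd G ({a, b, c, d} : Set Ω) ≤ Mn G Γ := fun k hk =>
    hcM k fun v hv => ((hW v).1 (hDW hv)).2.1 k hk
  have cP : Nat.card (Pd G ({a, b, c, d} : Set Ω)) ≤ 2 * (Γ.ncard - 4) := by
    have k1 := (stabilizer (Pd G ({a, b, c, d} : Set Ω)) p).index_mul_card
    have k2 : Nat.card (stabilizer (Pd G ({a, b, c, d} : Set Ω)) p) = 2 := by
      rw [← cD, ← Nat.card_congr (subgroupOfEquivOfLe hDP).toEquiv]
      congr 2
      ext g
      exact ⟨fun hg => h.ag_mem g.2 hg, fun hg => h.ag_fix hg h.ag_p.1⟩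
    have k3 : (orbit (Pd G ({a, b, c, d} : Set Ω)) p).ncard ≤ Γ.ncard - 4 := by
      rw [← h.d4.ncard, ← Set.ncard_sdiff h.sub]
      refine Set.ncard_le_ncard ?_
      rintro _ ⟨g, rfl⟩
      exact ⟨h.t4.inv g (hPM g.2) p h.ag_p.1, h.ag_notin g.2 h.pΔ⟩
    rw [index_stabilizer, k2] at k1
    omega
  rcases h.card with h6 | ⟨h12, -⟩
  · have := card_le_of_le hWP
    exact ⟨by omega, cD, h6⟩
  exfalso
  refine h.nab h12 fun u hu v hv => ?_
  suffices k : u * v = v * u by rw [k]; simpa using one_mem _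
  by_cases huW : u ∈ W
  · exact (((hW u).1 huW).2.1 v hv.1).symm
  have h9 : 9 ≤ Nat.card ↥(Pd G ({a, b, c, d} : Set Ω) ⊓ centralizer {u}) := by
    have k1 : e * u * e⁻¹ ∉ W := fun hm => huW ((mem_normalizer_iff.1 heW u).2 hm)
    have k2 : e * u * e⁻¹ ∉ u • (W : Set G) := by
      rw [Set.mem_smul_set_iff_inv_smul_mem, smul_eq_mul]
      exact fun hm => huW (h.ag_fpf.mem_of_comm_mem hWP heW hu.1 hm)
    have k3 : Disjoint (W : Set G) (u • (W : Set G)) := by
      rw [Set.disjoint_left]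
      rintro _ hg ⟨g, hg', rfl⟩
      exact huW ((mul_mem_cancel_right hg').1 hg)
    have k4 : (insert (e * u * e⁻¹) ((W : Set G) ∪ u • (W : Set G))).ncard = 9 := by
      rw [Set.ncard_insert_of_notMem (by rintro (k | k); exacts [k1 k, k2 k]), Set.ncard_union_eq k3,
        Set.ncard_smul_set, ← Nat.card_coe_set_eq]
      change Nat.card W + Nat.card W + 1 = 9
      omega
    rw [← k4]
    change _ ≤ Nat.card ((Pd G ({a, b, c, d} : Set Ω) ⊓ centralizer {u} : Subgroup G) : Set G)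
    rw [Nat.card_coe_set_eq]
    refine Set.ncard_le_ncard ?_
    have k5 : ∀ g ∈ W, g ∈ Pd G ({a, b, c, d} : Set Ω) ⊓ centralizer {u} := fun g hg =>
      ⟨hWP hg, mem_centralizer_singleton_iff.2 (((hW g).1 hg).2.1 u hu.1).symm⟩
    rintro _ (rfl | hg | ⟨g, hg, rfl⟩)
    · exact ⟨h.ag_eP hu.1, mem_centralizer_singleton_iff.2 (h.ag_fpf.comm hu.1).eq.symm⟩
    · exact k5 _ hg
    · exact mul_mem (show u ∈ Pd G ({a, b, c, d} : Set Ω) ⊓ centralizer {u} from
        ⟨hu.1, mem_centralizer_singleton_iff.2 rfl⟩) (k5 g hg)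
  have k := ag1_eq_of_card (A := Pd G ({a, b, c, d} : Set Ω) ⊓ centralizer {u}) inf_le_left (by omega)
  have hv' : v ∈ Pd G ({a, b, c, d} : Set Ω) ⊓ centralizer {u} := k.symm ▸ hv.1
  exact (mem_centralizer_singleton_iff.1 hv'.2).symm

end CfsgLib.Frob4
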