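import Mathlib
import Cfsg.Agent.Lib.Frob4.Defs
import Cfsg.Agent.Lib.Frob4.Cf

/-!
Package AG3: `P` of order 4.  See `plans/FROB4.md`.
-/

set_option autoImplicit false

namespace CfsgLib.Frob4

open MulAction Subgroup
open scoped Pointwise

variable {G Ω : Type*} [Group G] [MulAction G Ω] [Finite G] [Finite Ω] [FaithfulSMul G Ω]
  {κ : ℕ} {Γ : Set Ω} {a b c d p q : Ω} {y e : G}

omit [MulAction G Ω] [Finite Ω] [FaithfulSMul G Ω] in
theorem ag3_four {P : Subgroup G} (h : FT3.Fpf3 e P) (h4 : Nat.card P = 4) {v w : G} (hv : v ∈ P)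
    (h1 : v ≠ 1) (hw : w ∈ P) : w = 1 ∨ w = v ∨ w = e * v * e⁻¹ ∨ w = e * e * v * (e * e)⁻¹ := by
  have n1 : ∀ {x : G}, FT3.Fpf3 x P → v ≠ x * v * x⁻¹ := fun hx e' =>
    h1 (hx.eq_one hv (eq_mul_inv_iff_mul_eq.1 e'))
  have n2 : ∀ x : G, 1 ≠ x * v * x⁻¹ := fun x e' => h1 (by simpa using e'.symm)
  have n3 : e * v * e⁻¹ ≠ e * e * v * (e * e)⁻¹ := fun e' => n1 h (by
    calc v = e⁻¹ * (e * v * e⁻¹) * e := by group
      _ = e⁻¹ * (e * e * v * (e * e)⁻¹) * e := by rw [← e']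
      _ = _ := by group)
  have := Set.eq_of_subset_of_ncard_le (s := {1, v, e * v * e⁻¹, e * e * v * (e * e)⁻¹})
    (t := (P : Set G)) (by
      simp only [Set.insert_subset_iff, Set.singleton_subset_iff, SetLike.mem_coe]
      exact ⟨one_mem _, hv, (mem_normalizer_iff.1 h.norm v).1 hv,
        (mem_normalizer_iff.1 h.sq.norm v).1 hv⟩) (by
      rw [Perm2.ncard_four h1.symm (n2 _) (n2 _) (n1 h) (n1 h.sq) n3, ← h4]
      exact (Nat.card_coe_set_eq _).ge)
  simpa using (this.ge hw)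

theorem YE.ag3 (h : YE G κ Γ a b c d p q y e)
    (h4 : Nat.card (Pd G ({a, b, c, d} : Set Ω)) = 4) (h2 : Nat.card (Pd G Γ) = 2)
    (h6 : Γ.ncard = 6) : False := by
  classical
  have hΔ := h.d4.ncard
  have hf := h.hb.fpf3 hΔ.ge h.eΔ h.e3 h.k3
  have hp : (orderOf e).Prime := h.e3 ▸ Nat.prime_three
  have hk : ¬ orderOf e ∣ κ := h.e3 ▸ h.k3
  -- the involution of `D`
  obtain ⟨δ, hδ, hδ1⟩ : ∃ δ ∈ Pd G Γ, δ ≠ 1 := (Pd G Γ).bot_or_exists_ne_one.resolve_left fun e' => by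
    simp [e'] at h2
  have hz : zpowers δ = Pd G Γ := eq_of_le_of_card_ge (zpowers_le.2 hδ) (by
    rw [h2]; exact (one_lt_card_iff_ne_bot _).2 (by simpa))
  have hδ6 : (fixedBy Ω δ).ncard = 6 := by rw [← Fx_zpowers, hz, h.fx, h6]
  have hδP := Pd_mono (G := G) h.sub hδ
  have six : ∀ t : G, Two t → t ≠ 1 → 4 ≤ (fixedBy Ω t).ncard → (fixedBy Ω t).ncard = 6 := by
    intro t t2 t1 t4
    obtain ⟨Λ, l1, l2⟩ := Set.exists_subset_card_eq t4
    obtain ⟨g, -, hg⟩ := h.hb.t4.set (Set.subset_univ _) (Set.subset_univ _) l2 hΔ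
    have := conj_mem_Pd (mem_Pd_of (St_mono l1 (mem_St_fixedBy t)) t2) g
    rw [hg] at this
    rw [← ncard_fixedBy_conj g]
    rcases ag3_four hf h4 hδP hδ1 this with e' | e' | e' | e'
    · exact absurd (by simpa using e') t1
    all_goals rw [e']; simp only [ncard_fixedBy_conj, hδ6]
  -- the involution `s`
  obtain ⟨ea, eb, ec, ed⟩ := mem_St4.1 h.eΔ
  obtain ⟨d1, d2, d3, d4, d5, d6⟩ := h.d4
  obtain ⟨g, hg, g1, g2, g3, g4⟩ := (h.hb.witt_e hp hk).tr ea ec eb ed ec eb ed ea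
    ⟨d2, d1, d3, d4.symm, d6, d5⟩ ⟨d4.symm, d6, d2.symm, d5, d1.symm, d3.symm⟩
  have hge : g * g * e = e * (g * g) := by
    have h1 := (mem_normalizer_iff.1 hg e).1 (mem_zpowers e)
    rw [mem_zpowers_iff_mem_range_orderOf, h.e3] at h1
    obtain ⟨i, hi, e'⟩ := Finset.mem_image.1 h1
    rw [← mul_inv_eq_iff_eq_mul]
    have e2 : g * g * e * (g * g)⁻¹ = (e ^ i) ^ i := by
      conv_rhs => rw [e', conj_pow, e']
      group
    have hi' := Finset.mem_range.1 hi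
    interval_cases i
    · have : e = 1 := by simpa using e'.symm
      simp [this]
    · simpa using e2
    · rw [e2, ← pow_mul, show 2 * 2 = 3 + 1 from rfl, pow_succ, hf.cube, one_mul]
  obtain ⟨m, n, hm, hm1⟩ := exists_part Nat.prime_two (g * g) 1
  obtain ⟨k, rfl⟩ : Odd m := Nat.odd_iff.2 hm1
  have hr : (g * g) ^ (2 * k) ∈ St G ({a, b, c, d} : Set Ω) := by
    rw [pow_mul]
    exact pow_mem (mem_St4.2 (by simp [sq, mul_smul, *])) k
  obtain ⟨r1, r2, r3, r4⟩ := mem_St4.1 hr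
  have hse : (g * g) ^ (2 * k + 1) * e = e * (g * g) ^ (2 * k + 1) := (Commute.pow_left hge _).eq
  have hsN := pow_mem (mul_mem hg hg) (2 * k + 1)
  have s1 : (g * g) ^ (2 * k + 1) • a = b := by rw [pow_succ, mul_smul, mul_smul, g1, g2, r2]
  have s2 : (g * g) ^ (2 * k + 1) • b = a := by rw [pow_succ, mul_smul, mul_smul, g3, g4, r1]
  have s3 : (g * g) ^ (2 * k + 1) • c = d := by rw [pow_succ, mul_smul, mul_smul, g2, g3, r4]
  have s4 : (g * g) ^ (2 * k + 1) • d = c := by rw [pow_succ, mul_smul, mul_smul, g4, g1, r3]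
  have s2' : Two ((g * g) ^ (2 * k + 1)) := ⟨n, hm⟩
  generalize (g * g) ^ (2 * k + 1) = s at hse hsN s1 s2 s3 s4 s2'
  have ss : s * s = 1 := h.hb.two_norm hp hk (mul_mem hsN hsN) (sq s ▸ s2'.pow 2)
    (hΔ.ge.trans (Set.ncard_le_ncard (by
      simp [Set.insert_subset_iff, mul_smul, *])))
  have hsM : s ∈ Mn G ({a, b, c, d} : Set Ω) := mem_Mn_of_smul (by
    simp only [Set.smul_set_insert, Set.smul_set_singleton, s1, s2, s3, s4]
    ext; simp only [Set.mem_insert_iff, Set.mem_singleton_iff]; tauto)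
  have hsδ : s * δ = δ * s := by
    have key : ∀ {x : G}, x * s = s * x → s * δ * s⁻¹ = x * δ * x⁻¹ → δ * (x * x) = x * x * δ := by
      intro x h1 h3
      calc δ * (x * x) = (s * s) * δ * (s * s)⁻¹ * (x * x) := by rw [ss]; group
        _ = s * (s * δ * s⁻¹) * s⁻¹ * (x * x) := by group
        _ = (s * x) * δ * (s * x)⁻¹ * (x * x) := by rw [h3]; group
        _ = x * (s * δ * s⁻¹) * x := by rw [← h1]; group
        _ = _ := by rw [h3]; group
    rcases ag3_four hf h4 hδP hδ1 ((mem_normalizer_iff.1 hsM δ).1 hδP) with e' | e' | e' | e'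
    · exact absurd (by simpa using e') hδ1
    · exact mul_inv_eq_iff_eq_mul.1 e'
    · exact absurd (hf.sq.eq_one hδP (key hse.symm e')) hδ1
    · exact absurd (hf.sq.sq.eq_one hδP (key ((Commute.mul_left hse.symm hse.symm).eq) e')) hδ1
  have hsP : ∀ v ∈ Pd G ({a, b, c, d} : Set Ω), Commute v s := fun v hv => by
    have c1 : Commute e s := hse.symm
    have c2 : Commute δ s := hsδ.symm
    rcases ag3_four hf h4 hδP hδ1 hv with rfl | rfl | rfl | rfl
    exacts [Commute.one_left _, c2, (c1.mul_left c2).mul_left c1.inv_left,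
      ((c1.mul_left c1).mul_left c2).mul_left (c1.mul_left c1).inv_left]
  have free : ∀ x ∈ fixedBy Ω s ∩ fixedBy Ω e, ∀ v ∈ Pd G ({a, b, c, d} : Set Ω), v • x = x →
      v = 1 := fun x hx v hv e' => by
    by_contra h1
    have x1 : e • x = x := hx.2
    have x2 : e⁻¹ • x = x := inv_smul_eq_iff.2 x1.symm
    have : x ∈ Fx Ω (Pd G ({a, b, c, d} : Set Ω)) := fun w hw => by
      rcases ag3_four hf h4 hv h1 hw with rfl | rfl | rfl | rfl <;> simp [mul_smul, *]
    rw [h.k4 _ hΔ] at this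
    have x3 : s • x = x := hx.1
    rcases this with rfl | rfl | rfl | rfl
    exacts [d1 (x3.symm.trans s1), d1 (s2.symm.trans x3), d6 (x3.symm.trans s3), d6 (s4.symm.trans x3)]
  have hle : 4 * (fixedBy Ω s ∩ fixedBy Ω e).ncard ≤ (fixedBy Ω s).ncard := by
    rw [← h4, ← Nat.card_coe_set_eq, ← Nat.card_coe_set_eq, ← Nat.card_prod]
    refine Nat.card_le_card_of_injective (fun z => ⟨z.1.1 • z.2.1, smul_fix (hsP _ z.1.2).eq z.2.2.1⟩)
      fun ⟨⟨v, hv⟩, ⟨x, hx⟩⟩ ⟨⟨w, hw⟩, ⟨z, hz⟩⟩ e' => ?_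
    have e1 : (w⁻¹ * v) • x = z := by rw [mul_smul, inv_smul_eq_iff]; exact congrArg Subtype.val e'
    have hu := mul_mem (inv_mem hw) hv
    have x2 : e⁻¹ • x = x := inv_smul_eq_iff.2 hx.2.symm
    have e2 := free x hx _ (mul_mem (inv_mem hu) ((mem_normalizer_iff.1 hf.norm _).1 hu)) (by
      rw [mul_smul, inv_smul_eq_iff, mul_smul, mul_smul, x2, e1]; exact hz.2)
    have e3 := hf.eq_one hu (eq_mul_inv_iff_mul_eq.1 (inv_mul_eq_one.1 e2))
    rw [e3, one_smul] at e1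
    rw [inv_mul_eq_one] at e3
    subst e1 e3
    rfl
  have m2 := ncard_modEq (n := 1) Nat.prime_two (g := s) (S := fixedBy Ω e)
    (fun x hx => smul_fix hse hx) fun x _ => by rw [pow_one, sq, ss, one_smul]
  have m3 := ncard_modEq (n := 1) Nat.prime_three (g := e) (S := fixedBy Ω s)
    (fun x hx => smul_fix hse.symm hx) fun x _ => by rw [pow_one, hf.cube, one_smul]
  rw [Set.inter_comm] at m2
  have ho := Nat.odd_iff.1 h.odd
  unfold Nat.ModEq at m2 m3
  have := six s s2' (fun e' => d1 (by rw [← s1, e', one_smul])) (by omega)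
  omega

end CfsgLib.Frob4
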