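import Mathlib
import Cfsg.Agent.Lib.Frob4.Hall

/-!
Package ALT: groups containing a 3-cycle.  See `plans/FROB4.md`.
-/

set_option autoImplicit false
set_option maxHeartbeats 400000

namespace CfsgLib.Frob4

open MulAction Subgroup
open scoped Pointwise

variable {G Ω : Type*} [Group G] [MulAction G Ω] [Finite G] [Finite Ω] [FaithfulSMul G Ω]

set_option linter.unusedSectionVars false

namespace Altx

open Equiv

theorem exists_ne3 (hn : 4 ≤ Nat.card Ω) (a b c : Ω) : ∃ d, a ≠ d ∧ b ≠ d ∧ c ≠ d := by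
  by_contra h
  have : (Set.univ : Set Ω) ⊆ {a, b, c} := fun d _ => by
    by_contra k
    simp only [Set.mem_insert_iff, Set.mem_singleton_iff, not_or] at k
    exact h ⟨d, Ne.symm k.1, Ne.symm k.2.1, Ne.symm k.2.2⟩
  have h1 := Set.ncard_le_ncard this
  have h2 := Set.ncard_insert_le a ({b, c} : Set Ω)
  have h3 := Set.ncard_insert_le b ({c} : Set Ω)
  rw [Set.ncard_univ] at h1
  rw [Set.ncard_singleton] at h3
  omega

theorem cyc_iff [DecidableEq Ω] {k : G} {x y z : Ω} (hxy : x ≠ y) (hxz : x ≠ z) (hyz : y ≠ z) :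
    Cyc Set.univ k x y z ↔ toPermHom G Ω k = swap x y * swap y z := by
  have e1 : (swap x y * swap y z) x = y := by
    rw [Perm.mul_apply, swap_apply_of_ne_of_ne hxy hxz, swap_apply_left]
  have e2 : (swap x y * swap y z) y = z := by
    rw [Perm.mul_apply, swap_apply_left, swap_apply_of_ne_of_ne hxz.symm hyz.symm]
  have e3 : (swap x y * swap y z) z = x := by rw [Perm.mul_apply, swap_apply_right, swap_apply_right]
  have e4 : ∀ u, u ≠ x → u ≠ y → u ≠ z → (swap x y * swap y z) u = u := fun u h1 h2 h3 => by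
    rw [Perm.mul_apply, swap_apply_of_ne_of_ne h2 h3, swap_apply_of_ne_of_ne h1 h2]
  refine ⟨fun ⟨h1, h2, h3, h4⟩ => Equiv.ext fun u => ?_, fun h => ?_⟩
  · by_cases ux : u = x
    · rw [ux, e1]; exact h1
    by_cases uy : u = y
    · rw [uy, e2]; exact h2
    by_cases uz : u = z
    · rw [uz, e3]; exact h3
    rw [e4 u ux uy uz]
    exact h4 u trivial ux uy uz
  · have k := fun u => DFunLike.congr_fun h u
    exact ⟨(k x).trans e1, (k y).trans e2, (k z).trans e3, fun u _ h1 h2 h3 => (k u).trans (e4 u h1 h2 h3)⟩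

theorem inj : Function.Injective (toPermHom G Ω) := toPerm_injective

theorem range_four (h4 : T4 (⊤ : Subgroup G) (Set.univ : Set Ω)) :
    IsMultiplyPretransitive (toPermHom G Ω).range Ω 4 :=
  t4_iff.1 ⟨fun _ _ _ _ => trivial, fun _ _ _ _ _ _ _ _ h1 h2 => by
    obtain ⟨g, e⟩ := h4.top h1 h2
    exact ⟨⟨_, g, rfl⟩, trivial, e⟩⟩

theorem fix_add [Fintype Ω] [DecidableEq Ω] (g : G) :
    (fixedBy Ω g).ncard + (toPermHom G Ω g).support.card = Nat.card Ω := by
  rw [Nat.card_eq_fintype_card]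
  exact Perm2.ncard_fix_add_card_support (toPermHom G Ω g)

end Altx

open Altx

theorem cyc_all (h4 : T4 (⊤ : Subgroup G) (Set.univ : Set Ω)) (hn : 4 ≤ Nat.card Ω) {g : G}
    {a b c : Ω} (hab : a ≠ b) (hac : a ≠ c) (hbc : b ≠ c) (hg : Cyc Set.univ g a b c) :
    ∀ x y z : Ω, x ≠ y → x ≠ z → y ≠ z → ∃ k : G, Cyc Set.univ k x y z := by
  intro x y z hxy hxz hyz
  obtain ⟨d, d1, d2, d3⟩ := exists_ne3 hn a b c
  obtain ⟨w, w1, w2, w3⟩ := exists_ne3 hn x y z
  obtain ⟨k, rfl, rfl, rfl, -⟩ := h4.top ⟨hab, hac, d1, hbc, d2, d3⟩ ⟨hxy, hxz, w1, hyz, w2, w3⟩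
  refine ⟨k * g * k⁻¹, by rw [conj_smul, hg.1], by rw [conj_smul, hg.2.1], by rw [conj_smul, hg.2.2.1],
    fun u _ h1 h2 h3 => ?_⟩
  obtain ⟨u, rfl⟩ : ∃ v, u = k • v := ⟨k⁻¹ • u, (smul_inv_smul _ _).symm⟩
  rw [conj_smul, hg.2.2.2 u trivial (fun e => h1 (e ▸ rfl)) (fun e => h2 (e ▸ rfl)) fun e => h3 (e ▸ rfl)]

theorem cyc_of_swap (h4 : T4 (⊤ : Subgroup G) (Set.univ : Set Ω)) (hn : 4 ≤ Nat.card Ω) {g : G}
    {a b : Ω} (hg1 : g ≠ 1) (hg : ∀ x, x ≠ a → x ≠ b → g • x = x) :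
    ∀ x y z : Ω, x ≠ y → x ≠ z → y ≠ z → ∃ k : G, Cyc Set.univ k x y z := by
  classical
  have key : ∀ u, g • u ≠ a → g • u ≠ b → g • u = u := fun u h1 h2 => smul_left_cancel g (hg _ h1 h2)
  have ha : g • a ≠ a := fun e => hg1 (FaithfulSMul.eq_of_smul_eq_smul (α := Ω) fun u => by
    rw [one_smul]
    by_cases ua : u = a
    · rw [ua, e]
    by_cases ub : u = b
    · by_contra k
      exact k (key u (fun l => ua (smul_left_cancel g (l.trans e.symm))) (ub ▸ k))
    exact hg u ua ub)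
  have h1 : g • a = b := by
    by_contra k
    exact ha (key a ha k)
  have hab : a ≠ b := fun e => ha (h1.trans e.symm)
  have h2 : g • b = a := by
    have : g • b ≠ b := fun e => hab (smul_left_cancel g (h1.trans e.symm))
    by_contra k
    exact this (key b k this)
  have e : toPermHom G Ω g = Equiv.swap a b := Equiv.ext fun u => by
    by_cases ua : u = a
    · rw [ua, Equiv.swap_apply_left]; exact h1
    by_cases ub : u = b
    · rw [ub, Equiv.swap_apply_right]; exact h2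
    rw [Equiv.swap_apply_of_ne_of_ne ua ub]
    exact hg u ua ub
  have sw : ∀ x y, x ≠ y → ∃ k : G, toPermHom G Ω k = Equiv.swap x y := fun x y hxy => by
    obtain ⟨c, c1, c2, -⟩ := exists_ne3 hn a b b
    obtain ⟨d, d1, d2, d3⟩ := exists_ne3 hn a b c
    obtain ⟨z, z1, z2, -⟩ := exists_ne3 hn x y y
    obtain ⟨w, w1, w2, w3⟩ := exists_ne3 hn x y z
    obtain ⟨k, rfl, rfl, -⟩ := h4.top ⟨hab, c1, d1, c2, d2, d3⟩ ⟨hxy, z1, w1, z2, w2, w3⟩
    exact ⟨k * g * k⁻¹, by
      rw [map_mul, map_mul, map_inv, e]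
      exact (Equiv.swap_apply_apply (toPermHom G Ω k) a b).symm⟩
  intro x y z hxy hxz hyz
  obtain ⟨k, hk⟩ := sw x y hxy
  obtain ⟨l, hl⟩ := sw y z hyz
  exact ⟨k * l, (cyc_iff hxy hxz hyz).2 (by rw [map_mul, hk, hl])⟩

theorem alt_le [Fintype Ω] [DecidableEq Ω]
    (h : ∀ x y z : Ω, x ≠ y → x ≠ z → y ≠ z → ∃ k : G, Cyc Set.univ k x y z) :
    alternatingGroup Ω ≤ (toPermHom G Ω).range := by
  rw [← Equiv.Perm.closure_three_cycles_eq_alternating, closure_le]
  intro σ hσ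
  have hσ : σ.IsThreeCycle := hσ
  obtain ⟨a, ha⟩ := Finset.card_pos.1 (show 0 < σ.support.card by rw [hσ.card_support]; norm_num)
  have nd := hσ.nodup_iff_mem_support.2 ha
  simp only [List.nodup_cons, List.mem_cons, List.not_mem_nil, or_false, not_or] at nd
  obtain ⟨k, hk⟩ := h a (σ a) (σ (σ a)) nd.1.1 nd.1.2 nd.2.1
  exact ⟨k, ((cyc_iff nd.1.1 nd.1.2 nd.2.1).1 hk).trans (hσ.eq_swap_mul_swap_iff_mem_support.2 ha).symm⟩

theorem HA.not_cyc (h : HA G Ω) (h8 : 8 ≤ Nat.card Ω) :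
    ¬ ∀ x y z : Ω, x ≠ y → x ≠ z → y ≠ z → ∃ k : G, Cyc Set.univ k x y z := by
  classical
  intro hc
  have := Fintype.ofFinite Ω
  obtain ⟨e⟩ : Nonempty (Fin 8 ↪ Ω) :=
    Function.Embedding.nonempty_of_card_le (by rwa [Fintype.card_fin, ← Nat.card_eq_fintype_card])
  let f := Equiv.ofInjective e e.injective
  let V := Equiv.Perm.extendDomainHom f
  have hV : Function.Injective V := Equiv.Perm.extendDomainHom_injective f
  have lift : ∀ σ : Equiv.Perm (Fin 8), Equiv.Perm.sign σ = 1 → σ * σ = 1 → σ ≠ 1 →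
      ∃ s : G, toPermHom G Ω s = V σ ∧ orderOf s = 2 ∧ ∀ i, σ i = i → s • e i = e i := fun σ h1 h2 h3 => by
    obtain ⟨s, hs⟩ := alt_le hc (Equiv.Perm.mem_alternatingGroup.2 ((Equiv.Perm.sign_extendDomain σ f).trans h1))
    have hs : toPermHom G Ω s = V σ := hs
    refine ⟨s, hs, orderOf_eq_prime (inj (Ω := Ω) (by rw [map_pow, hs, ← map_pow, sq, h2, map_one, map_one]))
      fun k => h3 (hV (by rw [← hs, k, map_one, map_one])), fun i hi => ?_⟩
    have := σ.extendDomain_apply_image f i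
    rw [hi] at this
    exact (DFunLike.congr_fun hs (e i)).trans this
  obtain ⟨s, s1, s2, s3⟩ := lift (Equiv.swap 4 5 * Equiv.swap 6 7) (by decide) (by decide) (by decide)
  obtain ⟨t, t1, t2, t3⟩ := lift (Equiv.swap 4 6 * Equiv.swap 5 7) (by decide) (by decide) (by decide)
  have := h.uniq s t s2 t2 (inj (Ω := Ω) (by
    rw [map_mul, map_mul, s1, t1, ← map_mul, ← map_mul]
    congr 1
    decide)) (by
    rw [← D4.ncard (a := e 0) (b := e 1) (c := e 2) (d := e 3) (by simp [D4])]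
    refine Set.ncard_le_ncard ?_
    rintro _ (rfl | rfl | rfl | rfl) <;> exact ⟨s3 _ (by decide), t3 _ (by decide)⟩)
  rw [this, t1] at s1
  exact absurd (hV s1) (by decide)

theorem fin7 (h4 : T4 (⊤ : Subgroup G) (Set.univ : Set Ω)) (h7 : Nat.card Ω = 7) {t : G}
    (ht : orderOf t = 2) (hf : 4 ≤ (fixedBy Ω t).ncard) :
    Nonempty (G ≃* Equiv.Perm (Fin 7)) := by
  classical
  have := Fintype.ofFinite Ω
  have hc := Nat.card_eq_fintype_card (α := Ω)
  rcases Perm2.eq_top_or_eq_alternatingGroup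
    (Perm2.alternatingGroup_le_of_four (range_four h4) (by omega) (by omega)) with e | e
  · exact ⟨(MulEquiv.ofBijective (toPermHom G Ω) ⟨inj, MonoidHom.range_eq_top.1 e⟩).trans
      (Finite.equivFinOfCardEq h7).permCongrHom⟩
  · exfalso
    have s1 : toPermHom G Ω t * toPermHom G Ω t = 1 := by rw [← map_mul, ← sq, ← ht, pow_orderOf_eq_one, map_one]
    have s2 : toPermHom G Ω t ≠ 1 := fun k => by
      rw [inj (k.trans (map_one _).symm), orderOf_one] at ht
      omega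
    have s3 := Equiv.Perm.mem_alternatingGroup.1 (e.le ⟨t, rfl⟩)
    have s4 := fix_add (Ω := Ω) t
    have s6 := Equiv.Perm.two_le_card_support_of_ne_one s2
    rw [sign_invol s1] at s3
    obtain ⟨m, hm⟩ := (neg_one_pow_eq_one_iff_even (by decide)).1 s3
    omega

theorem fin8 (h : Be (⊤ : Subgroup G) (Set.univ : Set Ω)) :
    Nonempty (G ≃* ↥(alternatingGroup (Fin 8))) := by
  classical
  have := Fintype.ofFinite Ω
  have h8 : Nat.card Ω = 8 := (Set.ncard_univ Ω).symm.trans h.card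
  rcases Perm2.eq_top_or_eq_alternatingGroup (alt_le (G := G) fun x y z h1 h2 h3 => by
    obtain ⟨k, -, e⟩ := h.cyc x trivial y trivial z trivial h1 h2 h3
    exact ⟨k, e⟩) with e | e
  · exfalso
    obtain ⟨x, y, hxy⟩ := (Finite.one_lt_card_iff_nontrivial.1 (show 1 < Nat.card Ω by omega)).exists_pair_ne
    obtain ⟨g, hg⟩ := MonoidHom.range_eq_top.1 e (Equiv.swap x y)
    have s4 := fix_add (Ω := Ω) g
    rw [hg, Equiv.Perm.card_support_swap hxy] at s4
    have := h.inv g trivial (by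
      rw [St_univ, mem_bot]
      exact inj (Ω := Ω) (by rw [map_mul, hg, Equiv.swap_mul_self, map_one])) (by
      rw [St_univ, mem_bot]
      rintro rfl
      rw [map_one] at hg
      exact hxy (Equiv.swap_eq_one_iff.1 hg.symm))
    rw [Set.univ_inter] at this
    omega
  · exact ⟨((MonoidHom.ofInjective (inj (G := G) (Ω := Ω))).trans (MulEquiv.subgroupCongr e)).trans
      (Finite.equivFinOfCardEq h8).altCongrHom⟩

end CfsgLib.Frob4
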