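import Mathlib
import Cfsg.Agent.Lib.Frob4.Defs
import Cfsg.Agent.Lib.Frob4.Cf
import Cfsg.Agent.Lib.Frob4.Hall

/-!
Package BE1: type `A₈`, `D` is normal in the four-point stabiliser.  See `plans/FROB4.md`.
-/

set_option autoImplicit false

namespace CfsgLib.Frob4

open MulAction Subgroup
open scoped Pointwise

variable {G Ω : Type*} [Group G] [MulAction G Ω] [Finite G] [Finite Ω] [FaithfulSMul G Ω]

omit [Finite Ω] [FaithfulSMul G Ω] in
theorem be_zpowers3 {e x : G} (h3 : orderOf e = 3) (hx : x ∈ zpowers e) :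
    x = 1 ∨ x = e ∨ x = e⁻¹ := by
  classical
  rw [mem_zpowers_iff_mem_range_orderOf, h3] at hx
  obtain ⟨n, hn, rfl⟩ := Finset.mem_image.1 hx
  have h1 : e ^ 3 = 1 := h3 ▸ pow_orderOf_eq_one e
  have hn' := Finset.mem_range.1 hn
  interval_cases n
  · exact Or.inl (pow_zero e)
  · exact Or.inr (Or.inl (pow_one e))
  · refine Or.inr (Or.inr (eq_inv_of_mul_eq_one_left ?_))
    rw [← pow_succ, h1]

omit [Finite Ω] [FaithfulSMul G Ω] in
theorem be_conj3 {e g : G} (h3 : orderOf e = 3) (hx : g * e * g⁻¹ ∈ zpowers e) :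
    g * e * g⁻¹ = e ∨ g * e * g⁻¹ = e⁻¹ := by
  rcases be_zpowers3 h3 hx with h | h
  · rw [mul_inv_eq_one, mul_eq_left] at h
    simp [h] at h3
  · exact h

omit [Finite Ω] [FaithfulSMul G Ω] in
theorem be_mem_norm {e g : G} (hx : g * e * g⁻¹ ∈ zpowers e) :
    g ∈ normalizer (zpowers e : Set G) := by
  refine mem_normalizer_fintype fun x hx' => ?_
  obtain ⟨n, rfl⟩ := mem_zpowers_iff.1 hx'
  rw [← conj_zpow]
  exact zpow_mem hx n

omit [Finite G] [Finite Ω] [FaithfulSMul G Ω] in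
theorem be_cyc_cube {Γ : Set Ω} {g : G} {a b c : Ω} (h : Cyc Γ g a b c) : g ^ 3 ∈ St G Γ := by
  obtain ⟨h1, h2, h3, h4⟩ := h
  refine mem_St.2 fun x hx => ?_
  rw [pow_succ, sq, mul_smul, mul_smul]
  by_cases ha : x = a
  · rw [ha, h1, h2, h3]
  by_cases hb : x = b
  · rw [hb, h2, h3, h1]
  by_cases hc : x = c
  · rw [hc, h3, h1, h2]
  rw [h4 x hx ha hb hc, h4 x hx ha hb hc, h4 x hx ha hb hc]

omit [Finite G] [Finite Ω] [FaithfulSMul G Ω] in
theorem be_cyc_pow {Γ : Set Ω} {g : G} {a b c : Ω} (ha : a ∈ Γ) (hb : b ∈ Γ) (hc : c ∈ Γ)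
    (h : Cyc Γ g a b c) {m : ℕ} (hm : m ≡ 1 [MOD 3 ^ 1]) : Cyc Γ (g ^ m) a b c := by
  obtain ⟨j, rfl⟩ : ∃ j, m = 1 + 3 * j := ⟨m / 3, by unfold Nat.ModEq at hm; omega⟩
  have k : ∀ x ∈ Γ, g ^ (1 + 3 * j) • x = g • x := fun x hx => by
    rw [pow_add, pow_one, pow_mul, mul_smul, mem_St.1 (pow_mem (be_cyc_cube h) j) x hx]
  exact ⟨(k a ha).trans h.1, (k b hb).trans h.2.1, (k c hc).trans h.2.2.1,
    fun x hx h1 h2 h3 => (k x hx).trans (h.2.2.2 x hx h1 h2 h3)⟩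

omit [FaithfulSMul G Ω] in
theorem be1_aux {κ : ℕ} {Γ : Set Ω} (h : Cf G κ Γ) (hb : Be (Mn G Γ) Γ) (hD : Pd G Γ ≠ ⊥)
    {Δ : Set Ω} (hΔ : Δ ⊆ Γ) (h4 : Δ.ncard = 4) : ¬ 3 ∣ κ ∧ St G Δ ≤ Mn G Γ := by
  have hdiff : (Γ \ Δ).ncard = 4 := by
    have := Set.ncard_sdiff_add_ncard_of_subset hΔ
    rw [hb.card, h4] at this
    omega
  obtain ⟨p5, p6, p7, p8, hd, hp⟩ := exists_D4 hdiff
  have m5 : p5 ∈ Γ \ Δ := by rw [hp]; simp
  have m6 : p6 ∈ Γ \ Δ := by rw [hp]; simp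
  have m7 : p7 ∈ Γ \ Δ := by rw [hp]; simp
  have m8 : p8 ∈ Γ \ Δ := by rw [hp]; simp
  obtain ⟨h56, h57, h58, h67, h68, h78⟩ := hd
  obtain ⟨g0, hg0, hc0⟩ := hb.cyc p5 m5.1 p6 m6.1 p7 m7.1 h56 h57 h67
  obtain ⟨m, n, hn, hm⟩ := exists_part Nat.prime_three g0 1
  set e := g0 ^ m with he
  have heM : e ∈ Mn G Γ := pow_mem hg0 m
  have hc : Cyc Γ e p5 p6 p7 := be_cyc_pow m5.1 m6.1 m7.1 hc0 hm
  clear_value e
  have hne : ∀ x ∈ Δ, x ≠ p5 ∧ x ≠ p6 ∧ x ≠ p7 := fun x hx =>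
    ⟨fun e => m5.2 (e ▸ hx), fun e => m6.2 (e ▸ hx), fun e => m7.2 (e ▸ hx)⟩
  have heF : e ∈ St G Δ := mem_St.2 fun x hx =>
    hc.2.2.2 x (hΔ hx) (hne x hx).1 (hne x hx).2.1 (hne x hx).2.2
  have he8 : e • p8 = p8 := hc.2.2.2 p8 m8.1 h58.symm h68.symm h78.symm
  have he1 : e ≠ 1 := fun e1 => h56 (by rw [← hc.1, e1, one_smul])
  have hord : orderOf e ∣ 3 ^ n := orderOf_dvd_of_pow_eq_one hn
  have hodd : Odd (orderOf e) := Odd.of_dvd_nat (Odd.pow (by decide)) hord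
  have hP := fun {k : G} (hk : k ∈ Pd G Δ) => (h.hb.mem_Pd h4.ge).1 hk
  -- `e` is outside the kernel
  have hek : e ^ κ ≠ 1 := fun hk => by
    obtain ⟨s, hs, hs', -⟩ := h.exists_s hΔ h4
    have e1 := h.hb.nilp Δ h4.ge e heF s (hP hs.1).1 hk hodd (hP hs.1).2
    have e2 : e • s • p8 = s • p8 := smul_fix e1.symm he8
    have e3 : s • p8 ∈ Γ \ Δ := ⟨h.t4.inv s hs.2 p8 m8.1, fun hx => m8.2 (by
      have := mem_St.1 (hP hs.1).1 _ hx
      rw [smul_left_cancel s this] at hx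
      exact hx)⟩
    rw [hp] at e3
    simp only [Set.mem_insert_iff, Set.mem_singleton_iff] at e3
    rcases e3 with e3 | e3 | e3 | e3
    · rw [e3, hc.1] at e2; exact h56 e2.symm
    · rw [e3, hc.2.1] at e2; exact h67 e2.symm
    · rw [e3, hc.2.2.1] at e2; exact h57 e2
    · exact h.not_fix hΔ h4 hs.1 hs' m8.1 m8.2 e3
  have hcop : (orderOf e).Coprime κ := (h.hb.split Δ h4.ge e heF).resolve_left hek
  have he3 : e ^ 3 = 1 := by
    have e2 := h.ker (be_cyc_cube hc)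
    exact orderOf_eq_one_iff.1 (Nat.eq_one_of_dvd_coprimes hcop (orderOf_pow_dvd 3)
      (orderOf_dvd_of_pow_eq_one e2))
  have : Fact (Nat.Prime 3) := ⟨Nat.prime_three⟩
  have ho3 : orderOf e = 3 := orderOf_eq_prime he3 he1
  have h3 : ¬ 3 ∣ κ := (Nat.prime_three.coprime_iff_not_dvd).1 (ho3 ▸ hcop)
  refine ⟨h3, ?_⟩
  have hfp := h.hb.fpf3 h4.ge heF ho3 h3
  have hDP : Pd G Γ ≤ Pd G Δ := Pd_mono hΔ
  -- elements centralising `D` normalise it
  have hcM : ∀ z : G, (∀ v ∈ Pd G Γ, z * v = v * z) → z ∈ Mn G Γ := fun z hz =>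
    mem_normalizer_fintype fun v hv => by rw [hz v hv, mul_inv_cancel_right]; exact hv
  have hZ : ∀ z ∈ Pd G Δ, (∀ v ∈ Pd G Δ, z * v = v * z) → z ∈ Pd G Γ := by
    intro z hz hz'
    by_contra hzD
    have := h.cent le_rfl le_rfl (hcM z fun v hv => hz' v (hDP hv))
      (fun hs => hzD (h.mem_D.2 ⟨hs, (hP hz).2⟩)) (fun v hv => hz' v (hDP hv)) heM hodd
    exact hD (eq_bot_iff.2 fun v hv => mem_bot.2 (hfp.eq_one (hDP hv) (this v hv).symm))
  have hPM : Pd G Δ ≤ Mn G Γ := fun k hk => mem_normalizer_fintype fun a ha => by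
    have e1 : k * a * k⁻¹ * a⁻¹ ∈ Pd G Γ := hZ _ (mul_mem (mul_mem (mul_mem hk (hDP ha))
      (inv_mem hk)) (inv_mem (hDP ha))) fun v hv => (hfp.class_two (hDP ha) hv hk).eq.symm
    have := mul_mem e1 ha
    rwa [inv_mul_cancel_right] at this
  have hKM : ∀ g ∈ St G Δ, g ^ κ = 1 → g ∈ Mn G Γ := by
    intro g hg hk
    obtain ⟨u, v, hu, hv, hu', hv', rfl⟩ := exists_two_odd g
    have hvF := (zpowers_le.2 hg) hv'
    have hvk : v ^ κ = 1 := by
      obtain ⟨i, hi⟩ := mem_zpowers_iff.1 hv'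
      rw [← hi, ← zpow_natCast, ← zpow_mul, mul_comm i, zpow_mul, zpow_natCast, hk, one_zpow]
    exact mul_mem (hPM (mem_Pd_of ((zpowers_le.2 hg) hu') hu)) (hcM v fun w hw =>
      h.hb.nilp Δ h4.ge v hvF w (hP (hDP hw)).1 hvk hv (hP (hDP hw)).2)
  have hprime : (orderOf e).Prime := ho3 ▸ Nat.prime_three
  have hndvd : ¬ orderOf e ∣ κ := ho3 ▸ h3
  -- an element inverting `e`
  obtain ⟨w, hw⟩ : ∃ w : G, w * e * w⁻¹ = e⁻¹ := by
    obtain ⟨j, hj, j5, j6, j7, j8⟩ := h.t4.tr m5.1 m6.1 m7.1 m8.1 m5.1 m7.1 m6.1 m8.1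
      ⟨h56, h57, h58, h67, h68, h78⟩ ⟨h57, h56, h58, h67.symm, h78, h68⟩
    have hfix : ∀ x ∈ Γ, x ≠ p5 → x ≠ p6 → x ≠ p7 → (j * e * j⁻¹) • x = x := by
      intro x hx x5 x6 x7
      rw [mul_smul, mul_smul, hc.2.2.2 _ (h.t4.inv _ (inv_mem hj) x hx), smul_inv_smul]
      · intro e1; exact x5 (by rw [← j5, ← e1, smul_inv_smul])
      · intro e1; exact x7 (by rw [← j6, ← e1, smul_inv_smul])
      · intro e1; exact x6 (by rw [← j7, ← e1, smul_inv_smul])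
    have he'F : j * e * j⁻¹ ∈ St G Δ := mem_St.2 fun x hx =>
      hfix x (hΔ hx) (hne x hx).1 (hne x hx).2.1 (hne x hx).2.2
    have hee : j * e * j⁻¹ * e ∈ St G Γ := mem_St.2 fun x hx => by
      rw [mul_smul]
      by_cases x5 : x = p5
      · rw [x5, hc.1]
        conv_lhs => rw [← j7]
        rw [conj_smul, hc.2.2.1, j5]
      by_cases x6 : x = p6
      · rw [x6, hc.2.1]
        conv_lhs => rw [← j6]
        rw [conj_smul, hc.2.1, j7]
      by_cases x7 : x = p7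
      · rw [x7, hc.2.2.1]
        conv_lhs => rw [← j5]
        rw [conj_smul, hc.1, j6]
      rw [hc.2.2.2 x hx x5 x6 x7, hfix x hx x5 x6 x7]
    obtain ⟨k, hkF, hkk, hke⟩ := h.hb.conj Δ h4 e heF _ he'F hprime
      ((MulAut.conj j).orderOf_eq e) hndvd
    have hke' : (k * j) * e * (k * j)⁻¹ ∈ zpowers e := by simpa [mul_assoc] using hke
    rcases be_conj3 ho3 hke' with e1 | e1
    · exfalso
      have f1 : (j * e * j⁻¹) * k⁻¹ * (j * e * j⁻¹)⁻¹ ∈ St G Δ :=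
        mul_mem (mul_mem he'F (inv_mem hkF)) (inv_mem he'F)
      have f2 : ((j * e * j⁻¹) * k⁻¹ * (j * e * j⁻¹)⁻¹) ^ κ = 1 := by
        rw [conj_pow, inv_pow, hkk]; simp
      have f3 := h.hb.kmul Δ h4.ge _ (mul_mem hkF f1) _ (St_mono hΔ hee)
        (h.hb.kmul Δ h4.ge _ hkF _ f1 hkk f2) (h.ker hee)
      have f4 : k * ((j * e * j⁻¹) * k⁻¹ * (j * e * j⁻¹)⁻¹) * (j * e * j⁻¹ * e) = e ^ 2 := by
        calc _ = ((k * j) * e * (k * j)⁻¹) * e := by group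
          _ = _ := by rw [e1, sq]
      rw [f4, ← pow_mul] at f3
      have := orderOf_dvd_of_pow_eq_one f3
      rw [ho3] at this
      exact h3 ((Nat.Coprime.dvd_mul_left (by norm_num)).1 this)
    · exact ⟨k * j, e1⟩
  have hinv : e⁻¹ ≠ e := fun e1 => by
    have : e ^ 2 = 1 := by rw [sq]; nth_rewrite 1 [← e1]; exact inv_mul_cancel e
    have := orderOf_dvd_of_pow_eq_one this
    rw [ho3] at this
    omega
  have hΔe : Δ ⊆ fixedBy Ω e := fun x hx => mem_St.1 heF x hx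
  have h4e : 4 ≤ (fixedBy Ω e).ncard := h4 ▸ Set.ncard_le_ncard hΔe
  have hnz : ∀ g ∈ normalizer (zpowers e : Set G), g * e * g⁻¹ = e ∨ g * e * g⁻¹ = e⁻¹ :=
    fun g hg => be_conj3 ho3 ((mem_normalizer_iff.1 hg e).1 (mem_zpowers e))
  have h5e : (fixedBy Ω e).ncard ≤ 5 := by
    by_contra h6
    have := (hall (h.hb.witt_e hprime hndvd) h4e fun t ht h2 h4' => by
      rw [h.hb.two_norm hprime hndvd ht h2 h4']
      exact one_mem _).2.2.1 (by omega) (centralizer {e}) (fun g hg k hk => by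
        rw [mem_centralizer_singleton_iff, ← mul_inv_eq_iff_eq_mul]
        have a1 := hnz g hg
        have a2 := hnz k hk
        have a3 := hnz _ (inv_mem hg)
        have a4 := hnz _ (inv_mem hk)
        have hgk : g * (k * e * k⁻¹) * g⁻¹ = k * (g * e * g⁻¹) * k⁻¹ := by
          rcases a1 with a1 | a1 <;> rcases a2 with a2 | a2
          · rw [a1, a2, a1]
          · rw [a1, a2, ← conj_inv, a1]
          · rw [a1, a2, ← conj_inv, a2, a1]
          · rw [a1, a2, ← conj_inv, ← conj_inv, a1, a2]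
        -- `x = k g` normalises `⟨e⟩`; write `e = x e' x⁻¹` with `e' = e^{±1}`
        have hx := hnz _ (inv_mem (mul_mem hk hg))
        rw [inv_inv] at hx
        have key : ∀ y : G, (y = e ∨ y = e⁻¹) →
            g * (k * y * k⁻¹) * g⁻¹ = k * (g * y * g⁻¹) * k⁻¹ := by
          rintro y (rfl | rfl)
          · exact hgk
          · have := congrArg (·⁻¹) hgk
            simpa [mul_assoc] using this
        have := key _ hx
        calc g * k * g⁻¹ * k⁻¹ * e * (g * k * g⁻¹ * k⁻¹)⁻¹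
            = g * (k * ((k * g)⁻¹ * e * (k * g)) * k⁻¹) * g⁻¹ := by group
          _ = k * (g * ((k * g)⁻¹ * e * (k * g)) * g⁻¹) * k⁻¹ := this
          _ = e := by group)
      (fun g hg => by
        obtain ⟨u, v, hu, hv, hu', hv', rfl⟩ := exists_two_odd g
        have u1 := (zpowers_le.2 hg) hu'
        have v1 := (zpowers_le.2 hg) hv'
        have u2 : u = 1 := h.hb.two_norm hprime hndvd u1.1 hu (h4e.trans (Set.ncard_le_ncard
          fun x hx => ⟨hx, mem_St.1 u1.2 x hx⟩))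
        rw [u2, one_mul]
        have v2 : v ^ 2 ∈ centralizer {e} := by
          rw [mem_centralizer_singleton_iff, ← mul_inv_eq_iff_eq_mul]
          have : v ^ 2 * e * (v ^ 2)⁻¹ = v * (v * e * v⁻¹) * v⁻¹ := by rw [sq]; group
          rw [this]
          rcases hnz v v1.1 with a | a
          · rw [a, a]
          · rw [a, ← conj_inv, a, inv_inv]
        obtain ⟨i, hi⟩ := exists_pow_eq_self_of_coprime (x := v) (n := 2)
          (Nat.coprime_two_left.2 hv)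
        exact hi ▸ pow_mem v2 i)
    have hwN : w ∈ normalizer (zpowers e : Set G) := be_mem_norm (hw ▸ inv_mem (mem_zpowers e))
    have := mem_centralizer_singleton_iff.1 (this hwN)
    rw [this, mul_inv_cancel_right] at hw
    exact hinv hw.symm
  have hins : (insert p8 Δ).ncard = 5 := by rw [Set.ncard_insert_of_notMem m8.2, h4]
  have hfe : insert p8 Δ = fixedBy Ω e :=
    Set.eq_of_subset_of_ncard_le (Set.insert_subset he8 hΔe) (hins ▸ h5e)
  intro g hg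
  obtain ⟨k, hkF, hkk, hke⟩ := h.hb.conj Δ h4 e heF _ (mul_mem (mul_mem hg heF) (inv_mem hg))
    hprime ((MulAut.conj g).orderOf_eq e) hndvd
  have hke' : (k * g) * e * (k * g)⁻¹ ∈ zpowers e := by simpa [mul_assoc] using hke
  have hkgF : k * g ∈ St G Δ := mul_mem hkF hg
  have h8 : (k * g) • p8 = p8 := by
    have e1 := (h.hb.witt_e hprime hndvd).inv _ (be_mem_norm hke') p8 he8
    rw [← hfe] at e1
    rcases e1 with e1 | e1
    · exact e1
    · have := mem_St.1 hkgF _ e1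
      exact smul_left_cancel _ this
  have hkg : k * g ∈ Mn G (insert p8 Δ) := St_le_Mn _ (mem_St.2 fun x hx => by
    rcases hx with rfl | hx
    · exact h8
    · exact mem_St.1 hkgF x hx)
  have hmax := h.max (insert p8 Δ) (Set.insert_subset m8.1 hΔ) hins.ge
  unfold Mn at hkg
  rw [hmax] at hkg
  exact (mul_mem_cancel_left (hKM k hkF hkk)).1 hkg

omit [FaithfulSMul G Ω] in
theorem be1 {κ : ℕ} {Γ : Set Ω} (h : Cf G κ Γ) (hb : Be (Mn G Γ) Γ) (hD : Pd G Γ ≠ ⊥) :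
    ¬ 3 ∣ κ ∧ ∀ Δ ⊆ Γ, Δ.ncard = 4 → St G Δ ≤ Mn G Γ := by
  obtain ⟨Δ, h1, h4⟩ := Set.exists_subset_card_eq h.four
  exact ⟨(be1_aux h hb hD h1 h4).1, fun Δ h1 h4 => (be1_aux h hb hD h1 h4).2⟩

end CfsgLib.Frob4
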