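import Mathlib
import Cfsg.Agent.Lib.Frob4.Defs
import Cfsg.Agent.Lib.Frob4.Cf
import Cfsg.Agent.Lib.Frob.Complement

/-!
Package BE2: type `A₈`, the design on the fixed points of an involution.  See `plans/FROB4.md`.
-/

set_option autoImplicit false

namespace CfsgLib.Frob4

open MulAction Subgroup
open scoped Pointwise

/-- a finite set partitioned into classes of size `k` -/
theorem be_dvd_ncard {α : Type*} [Finite α] (k : ℕ) (cl : α → Set α) (n : ℕ) :
    ∀ S : Set α, S.ncard = n → (∀ x ∈ S, x ∈ cl x ∧ cl x ⊆ S ∧ (cl x).ncard = k) →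
      (∀ x ∈ S, ∀ y ∈ cl x, cl y = cl x) → k ∣ S.ncard := by
  induction n using Nat.strong_induction_on with
  | _ n ih =>
    intro S hn h1 h2
    rcases S.eq_empty_or_nonempty with rfl | ⟨x, hx⟩
    · simp
    obtain ⟨hx1, hx2, hx3⟩ := h1 x hx
    have e : (S \ cl x).ncard + (cl x).ncard = S.ncard := Set.ncard_sdiff_add_ncard_of_subset hx2
    have hpos : 0 < (cl x).ncard := (Set.ncard_pos (Set.toFinite _)).2 ⟨x, hx1⟩
    have := ih (S \ cl x).ncard (by omega) (S \ cl x) rfl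
      (fun y hy => ⟨(h1 y hy.1).1, fun z hz => ⟨(h1 y hy.1).2.1 hz, fun hz' => hy.2 (by
        rw [← h2 x hx z hz', h2 y hy.1 z hz]
        exact (h1 y hy.1).1)⟩, (h1 y hy.1).2.2⟩)
      (fun y hy => h2 y hy.1)
    rw [← e, hx3]
    exact dvd_add this dvd_rfl

variable {G Ω : Type*} [Group G] [MulAction G Ω] [Finite G] [Finite Ω] [FaithfulSMul G Ω]

omit [Finite G] [FaithfulSMul G Ω] in
theorem be_uniq0 {κ : ℕ} {Γ : Set Ω} (h : Cf G κ Γ)
    (hF : ∀ Δ ⊆ Γ, Δ.ncard = 4 → St G Δ ≤ Mn G Γ) {a b c d : Ω} (hd : D4 a b c d)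
    (h1 : ({a, b, c, d} : Set Ω) ⊆ Γ) {g : G} (h2 : ({a, b, c, d} : Set Ω) ⊆ g • Γ) :
    g • Γ = Γ := by
  have k : ∀ x ∈ ({a, b, c, d} : Set Ω), g⁻¹ • x ∈ Γ := fun x hx =>
    Set.mem_smul_set_iff_inv_smul_mem.1 (h2 hx)
  obtain ⟨m, hm, e1, e2, e3, e4⟩ := h.t4.tr (h1 (by simp)) (h1 (by simp)) (h1 (by simp))
    (h1 (by simp)) (k a (by simp)) (k b (by simp)) (k c (by simp)) (k d (by simp)) hd
    (hd.smul g⁻¹)
  have h3 : g * m ∈ Mn G Γ := hF _ h1 hd.ncard (mem_St4.2 ⟨by rw [mul_smul, e1, smul_inv_smul],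
    by rw [mul_smul, e2, smul_inv_smul], by rw [mul_smul, e3, smul_inv_smul],
    by rw [mul_smul, e4, smul_inv_smul]⟩)
  exact h.mem_Mn.1 ((mul_mem_cancel_right hm).1 h3)

omit [Finite G] [FaithfulSMul G Ω] in
theorem be_uniq {κ : ℕ} {Γ : Set Ω} (h : Cf G κ Γ)
    (hF : ∀ Δ ⊆ Γ, Δ.ncard = 4 → St G Δ ≤ Mn G Γ) {a b c d : Ω} (hd : D4 a b c d) {g g' : G}
    (h1 : ({a, b, c, d} : Set Ω) ⊆ g • Γ) (h2 : ({a, b, c, d} : Set Ω) ⊆ g' • Γ) :
    g' • Γ = g • Γ := by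
  have e := be_uniq0 h hF (hd.smul g⁻¹) (g := g⁻¹ * g') (by
    intro x hx
    simp only [Set.mem_insert_iff, Set.mem_singleton_iff] at hx
    rcases hx with rfl | rfl | rfl | rfl <;>
      exact Set.mem_smul_set_iff_inv_smul_mem.1 (h1 (by simp))) (by
    intro x hx
    simp only [Set.mem_insert_iff, Set.mem_singleton_iff] at hx
    rw [mul_smul]
    rcases hx with rfl | rfl | rfl | rfl <;> exact Set.smul_mem_smul_set (h2 (by simp)))
  rw [mul_smul, inv_smul_eq_iff] at e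
  exact e

omit [Finite G] [Finite Ω] [FaithfulSMul G Ω] in
theorem be_exists {κ : ℕ} {Γ : Set Ω} (h : Cf G κ Γ) {a b c d : Ω} (hd : D4 a b c d) :
    ∃ g : G, ({a, b, c, d} : Set Ω) ⊆ g • Γ := by
  obtain ⟨Δ, h1, h4⟩ := Set.exists_subset_card_eq h.four
  obtain ⟨g, -, e⟩ := h.hb.t4.set (Set.subset_univ Δ) (Set.subset_univ _) h4 hd.ncard
  exact ⟨g, e ▸ Set.smul_set_mono h1⟩

omit [Finite G] in
theorem be_mod {κ : ℕ} {Γ : Set Ω} (h : Cf G κ Γ) (hb : Be (Mn G Γ) Γ)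
    (hF : ∀ Δ ⊆ Γ, Δ.ncard = 4 → St G Δ ≤ Mn G Γ) {u : G} (hu : orderOf u = 2)
    (h1 : (fixedBy Ω u).Nonempty) : (fixedBy Ω u).ncard % 3 = 1 := by
  classical
  obtain ⟨x0, hx0⟩ := h1
  have hu1 : u ≠ 1 := fun e => by simp [e] at hu
  have huu : u * u = 1 := by rw [← sq, ← hu, pow_orderOf_eq_one]
  obtain ⟨a, ha⟩ : ∃ a : Ω, u • a ≠ a := by
    by_contra hc
    push Not at hc
    exact hu1 (FaithfulSMul.eq_of_smul_eq_smul (α := Ω) fun x => by rw [hc, one_smul])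
  have hua : u • u • a = a := by rw [← mul_smul, huu, one_smul]
  have hD : ∀ x ∈ fixedBy Ω u \ {x0}, D4 a (u • a) x0 x := fun x hx =>
    ⟨ha.symm, fun e => ha (e ▸ hx0), fun e => ha (e ▸ hx.1),
      fun e => ha (by
        have : u • u • a = u • a := by rw [e]; exact hx0
        rw [hua] at this
        exact this.symm),
      fun e => ha (by
        have : u • u • a = u • a := by rw [e]; exact hx.1
        rw [hua] at this
        exact this.symm),
      fun e => hx.2 e.symm⟩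
  have hex : ∀ x, ∃ g : G, x ∈ fixedBy Ω u \ {x0} → ({a, u • a, x0, x} : Set Ω) ⊆ g • Γ := by
    intro x
    by_cases hx : x ∈ fixedBy Ω u \ {x0}
    · obtain ⟨g, hg⟩ := be_exists h (hD x hx)
      exact ⟨g, fun _ => hg⟩
    · exact ⟨1, fun h' => absurd h' hx⟩
  choose B hB using hex
  have hdvd := be_dvd_ncard 3 (fun x => (B x • Γ ∩ fixedBy Ω u) \ {x0}) _ (fixedBy Ω u \ {x0}) rfl
    (fun x hx => ⟨⟨⟨hB x hx (by simp), hx.1⟩, hx.2⟩, fun y hy => ⟨hy.1.2, hy.2⟩, by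
      have e1 : (u * B x) • Γ = B x • Γ := by
        refine be_uniq h hF (hD x hx) (hB x hx) fun z hz => ?_
        rw [mul_smul, Set.mem_smul_set_iff_inv_smul_mem, inv_eq_of_mul_eq_one_right huu]
        refine hB x hx ?_
        simp only [Set.mem_insert_iff, Set.mem_singleton_iff] at hz ⊢
        rcases hz with rfl | rfl | rfl | rfl
        · exact Or.inr (Or.inl rfl)
        · exact Or.inl hua
        · exact Or.inr (Or.inr (Or.inl hx0))
        · exact Or.inr (Or.inr (Or.inr hx.1))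
      have e2 : (B x)⁻¹ * u * (B x)⁻¹⁻¹ ∈ Mn G Γ := h.mem_Mn.2 (by
        rw [inv_inv, mul_assoc, mul_smul, e1, inv_smul_smul])
      have e3 := hb.inv _ e2 (by
        have : (B x)⁻¹ * u * (B x)⁻¹⁻¹ * ((B x)⁻¹ * u * (B x)⁻¹⁻¹) = (B x)⁻¹ * (u * u) * B x := by
          group
        rw [this, huu]
        simp) (fun hs => ha (by
          have := mem_St.1 hs _ (Set.mem_smul_set_iff_inv_smul_mem.1 (hB x hx (show a ∈ _ by simp)))
          rw [conj_smul] at this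
          exact smul_left_cancel _ this))
      have e4 : Γ ∩ fixedBy Ω ((B x)⁻¹ * u * (B x)⁻¹⁻¹) = (B x)⁻¹ • (B x • Γ ∩ fixedBy Ω u) := by
        rw [fixedBy_conj, Set.smul_set_inter, inv_smul_smul]
      rw [e4, Set.ncard_smul_set] at e3
      have hmem : x0 ∈ B x • Γ ∩ fixedBy Ω u := ⟨hB x hx (by simp), hx0⟩
      have e5 := Set.ncard_sdiff_singleton_add_one hmem
      omega⟩)
    (fun x hx y hy => by
      have hy' : y ∈ fixedBy Ω u \ {x0} := ⟨hy.1.2, hy.2⟩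
      have : B y • Γ = B x • Γ := by
        refine be_uniq h hF (hD y hy') (fun z hz => ?_) (hB y hy')
        simp only [Set.mem_insert_iff, Set.mem_singleton_iff] at hz
        rcases hz with rfl | rfl | rfl | rfl
        · exact hB x hx (by simp)
        · exact hB x hx (by simp)
        · exact hB x hx (by simp)
        · exact hy.1.1
      simp only [this])
  have e := Set.ncard_sdiff_singleton_add_one hx0
  omega

omit [Finite G] [FaithfulSMul G Ω] in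
/-- a 3-element acting on at most eight points has cube acting trivially -/
theorem be_cube {Γ : Set Ω} (h8 : Γ.ncard ≤ 8) {τ : G} {n : ℕ} (hτ : τ ^ 3 ^ n = 1)
    (hi : ∀ x ∈ Γ, τ • x ∈ Γ) : τ ^ 3 ∈ St G Γ := by
  refine mem_St.2 fun x hx => ?_
  have hpow : ∀ m : ℕ, τ ^ m • x ∈ Γ := fun m => by
    induction m with
    | zero => simpa using hx
    | succ m ih => rw [pow_succ', mul_smul]; exact hi _ ih
  have h1 : period τ x ∣ 3 ^ n := pow_smul_eq_iff_period_dvd.1 (by rw [hτ, one_smul])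
  obtain ⟨k, -, hk⟩ := (Nat.dvd_prime_pow Nat.prime_three).1 h1
  have h2 : period τ x ≤ Γ.ncard := by
    have := Set.ncard_le_ncard_of_injOn (s := Set.Iio (period τ x)) (t := Γ) (fun m => τ ^ m • x)
      (fun m _ => hpow m) (fun i hi j hj e => by
        have := Function.iterate_injOn_Iio_minimalPeriod (f := fun y : Ω => τ • y) (x := x)
          (x₁ := i) hi (x₂ := j) hj (by simpa [smul_iterate] using e)
        exact this)
    rwa [Set.ncard_Iio_nat] at this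
  refine pow_smul_eq_iff_period_dvd.2 ?_
  rw [hk] at h2 ⊢
  rcases k with _ | _ | k
  · simp
  · simp
  · exfalso
    have : 9 ≤ 3 ^ (k + 1 + 1) := by
      rw [pow_succ, pow_succ]
      have := Nat.one_le_pow k 3 (by norm_num)
      omega
    omega

theorem be2 {κ : ℕ} {Γ : Set Ω} (h : Cf G κ Γ) (hb : Be (Mn G Γ) Γ) (h3 : ¬ 3 ∣ κ)
    (hF : ∀ Δ ⊆ Γ, Δ.ncard = 4 → St G Δ ≤ Mn G Γ) : Pd G Γ = ⊥ := by
  by_contra hD
  have : Fact (Nat.Prime 3) := ⟨Nat.prime_three⟩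
  obtain ⟨T0, hT0⟩ := Sylow.exists_subgroup_card_pow_prime (G := Mn G Γ) 3 (n := 2) hb.nine
  set T : Subgroup G := T0.map (Mn G Γ).subtype with hT
  have hTc : Nat.card T = 3 ^ 2 := by rw [hT, card_map_of_injective (Mn G Γ).subtype_injective, hT0]
  have hTM : T ≤ Mn G Γ := map_subtype_le _
  have hTp : IsPGroup 3 T := IsPGroup.of_card hTc
  have hcube : ∀ τ ∈ T, τ ^ 3 = 1 := by
    intro τ hτ
    have e1 : τ ^ 3 ^ 2 = 1 := by
      have := pow_card_eq_one' (x := (⟨τ, hτ⟩ : T))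
      rw [hTc] at this
      exact congrArg Subtype.val this
    have e2 := h.ker (be_cube hb.card.le e1 (h.t4.inv τ (hTM hτ)))
    have e3 : (τ ^ 3) ^ 3 = 1 := by rw [← pow_mul]; exact e1
    exact orderOf_eq_one_iff.1 (Nat.eq_one_of_dvd_coprimes
      ((Nat.prime_three.coprime_iff_not_dvd).2 h3) (orderOf_dvd_of_pow_eq_one e3)
      (orderOf_dvd_of_pow_eq_one e2))
  obtain ⟨τ, hτ, hτ1, hne⟩ : ∃ τ ∈ T, τ ≠ 1 ∧ Pd G Γ ⊓ centralizer {τ} ≠ ⊥ := by
    by_contra hc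
    push Not at hc
    exact (Frob.pqCond_of_fpf hD hTM hc).card_ne_sq (p := 3) ⊤
      (fun x _ => Subtype.ext (hcube x x.2)) (by rw [card_top, hTc])
  have hτ3 : orderOf τ = 3 := orderOf_eq_prime (hcube τ hτ) hτ1
  obtain ⟨u, hu, hu2⟩ : ∃ u ∈ Pd G Γ ⊓ centralizer {τ}, orderOf u = 2 := by
    obtain ⟨v, hv, hv1⟩ := (Subgroup.bot_or_exists_ne_one _).resolve_left hne
    obtain ⟨n, e1, e2⟩ := (h.mem_D.1 hv.1).2.exists_sq_mem (D := ⊥) (by simpa using hv1)
    exact ⟨v ^ n, pow_mem hv n, orderOf_eq_prime (by rw [sq]; exact mem_bot.1 e2)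
      (by simpa using e1)⟩
  have huτ : u * τ = τ * u := mem_centralizer_singleton_iff.1 hu.2
  have hΓu : Γ ⊆ fixedBy Ω u := fun x hx => mem_St.1 (Pd_le Γ hu.1) x hx
  have hle : (fixedBy Ω u ∩ fixedBy Ω τ).ncard ≤ 3 := by
    by_contra hc
    have := h.hb.fpf_two (Λ := fixedBy Ω u ∩ fixedBy Ω τ) (by omega)
      (St_mono Set.inter_subset_right (mem_St_fixedBy τ))
      (St_mono Set.inter_subset_left (mem_St_fixedBy u)) (HB.pow_ne_one (hτ3 ▸ h3))
      (two_of_orderOf hu2) huτ.symm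
    simp [this] at hu2
  have hτ1' : τ ^ 3 ^ 1 = 1 := by rw [pow_one]; exact hcube τ hτ
  have m1 := ncard_modEq (n := 1) Nat.prime_three (h.t4.inv τ (hTM hτ))
    (fun x _ => by rw [hτ1', one_smul])
  have m2 := ncard_modEq (n := 1) (g := τ) (S := fixedBy Ω u) Nat.prime_three
    (fun x hx => smul_fix huτ.symm hx) (fun x _ => by rw [hτ1', one_smul])
  have m3 : (Γ ∩ fixedBy Ω τ).ncard ≤ (fixedBy Ω u ∩ fixedBy Ω τ).ncard :=
    Set.ncard_le_ncard (Set.inter_subset_inter_left _ hΓu)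
  have m4 := be_mod h hb hF hu2 (((Set.ncard_pos (Set.toFinite Γ)).1
    (by rw [hb.card]; norm_num)).mono hΓu)
  rw [hb.card] at m1
  unfold Nat.ModEq at m1 m2
  omega

end CfsgLib.Frob4
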