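import Mathlib
import Cfsg.Agent.Lib.Frob4.Defs
import Cfsg.Agent.Lib.Frob4.Hall
import Cfsg.Agent.Lib.Frob.Thompson
import Cfsg.Agent.Lib.Frob.Complement

/-!
Package FD: the Frobenius hypothesis.  See `plans/FROB4.md`.
-/

set_option autoImplicit false

namespace CfsgLib.Frob4

open MulAction Subgroup
open scoped Pointwise

variable {G Ω : Type*} [Group G] [MulAction G Ω] [Finite G] [Finite Ω] [FaithfulSMul G Ω]

section grp

variable {F : Type*} [Group F] [Finite F] {E K : Subgroup F}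

/-- a Frobenius group with its kernel -/
structure FK (E K : Subgroup F) : Prop where
  fr : Cfsg.IsFrobeniusComplement E
  ker : (K : Set F) = Cfsg.frobeniusKernel E
  nor : K.Normal
  cpl : IsComplement' K E
  ne : K ≠ ⊥
  nil : Group.IsNilpotent K

theorem exists_FK (hE : Cfsg.IsFrobeniusComplement E) : ∃ K, FK E K := by
  obtain ⟨K, h1, h2, h3, h4, -, h5⟩ := Frob.exists_nilpotent_kernel hE
  exact ⟨K, hE, h1, h2, h3, h4, h5⟩

namespace FK

variable (h : FK E K) {g k : F}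
include h

theorem card : Nat.card K = E.index := h.cpl.index_eq_card.symm

theorem move (hg : g ∉ K) : ∃ k ∈ K, k * g * k⁻¹ ∈ E := by
  obtain ⟨-, x, hx⟩ := Frob.notMem_kernel_iff.1 (h.ker ▸ hg : g ∉ Cfsg.frobeniusKernel E)
  obtain ⟨⟨⟨k, hk⟩, ⟨e, he⟩⟩, e1⟩ := (h.cpl.existsUnique x).exists
  refine ⟨e⁻¹ * k * e, h.nor.conj_mem' k hk e, ?_⟩
  convert mul_mem (mul_mem (inv_mem he) hx) he using 1
  rw [← e1]; group

theorem cop (hg : g ∉ K) : (orderOf g).Coprime E.index := by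
  obtain ⟨k, -, hk⟩ := h.move hg
  rw [← (MulAut.conj k).orderOf_eq g]
  exact (Frob.frob_coprime_card_index h.fr).coprime_dvd_left (orderOf_dvd_natCard _ hk)

theorem mem : g ^ E.index = 1 ↔ g ∈ K :=
  ⟨fun e => by_contra fun hg => hg (orderOf_eq_one_iff.1 (Nat.eq_one_of_dvd_coprimes
    (h.cop hg) dvd_rfl (orderOf_dvd_of_pow_eq_one e)) ▸ one_mem K),
    fun hg => orderOf_dvd_iff_pow_eq_one.1 (h.card ▸ orderOf_dvd_natCard _ hg)⟩

theorem fpf (hg : g ∉ K) (hk : k ∈ K) (e : g * k = k * g) : k = 1 := by_contra fun e1 =>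
  hg (show g ∈ (K : Set F) from h.ker ▸ Frob.mem_kernel_of_commute h.fr (h.ker ▸ hk) e1 e.symm)

theorem two (h2 : 2 ∣ E.index) (hg : Two g) : g ∈ K := by_contra fun e =>
  e (hg.eq_one_of_odd (Nat.coprime_two_right.1 ((h.cop e).coprime_dvd_right h2)) ▸ one_mem K)

theorem two_mul (h2 : 2 ∣ E.index) (hg : Two g) (hk : Two k) : Two (g * k) := by
  have := h.nil
  have key : ∀ {x : F} (hx : Two x), (⟨x, h.two h2 hx⟩ : K) ∈ Cfsg.pCore 2 K := fun {x} hx => by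
    obtain ⟨n, e⟩ := id hx
    exact Core.le_pCore_of_isNilpotent (Tech.isPGroup_zpowers_of_pow (k := n) (Subtype.ext e))
      (mem_zpowers _)
  obtain ⟨n, e⟩ := two_of_mem (Core.isPGroup_pCore 2 K) (mul_mem (key hg) (key hk))
  exact ⟨n, congrArg Subtype.val e⟩

theorem nilp (h2 : 2 ∣ E.index) (hg : g ∈ K) (ho : Odd (orderOf g)) (hk : Two k) : g * k = k * g := by
  have := h.nil
  obtain ⟨n, e⟩ := id hk
  exact congrArg Subtype.val (Core.commute_of_coprime_orderOf_of_isNilpotent (x := (⟨g, hg⟩ : K))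
    (y := ⟨k, h.two h2 hk⟩) (by
      rw [← orderOf_coe, ← orderOf_coe]
      exact ((Nat.coprime_two_right.2 ho).pow_right n).coprime_dvd_right (orderOf_dvd_of_pow_eq_one e))).eq

theorem exE : ∃ g : F, g ∉ K := by
  by_contra! e
  exact (Frob.isFrobeniusComplement_iff.1 h.fr).1 (eq_bot_iff.2 fun x hx =>
    h.cpl.disjoint.le_bot ⟨e x, hx⟩)

theorem conj (h2 : 2 ∣ E.index) {e e' : F} (hp : (orderOf e).Prime) (ho : orderOf e' = orderOf e)
    (hd : ¬ orderOf e ∣ E.index) : ∃ k ∈ K, k * e' * k⁻¹ ∈ zpowers e := by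
  obtain ⟨k, hk, h1⟩ := h.move fun m => hd (orderOf_dvd_of_pow_eq_one (h.mem.2 m))
  obtain ⟨k', hk', h3⟩ := h.move fun m => hd (ho ▸ orderOf_dvd_of_pow_eq_one (h.mem.2 m))
  have hq := Frob.pqCond_of_frob h.fr
  have := hq.isZGroup_of_odd
    (Nat.coprime_two_right.1 ((Frob.frob_coprime_card_index h.fr).coprime_dvd_right h2))
  have o1 : orderOf (k * e * k⁻¹) = orderOf e := (MulAut.conj k).orderOf_eq e
  have o2 : orderOf (k' * e' * k'⁻¹) = orderOf e := ((MulAut.conj k').orderOf_eq e').trans ho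
  obtain ⟨i, hi⟩ := mem_zpowers_iff.1 ((hq.normal_zpowers (x := ⟨_, h1⟩)
    (by rwa [← orderOf_coe, o1])).conj_mem _ (mem_zpowers _) ⟨_, h3⟩)
  obtain ⟨j, hj⟩ := mem_zpowers_iff.1 ((Frob.pqCond_subgroup_iff.1 hq _ h1 _ h3 (o1 ▸ hp) (o2 ▸ hp)
    (mem_zpowers_iff.2 ⟨i, congrArg Subtype.val hi⟩)).2 (o1.trans o2.symm))
  refine ⟨k⁻¹ * k', mul_mem (inv_mem hk) hk', mem_zpowers_iff.2 ⟨j, ?_⟩⟩
  rw [conj_zpow] at hj
  calc _ = k⁻¹ * (k * e ^ j * k⁻¹) * k := by group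
    _ = _ := by rw [hj]; group

theorem uniq (h2 : ¬ 2 ∣ E.index) {s t : F} (hs : orderOf s = 2) (ht : orderOf t = 2)
    (e : s * t = t * s) : s = t := by
  classical
  obtain ⟨k, -, h1⟩ := h.move fun m => h2 (hs ▸ orderOf_dvd_of_pow_eq_one (h.mem.2 m))
  have o1 : orderOf (k * s * k⁻¹) = 2 := ((MulAut.conj k).orderOf_eq s).trans hs
  have o2 : orderOf (k * t * k⁻¹) = 2 := ((MulAut.conj k).orderOf_eq t).trans ht
  have e' : k * t * k⁻¹ * (k * s * k⁻¹) = k * s * k⁻¹ * (k * t * k⁻¹) := by rw [conj_mul, conj_mul, e]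
  have h3 := Frob.frob_mem_of_commute h.fr h1 (fun m => by simp [m] at o1) e'
  have := (Frob.pqCond_subgroup_iff.1 (Frob.pqCond_of_frob h.fr) _ h1 _ h3 (o1 ▸ Nat.prime_two)
    (o2 ▸ Nat.prime_two) (by rw [e', mul_inv_cancel_right]; exact mem_zpowers _)).2 (o1.trans o2.symm)
  rw [mem_zpowers_iff_mem_range_orderOf, o1] at this
  simp only [Finset.mem_image, Finset.mem_range] at this
  obtain ⟨i, hi, e1⟩ := this
  interval_cases i
  · simp [← e1] at o2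
  · simpa using e1

theorem no2 (h2 : ¬ 2 ∣ E.index) {Q : Subgroup F} (hN : Q.Normal) (hQ : IsPGroup 2 Q) : Q = ⊥ := by
  have h1 : Q ⊓ K = ⊥ := Core.isPGroup_inf_eq_bot_of_coprime hQ (by
    rw [h.card]; exact (Nat.prime_two.coprime_iff_not_dvd.2 h2).symm)
  obtain ⟨k, hk, e⟩ := (bot_or_exists_ne_one K).resolve_left h.ne
  exact eq_bot_iff.2 fun q hq => h1 ▸ mem_inf.2 ⟨hq, by_contra fun m => e (h.fpf m hk
    (commute_of_normal_of_disjoint Q K hN h.nor (disjoint_iff.2 h1) q k hq hk))⟩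

end FK

end grp

omit [Finite Ω] [FaithfulSMul G Ω] in
theorem fd_all (h4 : T4 (⊤ : Subgroup G) (Set.univ : Set Ω)) {Δ : Set Ω} (hd : Δ.ncard = 4)
    {E : Subgroup (St G Δ)} (hE : Cfsg.IsFrobeniusComplement E) {Λ : Set Ω} (hl : Λ.ncard = 4) :
    Nat.card (St G Λ) = Nat.card (St G Δ) ∧ ∃ E' K : Subgroup (St G Λ), FK E' K ∧ E'.index = E.index := by
  obtain ⟨g, -, rfl⟩ := h4.set (Set.subset_univ _) (Set.subset_univ _) hd hl
  have e1 : (St G Δ).map (MulAut.conj g : G →* G) = St G (g • Δ) := by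
    ext x
    exact ⟨by rintro ⟨y, hy, rfl⟩; exact conj_mem_St hy g, fun hx =>
      ⟨_, by simpa using conj_mem_St hx g⁻¹, by simp [mul_assoc]⟩⟩
  let e : St G Δ ≃* St G (g • Δ) := ((MulAut.conj g).subgroupMap _).trans (MulEquiv.subgroupCongr e1)
  obtain ⟨K, hK⟩ := exists_FK (Frob.frob_map_equiv hE e)
  exact ⟨(Nat.card_congr e.toEquiv).symm, _, K, hK, index_map_equiv E e⟩

theorem fd (h4 : T4 (⊤ : Subgroup G) (Set.univ : Set Ω)) {Δ : Set Ω} (hd : Δ.ncard = 4)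
    {E : Subgroup (St G Δ)} (hE : Cfsg.IsFrobeniusComplement E) :
    (HA G Ω ∧ No2 G Ω) ∨ ∃ κ, HB G Ω κ := by
  have all := fun {Λ : Set Ω} (hl : Λ.ncard = 4) => (fd_all h4 hd hE hl).2
  have all' : ∀ {Λ : Set Ω}, 4 ≤ Λ.ncard → ∃ Λ' : Set Ω, St G Λ ≤ St G Λ' ∧
      ∃ E' K : Subgroup (St G Λ'), FK E' K ∧ E'.index = E.index := fun hl => by
    obtain ⟨Λ', h1, h2⟩ := Set.exists_subset_card_eq hl
    exact ⟨Λ', St_mono h1, all h2⟩
  have tw : ∀ {H : Subgroup G} {g : H}, Two g ↔ Two (g : G) := fun {H g} =>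
    exists_congr fun n => by rw [← coe_pow, OneMemClass.coe_eq_one]
  have pw : ∀ {H : Subgroup G} {g : H} {n : ℕ}, g ^ n = 1 ↔ (g : G) ^ n = 1 := fun {H g n} => by
    rw [← coe_pow, OneMemClass.coe_eq_one]
  by_cases h2 : 2 ∣ E.index
  · refine .inr ⟨E.index, h4, h2, fun Λ hl g hg k hk a b => ?_, fun Λ hl g hg k hk a b => ?_,
      fun Λ hl g hg k hk a b c => ?_, fun Λ hl g hg => ?_, fun Λ hl g hg k hk a b c => ?_,
      fun Λ hl => ?_, fun Λ hl => ?_, fun Λ hl e he e' he' a b c => ?_, ?_⟩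
    · obtain ⟨Λ', l, E', K, h, i⟩ := all' hl
      exact tw.1 (h.two_mul (i ▸ h2) (g := ⟨g, l hg⟩) (k := ⟨k, l hk⟩) (tw.2 a) (tw.2 b))
    · obtain ⟨Λ', l, E', K, h, i⟩ := all' hl
      rw [← i] at a b ⊢
      exact pw.1 (h.mem.2 (mul_mem ((h.mem (g := ⟨g, l hg⟩)).1 (pw.2 a)) ((h.mem (g := ⟨k, l hk⟩)).1 (pw.2 b))))
    · obtain ⟨Λ', l, E', K, h, i⟩ := all' hl
      rw [← i] at a h2
      exact congrArg Subtype.val (h.nilp h2 ((h.mem (g := ⟨g, l hg⟩)).1 (pw.2 a))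
        (by rwa [← orderOf_coe]) (k := ⟨k, l hk⟩) (tw.2 c))
    · obtain ⟨Λ', l, E', K, h, i⟩ := all' hl
      rw [← i]
      refine or_iff_not_imp_left.2 fun a => ?_
      simpa using h.cop (g := ⟨g, l hg⟩) fun m => a (pw.1 (h.mem.2 m))
    · obtain ⟨Λ', l, E', K, h, i⟩ := all' hl
      rw [← i] at a b
      exact congrArg Subtype.val (h.fpf (g := ⟨g, l hg⟩) (fun m => a (pw.1 (h.mem.2 m)))
        ((h.mem (g := ⟨k, l hk⟩)).1 (pw.2 b)) (Subtype.ext c))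
    · obtain ⟨E', K, h, i⟩ := all hl
      obtain ⟨g, hg⟩ := h.exE
      exact ⟨g, g.2, fun m => hg (h.mem.1 (pw.2 (i ▸ m)))⟩
    · obtain ⟨E', K, h, i⟩ := all hl
      obtain ⟨t, ht⟩ := exists_prime_orderOf_dvd_card' 2 ((i ▸ h2).trans E'.index_dvd_card)
      exact ⟨t, t.2, by rwa [orderOf_coe]⟩
    · obtain ⟨E', K, h, i⟩ := all hl
      rw [← i] at c h2 ⊢
      obtain ⟨k, hk, m⟩ := h.conj h2 (e := ⟨e, he⟩) (e' := ⟨e', he'⟩) (by simpa using a) (by simpa using b)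
        (by simpa using c)
      obtain ⟨j, hj⟩ := mem_zpowers_iff.1 m
      exact ⟨k, k.2, pw.1 (h.mem.2 hk), mem_zpowers_iff.2 ⟨j, congrArg Subtype.val hj⟩⟩
    · obtain ⟨a, b, c, d, h, -⟩ := exists_D4 hd
      exact ⟨a, b, c, d, h⟩
  by_cases h3 : 2 ∣ Nat.card (St G Δ)
  · refine .inl ⟨⟨h4, fun s t hs ht e hl => ?_, ?_⟩, fun Λ hl Q a b c => ?_⟩
    · obtain ⟨Λ', l, E', K, h, i⟩ := all' hl
      exact congrArg Subtype.val (h.uniq (i ▸ h2)
        (s := ⟨s, l (St_mono Set.inter_subset_left (mem_St_fixedBy s))⟩)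
        (t := ⟨t, l (St_mono Set.inter_subset_right (mem_St_fixedBy t))⟩) (by simpa) (by simpa)
        (Subtype.ext e))
    · obtain ⟨t, ht⟩ := exists_prime_orderOf_dvd_card' 2 h3
      exact ⟨t, by rwa [orderOf_coe], hd ▸ Set.ncard_le_ncard (mem_St.1 t.2)⟩
    · obtain ⟨E', K, h, i⟩ := all hl
      exact (subgroupOf_eq_bot.1 (h.no2 (i ▸ h2) (normal_subgroupOf_of_le_normalizer c)
        b.comap_subtype)).eq_bot_of_le a
  exfalso
  obtain ⟨K, h⟩ := exists_FK hE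
  obtain ⟨a1, -, -, a2⟩ := hall h4 (hd ▸ Set.ncard_le_ncard (Set.subset_univ Δ)) fun t _ ht hl => by
    obtain ⟨Λ, h1, h2⟩ := Set.exists_subset_card_eq hl
    rw [ht.eq_one_of_odd (Odd.of_dvd_nat (Nat.odd_iff.2 (Nat.two_dvd_ne_zero.1 h3)) ((fd_all h4 hd hE h2).1 ▸
      orderOf_dvd_natCard _ (St_mono (h1.trans Set.inter_subset_right) (mem_St_fixedBy t))))]
    exact one_mem _
  have hi : ∀ g ∈ St G Δ, ∀ x ∈ Δᶜ, g • x ∈ Δᶜ := fun g hg x hx m =>
    hx (smul_left_cancel g (mem_St.1 hg _ m) ▸ m)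
  have h5 := card_dvd_of_injective (res hi) ((injective_iff_map_eq_one _).2 fun g e => Subtype.ext
    (mem_bot.1 (St_univ (G := G) (Ω := Ω) ▸ mem_St.2 fun x _ => (em (x ∈ Δ)).elim (mem_St.1 g.2 x)
      (mem_St.1 ((res_eq_one hi g).1 e) x))))
  have h6 := Set.ncard_add_ncard_compl Δ
  rw [Nat.card_perm, Nat.card_coe_set_eq] at h5
  rw [Set.ncard_univ] at a1 a2
  obtain ⟨g, hg⟩ := h.exE
  by_cases h11 : Nat.card Ω = 11
  · have := a2 h11 g trivial (hd ▸ Set.ncard_le_ncard (Set.subset_inter (Set.subset_univ _) (mem_St.1 g.2)))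
    rw [St_univ, mem_bot, OneMemClass.coe_eq_one] at this
    exact hg (this ▸ one_mem K)
  have h7 := Nat.le_of_dvd (by decide) (h5.trans (Nat.factorial_dvd_factorial (show _ ≤ 3 by omega)))
  have h8 := E.card_mul_index
  have h9 : Nat.card E ≠ 1 := fun e => (Frob.isFrobeniusComplement_iff.1 hE).1 (card_eq_one.1 e)
  have h10 : E.index ≠ 1 := fun e => (Frob.isFrobeniusComplement_iff.1 hE).2.1 (index_eq_one.1 e)
  have h12 : ¬ 2 ∣ Nat.card E := fun e => h3 (e.trans (card_subgroup_dvd_card E))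
  have : 3 * 3 ≤ Nat.card E * E.index := Nat.mul_le_mul (by omega) (by omega)
  rw [h8] at this
  exact absurd (this.trans h7) (by decide)

end CfsgLib.Frob4
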