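import Mathlib
import Cfsg.Agent.Lib.Frob4.Defs
import Cfsg.Agent.Lib.Frob4.Hall
import Cfsg.Agent.Lib.Frob4.Cf

/-!
Package KBC: counting blocks fixed by an involution.  See `plans/FROB4.md`.
-/

set_option autoImplicit false

namespace CfsgLib.Frob4

open MulAction Subgroup
open scoped Pointwise

variable {G Ω : Type*} [Group G] [MulAction G Ω] [Finite G] [Finite Ω] [FaithfulSMul G Ω]

theorem fiber_count {X Y : Type*} {S : Set X} (hS : S.Finite) (φ : X → Y) {r : ℕ}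
    (h : ∀ x ∈ S, {x' | x' ∈ S ∧ φ x' = φ x}.ncard = r) : S.ncard = r * (φ '' S).ncard := by
  classical
  lift S to Finset X using hS
  rw [Set.ncard_coe_finset, ← Finset.coe_image, Set.ncard_coe_finset,
    Finset.card_eq_sum_card_image φ S, mul_comm, ← smul_eq_mul, ← Finset.sum_const]
  refine Finset.sum_congr rfl fun y hy => ?_
  obtain ⟨x, hx, rfl⟩ := Finset.mem_image.1 hy
  rw [← h x hx, ← Set.ncard_coe_finset]
  congr 1
  ext z
  simp

theorem ncard_offDiag {X : Type*} {S : Set X} (hS : S.Finite) :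
    S.offDiag.ncard = S.ncard * (S.ncard - 1) := by
  classical
  lift S to Finset X using hS
  rw [← Finset.coe_offDiag, Set.ncard_coe_finset, Set.ncard_coe_finset, Finset.offDiag_card,
    Nat.mul_sub_one]

namespace HB

variable {κ : ℕ} (h : HB G Ω κ) {Δ : Set Ω} (hd : Δ.ncard = 4)
include h hd

omit [Finite Ω] [FaithfulSMul G Ω] in
theorem blk_eq {Δ' : Set Ω} (h2 : Δ'.ncard = 4) (h3 : Δ' ⊆ Fx Ω (Pd G Δ)) :
    Fx Ω (Pd G Δ') = Fx Ω (Pd G Δ) := by rw [h.Pd_eq hd h2 h3]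

omit [Finite Ω] [FaithfulSMul G Ω] in
theorem t4_blk : T4 (Mn G Δ) (Fx Ω (Pd G Δ)) := by
  refine ⟨fun g hg x hx => smul_mem_Fx hg hx,
    fun {a b c d a' b' c' d'} ha hb hc hd1 ha' hb' hc' hd' h1 h2 => ?_⟩
  obtain ⟨g, rfl, rfl, rfl, rfl⟩ := h.t4.top h1 h2
  refine ⟨g, mem_normalizer_iff''.2 fun k => ?_, rfl, rfl, rfl, rfl⟩
  have e1 := h.Pd_eq hd h1.ncard (by simp [Set.insert_subset_iff, ha, hb, hc, hd1])
  have e2 := h.Pd_eq hd h2.ncard (by simp [Set.insert_subset_iff, ha', hb', hc', hd'])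
  have := mem_Pd_smul (Λ := {a, b, c, d}) (g := g) (h := k)
  simp only [Set.smul_set_insert, Set.smul_set_singleton] at this
  rwa [e1, e2] at this

omit [Finite Ω] [FaithfulSMul G Ω] in
theorem two_blk {t : G} (h2 : Two t) (h4 : 4 ≤ (Fx Ω (Pd G Δ) ∩ fixedBy Ω t).ncard) :
    t ∈ St G (Fx Ω (Pd G Δ)) := by
  obtain ⟨Δ', h1, h3⟩ := Set.exists_subset_card_eq h4
  have := mem_Pd_of (St_mono (h1.trans Set.inter_subset_right) (mem_St_fixedBy t)) h2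
  rw [h.Pd_eq hd h3 (h1.trans Set.inter_subset_left)] at this
  exact mem_St.2 fun x hx => hx t this

omit [Finite G] [Finite Ω] [FaithfulSMul G Ω] h hd in
theorem blk_subset {D : Subgroup G} (hD : IsPGroup 2 D) (h1 : Δ ⊆ Fx Ω D) :
    Fx Ω (Pd G Δ) ⊆ Fx Ω D := fun _ hx g hg =>
  hx g (mem_Pd_of (mem_St.2 fun _ hz => h1 hz g hg) (two_of_mem hD hg))

omit [FaithfulSMul G Ω] in
/-- the fixed points of `w` on an invariant block -/
theorem blk_fix {D : Subgroup G} (hD : IsPGroup 2 D) (h1 : Δ ⊆ Fx Ω D) {w : G} (hw2 : w * w ∈ D)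
    (hw : w • Δ = Δ) {a : Ω} (ha : a ∈ Δ) (ha' : w • a ≠ a) :
    (Fx Ω (Pd G Δ) ∩ fixedBy Ω w).ncard ≤ 3 ∧
      (Fx Ω (Pd G Δ)).ncard % 2 = (Fx Ω (Pd G Δ) ∩ fixedBy Ω w).ncard % 2 ∧
      ((Fx Ω (Pd G Δ)).ncard = 6 ∨ (Fx Ω (Pd G Δ)).ncard = 7 →
        (Fx Ω (Pd G Δ) ∩ fixedBy Ω w).ncard + 4 = (Fx Ω (Pd G Δ)).ncard) := by
  have hn : w ∉ St G (Fx Ω (Pd G Δ)) := fun e => ha' (mem_St.1 e a (subset_Fx_Pd Δ ha))
  have h2 : Two w := by
    obtain ⟨n, e⟩ := two_of_mem hD hw2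
    exact ⟨n + 1, by rw [pow_succ', pow_mul, sq, e]⟩
  have hM := mem_Mn_of_smul hw
  have hs : w * w ∈ St G (Fx Ω (Pd G Δ)) := mem_St.2 fun x hx => blk_subset hD h1 hx _ hw2
  refine ⟨by_contra fun e => hn (h.two_blk hd h2 (by omega)),
    ncard_modEq (n := 1) Nat.prime_two (fun x hx => smul_mem_Fx hM hx) fun x hx => by
      rw [pow_one, sq, mem_St.1 hs x hx], fun e => ?_⟩
  exact (hall (h.t4_blk hd) (hd ▸ Set.ncard_le_ncard (subset_Fx_Pd Δ))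
    fun t _ => h.two_blk hd).2.1 e w hM hs hn

end HB

theorem kbc {κ k : ℕ} (h : HB G Ω κ) (hk : ∀ Δ : Set Ω, Δ.ncard = 4 → (Fx Ω (Pd G Δ)).ncard = k)
    (h5 : 5 ≤ k) {D : Subgroup G} (hD : IsPGroup 2 D) {w : G} (hw : w ∈ normalizer (D : Set G))
    (hw2 : w * w ∈ D) {m : ℕ} (hm : (Fx Ω D ∩ fixedBy Ω w).ncard = m) (h4 : 4 ≤ m)
    (ha : ¬ Fx Ω D ⊆ fixedBy Ω w) :
    (k = 5 ∨ k = 6 ∨ k = 7 ∨ k = 11) ∧ (k ≠ 6 → 3 ∣ m * (m - 1)) ∧
    (k = 6 → (Fx Ω D).ncard = m + 2 + m * (m - 1) ∧ 3 ∣ (Fx Ω D).ncard) ∧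
    (k = 7 → 3 * (Fx Ω D).ncard = 3 * m + 6 + m * (m - 1)) := by
  obtain ⟨a, haD, ha0⟩ := Set.not_subset.1 ha
  clear ha
  have ha : w • a ≠ a := ha0
  obtain ⟨b, hb⟩ : ∃ b, b = w • a := ⟨_, rfl⟩
  have hab : a ≠ b := hb ▸ ha.symm
  have hbD : b ∈ Fx Ω D := hb ▸ smul_mem_Fx hw haD
  have hww : ∀ x ∈ Fx Ω D, w • w • x = x := fun x hx => by rw [← mul_smul]; exact hx _ hw2
  have hba : w • b = a := hb ▸ hww a haD
  have hb' : w • b ≠ b := fun e => hab (by rw [← hba, e])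
  set Θ := Fx Ω D
  set Γ := Θ ∩ fixedBy Ω w
  set B : Set Ω → Set Ω := fun Δ => Fx Ω (Pd G Δ)
  have sub : ∀ Δ, Δ ⊆ B Δ := subset_Fx_Pd
  -- the two kinds of invariant 4-sets
  have d1 : ∀ {x y}, w • x = x → w • y = y → x ≠ y → D4 a b x y := fun {x y} hx hy e =>
    ⟨hab, fun e => ha (e ▸ hx), fun e => ha (e ▸ hy), fun e => hb' (e ▸ hx),
      fun e => hb' (e ▸ hy), e⟩
  have d2 : ∀ {c}, c ∈ Θ → w • c ≠ c → c ≠ a → c ≠ b → D4 a b c (w • c) := fun {c} h1 h2 h3 h4 =>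
    ⟨hab, h3.symm, fun e => h4 (by rw [hb, e, hww c h1]), h4.symm,
      fun e => h3 (smul_left_cancel w (hb ▸ e)).symm, h2.symm⟩
  have f1 := fun {x y} (hx : x ∈ Γ) (hy : y ∈ Γ) (e : x ≠ y) =>
    h.blk_fix (d1 hx.2 hy.2 e).ncard hD (by simp [Set.insert_subset_iff, haD, hbD, hx.1, hy.1, Θ])
      hw2 (by
        simp only [Set.smul_set_insert, Set.smul_set_singleton, hba, ← hb]
        rw [hx.2, hy.2, Set.insert_comm]) (a := a) (by simp) ha
  have s1 : ∀ {x y}, x ∈ Γ → y ∈ Γ → x ≠ y → B {a, b, x, y} ⊆ Θ := fun hx hy e =>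
    HB.blk_subset hD (by simp [Set.insert_subset_iff, haD, hbD, hx.1, hy.1, Θ])
  have s2 : ∀ {c}, c ∈ Θ → w • c ≠ c → c ≠ a → c ≠ b → B {a, b, c, w • c} ⊆ Θ := fun h1 h2 h3 h4 =>
    HB.blk_subset hD
      (by simp [Set.insert_subset_iff, haD, hbD, h1, smul_mem_Fx hw h1, Θ])
  have f2 := fun {c} (h1 : c ∈ Θ) (h2 : w • c ≠ c) (h3 : c ≠ a) (h4 : c ≠ b) =>
    h.blk_fix (d2 h1 h2 h3 h4).ncard hD
      (by simp [Set.insert_subset_iff, haD, hbD, h1, smul_mem_Fx hw h1, Θ]) hw2 (by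
        simp only [Set.smul_set_insert, Set.smul_set_singleton, hba, ← hb, hww c h1]
        rw [Set.insert_comm, Set.pair_comm]) (a := a) (by simp) ha
  have k5 : k = 5 ∨ k = 6 ∨ k = 7 ∨ k = 11 := by
    obtain ⟨x, y, z, t, e⟩ := h.ex4
    have := (hall (h.t4_blk e.ncard) (e.ncard ▸ Set.ncard_le_ncard (subset_Fx_Pd _))
      fun t _ => h.two_blk e.ncard).1
    rw [hk _ e.ncard] at this
    omega
  -- ordered pairs of fixed points
  have c1 : ∀ f, (∀ x ∈ Γ, ∀ y ∈ Γ, x ≠ y → (B {a, b, x, y} ∩ fixedBy Ω w).ncard = f) →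
      m * (m - 1) = f * (f - 1) * ((fun z : Ω × Ω => B {a, b, z.1, z.2}) '' Γ.offDiag).ncard := by
    intro f hf
    rw [← hm, ← ncard_offDiag (Set.toFinite _)]
    refine fiber_count (Set.toFinite _) _ fun ⟨x, y⟩ ⟨hx, hy, e⟩ => ?_
    rw [← hf x hx y hy e, ← ncard_offDiag (Set.toFinite _)]
    congr 1
    ext ⟨u, v⟩
    refine ⟨fun ⟨⟨hu, hv, e1⟩, e2⟩ => ⟨⟨?_, hu.2⟩, ⟨?_, hv.2⟩, e1⟩, fun ⟨hu, hv, e1⟩ =>
      ⟨⟨⟨s1 hx hy e hu.1, hu.2⟩, ⟨s1 hx hy e hv.1, hv.2⟩, e1⟩,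
        h.blk_eq (d1 hx.2 hy.2 e).ncard (d1 hu.2 hv.2 e1).ncard ?_⟩⟩
    · exact (show B {a, b, u, v} = B {a, b, x, y} from e2) ▸ sub _ (by simp)
    · exact (show B {a, b, u, v} = B {a, b, x, y} from e2) ▸ sub _ (by simp)
    · exact Set.insert_subset (sub _ (by simp)) (Set.insert_subset (sub _ (by simp))
        (Set.insert_subset hu.1 (Set.singleton_subset_iff.2 hv.1)))
  have two : ∀ {x y}, x ∈ Γ → y ∈ Γ → x ≠ y → 2 ≤ (B {a, b, x, y} ∩ fixedBy Ω w).ncard :=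
    fun {x y} hx hy e => (Set.one_lt_ncard (Set.toFinite _)).2
      ⟨x, ⟨sub _ (by simp), hx.2⟩, y, ⟨sub _ (by simp), hy.2⟩, e⟩
  -- moved points
  have c2 : k = 6 ∨ k = 7 → Θ.ncard = m + 2 +
      2 * ((fun z : Ω × Ω => B {a, b, z.1, z.2}) '' Γ.offDiag).ncard := by
    intro k6
    have mv : ∀ S : Set Ω, a ∈ S → b ∈ S →
        S.ncard = (S ∩ fixedBy Ω w).ncard + 2 + ((S \ fixedBy Ω w) \ {a, b}).ncard := by
      intro S h1 h2
      rw [← Set.ncard_inter_add_ncard_sdiff_eq_ncard S (fixedBy Ω w), add_assoc,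
        ← Set.ncard_inter_add_ncard_sdiff_eq_ncard (S \ fixedBy Ω w) {a, b},
        Set.inter_eq_right.2 (show {a, b} ⊆ S \ fixedBy Ω w from
          Set.insert_subset ⟨h1, ha⟩ (Set.singleton_subset_iff.2 ⟨h2, hb'⟩)),
        Set.ncard_pair hab]
    have mem : ∀ {S : Set Ω} {c}, c ∈ (S \ fixedBy Ω w) \ {a, b} ↔
        c ∈ S ∧ w • c ≠ c ∧ c ≠ a ∧ c ≠ b := by
      intro S c
      simp [and_assoc]
    have inv : ∀ {Δ : Set Ω} {c}, Δ.ncard = 4 → w • Δ = Δ → a ∈ B Δ → b ∈ B Δ → c ∈ B Δ → c ∈ Θ →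
        w • c ≠ c → c ≠ a → c ≠ b → B {a, b, c, w • c} = B Δ := fun e1 e2 h1 h2 h3 h4 h5 h6 h7 =>
      h.blk_eq e1 (d2 h4 h5 h6 h7).ncard (Set.insert_subset h1 (Set.insert_subset h2
        (Set.insert_subset h3 (Set.singleton_subset_iff.2 (smul_mem_Fx (mem_Mn_of_smul e2) h3)))))
    rw [mv Θ haD hbD, hm, fiber_count (Set.toFinite _) (fun c => B {a, b, c, w • c}) (r := 2)]
    · congr 3
      ext S
      constructor
      · rintro ⟨c, hc, rfl⟩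
        obtain ⟨h1, h2, h3, h4⟩ := mem.1 hc
        have := (f2 h1 h2 h3 h4).2.2
        rw [hk _ (d2 h1 h2 h3 h4).ncard] at this
        obtain ⟨x, hx, y, hy, e⟩ := (Set.one_lt_ncard (Set.toFinite _)).1
          (show 1 < (B {a, b, c, w • c} ∩ fixedBy Ω w).ncard by have := this k6; simp only [B]; omega)
        exact ⟨(x, y), ⟨⟨s2 h1 h2 h3 h4 hx.1, hx.2⟩, ⟨s2 h1 h2 h3 h4 hy.1, hy.2⟩, e⟩,
          h.blk_eq (d2 h1 h2 h3 h4).ncard (d1 hx.2 hy.2 e).ncard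
            (Set.insert_subset (sub _ (by simp)) (Set.insert_subset (sub _ (by simp))
              (Set.insert_subset hx.1 (Set.singleton_subset_iff.2 hy.1))))⟩
      · rintro ⟨⟨x, y⟩, ⟨hx, hy, e⟩, rfl⟩
        dsimp only at hx hy e
        have h1 := (f1 hx hy e).2.2
        have h2 := mv (B {a, b, x, y}) (sub _ (by simp)) (sub _ (by simp))
        rw [hk _ (d1 hx.2 hy.2 e).ncard] at h1 h2
        obtain ⟨c, hc⟩ := Set.nonempty_of_ncard_ne_zero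
          (s := (B {a, b, x, y} \ fixedBy Ω w) \ {a, b}) (by
            have := h1 k6
            intro e0
            rw [e0] at h2
            simp only [B] at h2
            omega)
        obtain ⟨h3, h4, h5, h6⟩ := mem.1 hc
        exact ⟨c, mem.2 ⟨s1 hx hy e h3, h4, h5, h6⟩, inv (d1 hx.2 hy.2 e).ncard (by
          simp only [Set.smul_set_insert, Set.smul_set_singleton, hba, ← hb]
          rw [hx.2, hy.2, Set.insert_comm]) (sub _ (by simp)) (sub _ (by simp)) h3 (s1 hx hy e h3)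
          h4 h5 h6⟩
    · intro c hc
      obtain ⟨h1, h2, h3, h4⟩ := mem.1 hc
      have h5 := (f2 h1 h2 h3 h4).2.2
      have h6 := mv (B {a, b, c, w • c}) (sub _ (by simp)) (sub _ (by simp))
      rw [hk _ (d2 h1 h2 h3 h4).ncard] at h5 h6
      have h7 : ((B {a, b, c, w • c} \ fixedBy Ω w) \ {a, b}).ncard = 2 := by
        have := h5 k6; simp only [B] at h6 ⊢; omega
      rw [← h7]
      congr 1
      ext x
      refine ⟨fun ⟨hx, e⟩ => mem.2 ⟨?_, (mem.1 hx).2⟩, fun hx => ?_⟩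
      · exact (show B {a, b, x, w • x} = B {a, b, c, w • c} from e) ▸ sub _ (by simp)
      · obtain ⟨e1, e2, e3, e4⟩ := mem.1 hx
        exact ⟨mem.2 ⟨s2 h1 h2 h3 h4 e1, e2, e3, e4⟩, inv (d2 h1 h2 h3 h4).ncard (by
          simp only [Set.smul_set_insert, Set.smul_set_singleton, hba, ← hb, hww c h1]
          rw [Set.insert_comm, Set.pair_comm]) (sub _ (by simp)) (sub _ (by simp)) e1
          (s2 h1 h2 h3 h4 e1) e2 e3 e4⟩
  have odd : k ≠ 6 → m * (m - 1) =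
      3 * (3 - 1) * ((fun z : Ω × Ω => B {a, b, z.1, z.2}) '' Γ.offDiag).ncard :=
    fun k6 => c1 3 fun x hx y hy e => by
      have h1 := f1 hx hy e
      have h2 := two hx hy e
      rw [hk _ (d1 hx.2 hy.2 e).ncard] at h1
      simp only [B] at h2 ⊢
      omega
  refine ⟨k5, fun k6 => odd k6 ▸ (dvd_mul_right _ _).mul_right _, fun k6 => ⟨?_, ?_⟩, fun k7 => ?_⟩
  · rw [c2 (Or.inl k6), c1 2 fun x hx y hy e => by
      have h1 := (f1 hx hy e).2.2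
      rw [hk _ (d1 hx.2 hy.2 e).ncard] at h1
      have := h1 (Or.inl k6)
      simp only [B]
      omega]
  · obtain ⟨x, hx, -⟩ := exists_D4_of_le (hm ▸ h4 : 4 ≤ Γ.ncard)
    have hxa : a ≠ x := fun e => ha (e ▸ hx.2)
    have hxb : b ≠ x := fun e => hb' (e ▸ hx.2)
    have d3 : ∀ {c}, c ∉ ({a, b, x} : Set Ω) → D4 a b x c := fun {c} hc => by
      simp only [Set.mem_insert_iff, Set.mem_singleton_iff, not_or] at hc
      exact ⟨hab, hxa, Ne.symm hc.1, hxb, Ne.symm hc.2.1, Ne.symm hc.2.2⟩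
    have mv : ∀ S : Set Ω, a ∈ S → b ∈ S → x ∈ S → S.ncard = 3 + (S \ {a, b, x}).ncard := by
      intro S h1 h2 h3
      rw [← Set.ncard_inter_add_ncard_sdiff_eq_ncard S {a, b, x}, Set.inter_eq_right.2
        (Set.insert_subset h1 (Set.insert_subset h2 (Set.singleton_subset_iff.2 h3))),
        Set.ncard_eq_three.2 ⟨a, b, x, hab, hxa, hxb, rfl⟩]
    rw [mv Θ haD hbD hx.1, fiber_count (Set.toFinite _) (fun c => B {a, b, x, c}) (r := 3)]
    · exact dvd_add dvd_rfl (dvd_mul_right _ _)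
    intro c hc
    have h6 := mv (B {a, b, x, c}) (sub _ (by simp)) (sub _ (by simp)) (sub _ (by simp))
    rw [hk _ (d3 hc.2).ncard] at h6
    have h7 : (B {a, b, x, c} \ {a, b, x}).ncard = 3 := by omega
    rw [← h7]
    congr 1
    ext z
    refine ⟨fun ⟨hz, e⟩ => ⟨?_, hz.2⟩, fun hz => ⟨⟨HB.blk_subset hD
      (by simp [Set.insert_subset_iff, haD, hbD, hx.1, hc.1, Θ]) hz.1, hz.2⟩,
      h.blk_eq (d3 hc.2).ncard (d3 hz.2).ncard (Set.insert_subset (sub _ (by simp))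
        (Set.insert_subset (sub _ (by simp)) (Set.insert_subset (sub _ (by simp))
          (Set.singleton_subset_iff.2 hz.1))))⟩⟩
    exact (show B {a, b, x, z} = B {a, b, x, c} from e) ▸ sub _ (by simp)
  · rw [c2 (Or.inr k7), odd (by omega)]
    omega

end CfsgLib.Frob4
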