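import Mathlib
import Cfsg.Agent.Lib.Frob4.Defs
import Cfsg.Agent.Lib.Frob4.Ag0

/-!
Package YE: the configuration `YE`.  See `plans/FROB4.md`.
-/

set_option autoImplicit false

namespace CfsgLib.Frob4

open MulAction Subgroup
open scoped Pointwise

variable {G Ω : Type*} [Group G] [MulAction G Ω] [Finite G] [Finite Ω] [FaithfulSMul G Ω]

omit [Finite G] [FaithfulSMul G Ω] in
theorem Cf.out {κ : ℕ} {Γ Δ : Set Ω} (h : Cf G κ Γ) (h1 : Δ ⊆ Γ) (hd : Δ.ncard = 4) {g : G}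
    (hg : g ∈ St G Δ) (hM : g ∉ Mn G Γ) {x : Ω} (hx : x ∈ Γ) (hx' : x ∉ Δ) : g • x ∉ Γ := fun e => by
  refine hM (h.mem_of_five ?_)
  have := Set.ncard_le_ncard (s := insert (g • x) Δ) (t := Γ ∩ g • Γ)
    (Set.insert_subset ⟨e, x, hx, rfl⟩ fun z hz => ⟨h1 hz, z, h1 hz, mem_St.1 hg z hz⟩)
  rwa [Set.ncard_insert_of_notMem fun e =>
    hx' (by rwa [smul_left_cancel g (mem_St.1 hg _ e)] at e), hd] at this

omit [Finite G] [Finite Ω] [FaithfulSMul G Ω] in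
theorem AG.odd_ker {κ : ℕ} {Γ Δ : Set Ω} (h : AG G κ Γ) (h1 : Δ ⊆ Γ) (hd : Δ.ncard = 4) {g : G}
    (hg : g ∈ St G Δ) (hk : g ^ κ = 1) (ho : Odd (orderOf g)) : g ∈ St G Γ :=
  h.oddt Δ h1 hd g ⟨centralizer_le_normalizer _ fun v hv => (h.hb.nilp Δ hd.ge g hg v
    (St_mono h1 (Pd_le Γ hv)) hk ho (h.mem_D.1 hv).2).symm, hg⟩ ho

theorem exists_ye {κ : ℕ} {Γ : Set Ω} (h : AG G κ Γ) :
    ∃ (a b c d p q : Ω) (y e : G), YE G κ Γ a b c d p q y e := by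
  obtain ⟨a, b, c, d, y, e, n, hd, hs, yM, ya, yb, yc, yd, y3, he, hp, hk, hc, hor⟩ := ag0 h
  have hd4 := hd.ncard
  have r2 : orderOf e ≠ 2 := fun e2 => hk (e2 ▸ h.hb.two)
  have E1 : e ∉ Mn G Γ := fun e1 => HB.pow_ne_one hk (h.ker _ hs hd4 e ⟨e1, he⟩)
  have E2 : e * e ∉ Mn G Γ := fun e1 => by
    have := h.ker _ hs hd4 _ ⟨e1, mul_mem he he⟩
    rw [← sq, ← pow_mul, ← orderOf_dvd_iff_pow_eq_one, hp.dvd_mul] at this
    exact this.elim (fun e2 => r2 ((Nat.prime_dvd_prime_iff_eq hp Nat.prime_two).1 e2)) hk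
  have E3 : e⁻¹ ∉ Mn G Γ := fun e1 => E1 (by simpa using (Mn G Γ).inv_mem e1)
  have ya' : y • a ≠ a := ya ▸ hd.1.symm
  have f3 : (Γ ∩ fixedBy Ω y).ncard = 3 := by
    have h1 := h.three y yM n y3 fun e => ya' (mem_St.1 e a (hs (by simp)))
    have h2 := ncard_modEq (n := n) Nat.prime_three (h.t4.inv y yM) fun x _ => by rw [y3, one_smul]
    have h3 : 0 < (Γ ∩ fixedBy Ω y).ncard := (Set.ncard_pos (Set.toFinite _)).2 ⟨d, hs (by simp), yd⟩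
    have h4 := h.card.imp_right And.left
    unfold Nat.ModEq at h2
    omega
  have hdm : d ∈ Γ ∩ fixedBy Ω y := ⟨hs (by simp), yd⟩
  obtain ⟨p, q, pq, e1⟩ := Set.ncard_eq_two.1
    (show ((Γ ∩ fixedBy Ω y) \ {d}).ncard = 2 by rw [Set.ncard_sdiff_singleton_of_mem hdm, f3])
  have fix : Γ ∩ fixedBy Ω y = {d, p, q} := by
    rw [← e1, Set.insert_sdiff_singleton, Set.insert_eq_of_mem hdm]
  have hp' : p ∈ (Γ ∩ fixedBy Ω y) \ {d} := e1 ▸ by simp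
  have hq' : q ∈ (Γ ∩ fixedBy Ω y) \ {d} := e1 ▸ by simp
  have nΔ : ∀ x ∈ (Γ ∩ fixedBy Ω y) \ {d}, x ∉ ({a, b, c, d} : Set Ω) := by
    rintro x ⟨⟨-, h1⟩, h2⟩ (rfl | rfl | rfl | rfl)
    exacts [ya' h1, hd.2.2.2.1 (h1.symm.trans yb), hd.2.1 (yc.symm.trans h1), h2 rfl]
  have o1 := fun x (hx : x ∈ (Γ ∩ fixedBy Ω y) \ {d}) => h.out hs hd4 he E1 hx.1.1 (nΔ x hx)
  have o2 := fun x (hx : x ∈ (Γ ∩ fixedBy Ω y) \ {d}) =>
    h.out hs hd4 (mul_mem he he) E2 hx.1.1 (nΔ x hx)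
  have o3 := fun x (hx : x ∈ (Γ ∩ fixedBy Ω y) \ {d}) =>
    h.out hs hd4 (inv_mem he) E3 hx.1.1 (nΔ x hx)
  have hc' : e⁻¹ * y = y * e⁻¹ := (Commute.inv_right hc).symm
  have d2 : D4 d p q (e • p) := ⟨Ne.symm hp'.2, Ne.symm hq'.2, fun e => o1 p hp' (e ▸ hdm.1), pq,
    fun e => o1 p hp' (e ▸ hp'.1.1), fun e => o1 p hp' (e ▸ hq'.1.1)⟩
  have ySt : y ∈ St G ({d, p, q, e • p} : Set Ω) :=
    mem_St4.2 ⟨yd, hp'.1.2, hq'.1.2, smul_fix hc.symm hp'.1.2⟩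
  have yo : Odd (orderOf y) := Odd.of_dvd_nat (Odd.pow (by decide)) (orderOf_dvd_of_pow_eq_one y3)
  obtain ⟨k, -, ek⟩ := h.hb.t4.set (Set.subset_univ _) (Set.subset_univ _) d2.ncard hd4
  have e3 : orderOf e = 3 := by
    refine hor.resolve_right fun H => ?_
    let O : Set Ω → Set G := fun Λ => {g | g ∈ St G Λ ∧ g ^ κ = 1 ∧ Odd (orderOf g)}
    have cj : ∀ Λ g, ∀ x ∈ O Λ, g * x * g⁻¹ ∈ O (g • Λ) := fun Λ g x hx =>
      ⟨conj_mem_St hx.1 g, by rw [conj_pow, hx.2.1]; simp,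
        (MulAut.conj g).orderOf_eq x ▸ hx.2.2⟩
    have h1 : O {a, b, c, d} ⊆ O {d, p, q, e • p} := fun g hg => by
      have h2 := mem_St.1 (h.odd_ker hs hd4 hg.1 hg.2.1 hg.2.2)
      have h3 := cj _ e⁻¹ g hg
      rw [show e⁻¹ • ({a, b, c, d} : Set Ω) = {a, b, c, d} by
        obtain ⟨e1, e2, e3, e4⟩ := mem_St4.1 (inv_mem he)
        simp [Set.smul_set_insert, e1, e2, e3, e4]] at h3
      have h4 := mem_St.1 (h.odd_ker hs hd4 h3.1 h3.2.1 h3.2.2) p hp'.1.1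
      rw [mul_smul, mul_smul, inv_inv, inv_smul_eq_iff] at h4
      exact ⟨mem_St4.2 ⟨h2 d hdm.1, h2 p hp'.1.1, h2 q hq'.1.1, h4⟩, hg.2⟩
    have h2 := Set.eq_of_subset_of_ncard_le h1 (Set.ncard_le_ncard_of_injOn (fun x => k * x * k⁻¹)
      (fun x hx => ek ▸ cj _ k x hx) fun x _ z _ e => by simpa using e)
    exact ya' (mem_St4.1 (h2 ▸ ⟨ySt, H _ d2.ncard.ge y ySt n y3, yo⟩ : y ∈ O {a, b, c, d}).1).1
  rw [e3] at hk
  have y3' : orderOf y = 3 := by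
    refine orderOf_eq_prime ?_ fun e => ya' (by rw [e, one_smul])
    have h1 := h.ker _ hs hd4 (y ^ 3) ⟨pow_mem yM 3, mem_St4.2 (by
      simp [pow_succ, mul_smul, ya, yb, yc, yd])⟩
    have h2 : (y ^ 3) ^ 3 ^ n = 1 := by rw [← pow_mul, mul_comm, pow_mul, y3, one_pow]
    exact orderOf_eq_one_iff.1 (Nat.eq_one_of_dvd_coprimes
      (((Nat.prime_three.coprime_iff_not_dvd).2 hk).pow_left n) (orderOf_dvd_of_pow_eq_one h2)
      (orderOf_dvd_of_pow_eq_one h1))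
  have hp3 : (orderOf e).Prime := e3 ▸ Nat.prime_three
  refine ⟨a, b, c, d, p, q, y, e, h, hd, hs, yM, ya, yb, yc, y3', e3, he, hc, hk, nΔ p hp', nΔ q hq',
    pq, fix, ⟨o1 p hp', o1 q hq', o3 p hp', o3 q hq'⟩, ?_⟩
  have o4 : orderOf (k * y * k⁻¹) = orderOf y := (MulAut.conj k).orderOf_eq y
  obtain ⟨l, -, -, hl⟩ := h.hb.conj _ hd4 e he _ (ek ▸ conj_mem_St ySt k) hp3
    (o4.trans (y3'.trans e3.symm)) (e3 ▸ hk)
  have o5 : (fixedBy Ω e).ncard = (fixedBy Ω y).ncard := by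
    rw [← ncard_fixedBy_conj k y, ← ncard_fixedBy_conj l (k * y * k⁻¹), ← Fx_zpowers, ← Fx_zpowers,
      eq_of_le_of_card_ge (zpowers_le.2 hl) (by
        rw [Nat.card_zpowers, Nat.card_zpowers, e3]
        exact ((MulAut.conj l).orderOf_eq _).trans (o4.trans y3') |>.ge)]
  have o6 : 7 ≤ (fixedBy Ω y).ncard := by
    have n1 : ∀ x ∈ (Γ ∩ fixedBy Ω y) \ {d}, ∀ z ∈ Γ, e • x ≠ e⁻¹ • z := fun x hx z hz e1 =>
      o2 x hx (by rwa [mul_smul, e1, smul_inv_smul])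
    have := Set.ncard_le_ncard (t := fixedBy Ω y) (s := (Γ ∩ fixedBy Ω y) ∪
      ({e • p, e • q} ∪ {e⁻¹ • p, e⁻¹ • q})) (by
        simp only [Set.union_subset_iff, Set.insert_subset_iff, Set.singleton_subset_iff]
        exact ⟨Set.inter_subset_right, ⟨smul_fix hc.symm hp'.1.2, smul_fix hc.symm hq'.1.2⟩,
          smul_fix hc' hp'.1.2, smul_fix hc' hq'.1.2⟩)
    rwa [Set.ncard_union_eq, Set.ncard_union_eq, f3, Set.ncard_pair (by simpa using pq),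
      Set.ncard_pair (by simpa using pq)] at this
    · simp [(n1 p hp' p hp'.1.1).symm, (n1 p hp' q hq'.1.1).symm, (n1 q hq' p hp'.1.1).symm,
        (n1 q hq' q hq'.1.1).symm]
    · simp [o1 p hp', o1 q hq', o3 p hp', o3 q hq']
  have := (hall (h.hb.witt_e hp3 (e3 ▸ hk)) (by omega) fun t ht h2 h4 => by
    rw [h.hb.two_norm hp3 (e3 ▸ hk) ht h2 h4]; exact one_mem _).1
  rw [Nat.odd_iff]
  omega

end CfsgLib.Frob4
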